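/-
Twisted Frobenius maps of the simply connected group over any field, and fixed points in the centraliser of a torus
element whose roots form a standard subsystem.
-/
import Cfsg.Agent.Lib.Chev.Ree2
import Cfsg.Agent.Lib.Tw.InstF4

set_option autoImplicit false

namespace Cfsg.Agent.Chev

open Cfsg.Lie RSys PreRGD Matrix Cfsg.Agent.Generic

variable {D : ChevalleyDatum} [Tab D] {T : TwData} {K : Type*} [Field K] {G : Type*} [Group G] {x : ℕ → K → G}

theorem Twist.r3_fam (h : Twist D T) (hK : CharOK K T.p) (hx : StRel D x) (h3 : R3 D x) : R3 D (T.fam x) := by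
  have key : ∀ (r : Fin D.nroots) (t : K), t ≠ 0 → hElt D (T.fam x) r t = hElt D x (h.ρ r) (t ^ T.e r) := fun r t ht => by
    have h1 : (T.ε r : K) ≠ 0 := IsTw.ε_ne_zero r
    rw [hElt_def, h.fam_nElt hK, h.fam_nElt hK, h.neg_pow hK, one_pow, mul_neg, mul_one, ← h.ρ_val, hx.n_neg,
      hx.n_eq_h_mul _ (_ * _), hx.n_eq_h_mul _ (T.ε r : K), mul_comm (T.ε r : K), ← h3 _ _ _ (pow_ne_zero _ ht) h1]
    group
  intro r t u ht hu
  rw [key r t ht, key r u hu, key r _ (mul_ne_zero ht hu), h3 _ _ _ (pow_ne_zero _ ht) (pow_ne_zero _ hu), mul_pow]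

theorem exists_isTw_st (h : Twist D T) (hK : CharOK K T.p) (φ : K →+* K) :
    ∃ σ, IsTw D T (D.stGen K) φ σ :=
  ⟨_, chv_steinberg D K, h, hK, fun r t => StRel.liftSt_stGen
    ((h.stRel hK (stRel_steinberg D K)).comp_ringHom φ)
    ((h.r3_fam hK (stRel_steinberg D K) (r3_steinberg D K)).comp_ringHom φ) r t⟩

namespace Full

variable (hx : Full D x)

theorem commute_tor_x {a : Fin D.rank → Kˣ} {r : Fin D.nroots} (h : chi D a r = 1) (t : K) :
    Commute (hx.tor a) (x r t) := by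
  have := hx.tor_conj a r t
  rwa [h, Units.val_one, one_mul, mul_inv_eq_iff_eq_mul] at this

theorem nw_mem {J : Set (Fin D.rank)} {M : Subgroup G} (hM : ∀ r, (rs D).InSub J r → x r 1 ∈ M)
    {l : List (Fin D.rank)} (hl : ∀ i ∈ l, i ∈ J) : hx.P.nw l ∈ M := by
  refine list_prod_mem fun g hg => ?_
  obtain ⟨i, hi, rfl⟩ := List.mem_map.1 hg
  have h1 : (rs D).InSub J ((rs D).simple i) := (rs D).inSub_simple.2 (hl i hi)
  rw [R7.pre_n, nElt_eq, inv_one, ← hx.chv.rel.inv ((rs D).neg _).2]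
  exact mul_mem (mul_mem (hM _ h1) (inv_mem (hM _ (inSub_neg.2 h1)))) (hM _ h1)

theorem mem_WJ_of_stab (hi : Function.Injective hx.tor) {a : Fin D.rank → Kˣ} (ha : IsOfFinOrder a)
    {J : Set (Fin D.rank)} (hJ : ∀ r, chi D a r = 1 ↔ (rs D).InSub J r) {w : Equiv.Perm (Fin D.nroots)}
    (hw : w ∈ stabW D a) : w ∈ (rs D).WJ J := by
  have hA := @(rs D).W_le_Aut
  obtain ⟨v, hv, h1⟩ := exists_min_coset_rep J (hA hw.1)
  obtain ⟨l, hl, rfl⟩ := (rs D).mem_WJ_iff.1 hv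
  have h2 : hx.P.nw l ∈ Subgroup.centralizer {hx.tor a} := hx.nw_mem (fun r hr =>
    Subgroup.mem_centralizer_singleton_iff.2 (hx.commute_tor_x ((hJ r).2 hr) 1).symm) hl
  have h3 : mp ((rs D).cw ((rs D).wordW l)) a = a := hi (by
    rw [← hx.nw_conj_tor, Subgroup.mem_centralizer_singleton_iff.1 h2, mul_inv_cancel_right])
  have h4 := mul_mem hw.1 ((rs D).wordW_mem_W l)
  have h5 := (cData_psi ha).conn (w * (rs D).wordW l) ⟨h4, by
    rw [cw_mul (hA hw.1) ((rs D).wordW_mem_Aut l), mp_mul, h3, hw.2]⟩ fun r hr hn => by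
      have h6 := inSub_neg.2 ((hJ r).1 hr)
      rw [← isPos_neg_iff, ← Aut.neg_apply (hA h4)]
      exact Aut.isPos_of_forall_simple (hA h4) (isPos_neg_iff.2 hn) fun i hi => h1 i (by
        by_contra e; exact hi.ne' (h6 i e))
  rw [eq_inv_of_mul_eq_one_left h5]
  exact inv_mem hv

theorem mem_of_fixed (hi : Function.Injective hx.tor) {a : Fin D.rank → Kˣ} (ha : IsOfFinOrder a)
    {J : Set (Fin D.rank)} (hJ : ∀ r, chi D a r = 1 ↔ (rs D).InSub J r) {τ : G →* G} {q : ℕ} (hq : q ≠ 0)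
    (h1 : ∀ r, (rs D).InSub J r → ∀ t, τ (x r t) = x r (t ^ q)) (h2 : ∀ g ∈ hx.P.H, τ g ∈ hx.P.H) {M : Subgroup G}
    (hM1 : ∀ r, (rs D).InSub J r → ∀ t, t ^ q = t → x r t ∈ M) (hM2 : ∀ b, τ (hx.tor b) = hx.tor b → hx.tor b ∈ M)
    {g : G} (hg : τ g = g) (hc : g ∈ Subgroup.centralizer {hx.tor a}) : g ∈ M := by
  obtain ⟨w, hw, t, b, t', ht, ht', rfl⟩ := (hx.cen_centralizer hi a g).1 hc
  obtain ⟨l, hl, rfl⟩ := (rs D).mem_WJ_iff.1 (hx.mem_WJ_of_stab hi ha hJ hw)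
  have hp : ∀ S (t : Fin D.nroots → K), (∀ r, r ∉ psi D a → t r = 0) → τ (hx.pS S t) = hx.pS S fun r => t r ^ q :=
    fun S t ht => by
      rw [pS, pS, map_list_prod, List.map_map]
      refine congrArg _ (List.map_congr_left fun r _ => ?_)
      by_cases hr : r ∈ psi D a
      · exact h1 r ((hJ r).1 hr) _
      · simp [ht r hr, hq, hx.chv.rel.zero r.2]
  have hm : ∀ S (t : Fin D.nroots → K), (∀ r, r ∉ psi D a → t r = 0) → (∀ r ∈ S, t r ^ q = t r) → hx.pS S t ∈ M :=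
    fun S t ht h => by
      refine list_prod_mem fun g hg => ?_
      obtain ⟨r, hr, rfl⟩ := List.mem_map.1 hg
      by_cases hr' : r ∈ psi D a
      · exact hM1 r ((hJ r).1 hr') _ (h r (mem_enum.1 hr))
      · simp [ht r hr', hx.chv.rel.zero r.2]
  have h3 : hx.P.nw l ∈ τ.eqLocus (MonoidHom.id G) := hx.nw_mem (fun r hr => by
    change τ _ = x r 1; rw [h1 r hr, one_pow]) hl
  have h4 : hx.P.nw l ∈ M := hx.nw_mem (fun r hr => hM1 r hr 1 (one_pow _)) hl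
  have h5 : hx.P.nW ((rs D).wordW l) * (hx.P.nw l)⁻¹ ∈ hx.P.H := by
    have := hx.P.nw_conj_H l (inv_mem (hx.P.nW_inv_mul_nw l))
    simpa [mul_assoc] using this
  obtain ⟨c, hc⟩ := hx.mem_H_iff.1 (mul_mem (hx.tor_mem b) h5)
  have h6 : hx.tor b * hx.P.nW ((rs D).wordW l) = hx.tor c * hx.P.nw l := by rw [hc]; group
  have h7 : τ (hx.co ((rs D).wordW l) t b t') = hx.pS {r | (rs D).IsPos r} (fun r => t r ^ q) *
      (τ (hx.tor c) * (hx.P.nW ((rs D).wordW l) * (hx.P.nw l)⁻¹)⁻¹) * hx.P.nW ((rs D).wordW l) *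
      hx.pS ((rs D).nn ((rs D).wordW l)) fun r => t' r ^ q := by
    rw [co, mul_assoc (hx.pS _ _), h6, map_mul, map_mul, map_mul, hp _ _ ht, hp _ _ ht', show τ _ = _ from h3]
    simp only [MonoidHom.id_apply]; group
  have hW := (rs D).wordW_mem_W l
  obtain ⟨-, e1, e2, e3⟩ := hx.nd.obruhat_unique hW hW (hx.pS_mem _ _) (hx.pS_mem _ _)
    (mul_mem (h2 _ (hx.tor_mem c)) (inv_mem h5)) (hx.tor_mem b) (hx.pS_mem _ _) (hx.pS_mem _ _) (h7.symm.trans hg)
  rw [co, mul_assoc (hx.pS _ _), h6]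
  refine mul_mem (mul_mem (hm _ _ ht (hx.pS_unique halfSpace_pos e1)) (mul_mem (hM2 c ?_) h4))
    (hm _ _ ht' (hx.pS_unique (halfSpace_nn _) e3))
  rw [(mul_inv_eq_iff_eq_mul.1 e2), hc]

end Full

end Cfsg.Agent.Chev
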