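/-
Elements of order 5 fixed by the twisted Frobenius map of type `²E₆(2)`.
-/
import Cfsg.Agent.Lib.Tw.Five2
import Cfsg.Agent.Lib.Chev.Prime2
import Cfsg.Agent.Lib.SLn.Steinberg3
import Cfsg.Agent.Lib.Alt.A8L42

set_option autoImplicit false
set_option maxRecDepth 100000

namespace Cfsg.Agent.Chev.Five

open Cfsg.Lie RSys PreRGD Matrix Cfsg.Agent.Generic Cfsg.Agent.SLn

/-- The twisting element of the Weyl group. -/
noncomputable def w0 : Equiv.Perm (Fin chevE6.nroots) := wR chevE6 [68, 66, 36]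

/-- The nodes of the subsystem of type `A₃`. -/
def J : Set (Fin chevE6.rank) := {i | i.val ∈ [1, 2, 3]}

/-- The test for the subsystem. -/
def inJ (r : ℕ) : Bool := allL [0, 4, 5] fun i => decide (certE6.rc chevE6 r i = 0)

theorem inSub_iff (r : Fin chevE6.nroots) : (rs chevE6).InSub J r ↔ inJ r = true := by
  simp only [inJ, allL_iff, decide_eq_true_eq, InSub, agree_E6.rc, J, Set.mem_ofPred_eq]
  have : ∀ i ∈ [0, 4, 5], i < 6 ∧ i ∉ [1, 2, 3] := by decide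
  refine ⟨fun h i hi => h ⟨i, (this i hi).1⟩ (this i hi).2, fun h i hi => h i ?_⟩
  revert i; decide +kernel

theorem w0_apply {r : Fin chevE6.nroots} (h : (rs chevE6).InSub J r) : (w0 r : ℕ) = twE6.π r := by
  have : allLt 72 (fun r => !inJ r || wB chevE6 certE6 [68, 66, 36] r == twE6.π r) = true := by decide +kernel
  have h1 := allLt_iff.1 this r r.2
  rw [(inSub_iff r).1 h] at h1
  rw [w0, ← ChevM.keyOK_E6.wB_eq (by decide)]
  simpa using h1

theorem cw_w0 : (rs chevE6).cw w0 = mx chevE6.rank [[0, 0, 0, 0, -1, 1], [-1, 1, 0, 0, -1, 1], [-1, 0, 0, 0, -1, 2],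
    [-2, 0, 0, 1, -2, 2], [-2, 0, 1, 0, -1, 1], [-1, 0, 0, 0, 0, 0]] :=
  cw_wR_eq ChevM.keyOK_E6 (by decide +kernel)

/-- The roots of the subsystem. -/
def rt (i j : Fin 4) : ℕ := ([[0, 46, 47, 50], [25, 0, 39, 43], [24, 32, 0, 42], [21, 28, 29, 0]].getD i []).getD j 0

theorem rt_lt : ∀ i j, rt i j < chevE6.nroots := by decide +kernel

theorem inJ_rt : ∀ i j, i ≠ j → inJ (rt i j) = true := by decide +kernel

theorem exists_rt {r : Fin chevE6.nroots} (h : (rs chevE6).InSub J r) : ∃ i j, i ≠ j ∧ rt i j = r := by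
  have : ∀ r < 72, inJ r = true → ∃ i j, i ≠ j ∧ rt i j = r := by decide +kernel
  exact this r r.2 ((inSub_iff r).1 h)

variable {k : Type*} [Field k] {G : Type*} [Group G] {x : ℕ → k → G}

theorem chi_y0 {ζ : kˣ} (hζ : orderOf ζ = 5) (r : Fin chevE6.nroots) :
    chi chevE6 (el ζ y0) r = 1 ↔ (rs chevE6).InSub J r := by
  have : ∀ r < 72, ((5 : ℕ) : ℤ) ∣ fv y0 r ↔ inJ r = true := by decide +kernel
  rw [chi_el, ← orderOf_dvd_iff_zpow_eq_one, hζ, inSub_iff, this r r.2]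

theorem cm_y0 {u : kˣ} (hu : u ^ 3 = 1) : ChevM.cm chevE6 (el u y0) = 1 := funext fun j => by
  have : ∀ j < 6, fv y0 (chevE6.simple j) % 3 = 0 := by decide +kernel
  have h1 := chi_el u y0 ((rs chevE6).simple j)
  rw [zpow_eq_zpow_emod' _ hu, rs_simple_val, Nat.cast_ofNat, this j j.2, zpow_zero] at h1
  simp only [chi, pair_simple_simple] at h1
  exact h1

theorem stR [CharP k 2] (hx : StRel chevE6 x) : StR fun i j (t : ZMod 2) => x (rt i j) (ZMod.castHom dvd_rfl k t) := by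
  have h1 : ∀ i j l m, i ≠ j → l ≠ m → i ≠ m → j ≠ l → twF4.commB chevE6 (rt i j) (rt l m) = true := by decide +kernel
  have h2 : ∀ i j l, i ≠ j → j ≠ l → i ≠ l → rt i j ≠ rt j l ∧ rt i j ≠ chevE6.neg (rt j l) ∧
      (chevE6.commTerms (rt j l) (rt i j) = [(rt i l, 1, 1, 1)] ∨
        chevE6.commTerms (rt j l) (rt i j) = [(rt i l, -1, 1, 1)]) := by decide +kernel
  refine ⟨fun _ t u => by rw [hx.add _ _ _ (rt_lt _ _), map_add], fun a b c d t u =>
    hx.commute_of_commB (T := twF4) (charOK_of k 2) (rt_lt _ _) (rt_lt _ _) (h1 _ _ _ _ a b c d) _ _,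
    fun {i j l} a b c t u => ?_⟩
  obtain ⟨h3, h4, h5⟩ := h2 i j l a b c
  have h6 := hx.comm _ _ (ZMod.castHom dvd_rfl k u) (ZMod.castHom dvd_rfl k t) (rt_lt _ _) (rt_lt _ _) h3 h4
  rw [hx.inv (rt_lt _ _), hx.inv (rt_lt _ _), CharTwo.neg_eq, CharTwo.neg_eq] at h6 ⊢
  rw [h6, ChevalleyDatum.commWord, map_mul, mul_comm]
  rcases h5 with e | e <;> simp [e, CharTwo.neg_eq]

variable {φ : k →+* k} {τ : G →* G} (h : IsTw chevE6 twE6 x φ τ) (hφ : ∀ t, φ t = t ^ 2)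
include hφ

theorem mem_TW_iff {b : Fin chevE6.rank → kˣ} : b ∈ h.TW w0 ↔ ∃ u : kˣ, u ^ 15 = 1 ∧ b = el u y0 := by
  have e : (((2 : ℕ) : ℤ) • (1 : Matrix _ _ ℤ) - ((rs chevE6).cw w0).submatrix h.tw.νp id) = mx chevE6.rank
      [[3, 0, 0, 0, 0, 0], [1, 1, 0, 0, 1, -1], [2, 0, 1, 0, 1, -1], [2, 0, 0, 1, 2, -2], [1, 0, 0, 0, 3, -2],
        [0, 0, 0, 0, 1, 1]] := by
    ext i j
    simp only [cw_w0, mx, Matrix.sub_apply, submatrix_apply, of_apply, Twist.νp_val, id]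
    revert i j; decide +kernel
  rw [IsTw.mem_TW, h.σT_eq_iff rfl hφ, TA_eq_ker, e, MonoidHom.mem_ker]
  constructor
  · intro h1
    have h2 : ∀ B : List (List ℤ), mp (mx chevE6.rank B * mx chevE6.rank [[3, 0, 0, 0, 0, 0], [1, 1, 0, 0, 1, -1],
      [2, 0, 1, 0, 1, -1], [2, 0, 0, 1, 2, -2], [1, 0, 0, 0, 3, -2], [0, 0, 0, 0, 1, 1]]) b = 1 := fun B => by
        rw [mp_mul, h1, map_one]
    have h3 : ∀ y : ℕ → ℤ, mp (of fun (i j : Fin chevE6.rank) => if j = ⟨4, by decide⟩ then y i else 0) b =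
        el (b ⟨4, by decide⟩) y := fun y => funext fun i => by simp [mp_apply, el, apply_ite (b _ ^ ·)]
    refine ⟨b ⟨4, by decide⟩, ?_, ?_⟩
    · have h4 := h2 [[-1, 0, 0, 0, 3, 6]]
      rw [show _ * _ = of fun (i j : Fin chevE6.rank) => if j = ⟨4, by decide⟩ then [15].getD i (0 : ℤ) else 0 by
        decide +kernel, h3 ([15].getD · 0)] at h4
      exact (zpow_natCast _ 15).symm.trans (congrFun h4 ⟨0, by decide⟩)
    · have h4 := h2 [[0, 0, 0, 0, 1, 2], [0, 1, 0, 0, -1, -1], [0, 0, 1, 0, -2, -3], [0, 0, 0, 1, -2, -2],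
        [0, 0, 0, 0, 0, 0], [0, 0, 0, 0, 0, 1]]
      rw [show _ * _ = 1 - of fun (i j : Fin chevE6.rank) => if j = ⟨4, by decide⟩ then y0 i else 0 by
        decide +kernel, mp_sub, mp_one, h3] at h4
      exact mul_inv_eq_one.1 h4
  · rintro ⟨u, hu, rfl⟩
    refine (mp_zpow _ u fun i : Fin chevE6.rank => y0 i).trans (funext fun j => ?_)
    rw [zpow_eq_zpow_emod' _ hu, show _ % _ = (0 : ℤ) by revert j; decide +kernel, zpow_zero, Pi.one_apply]

include h in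
theorem tw_x [CharP k 2] (hx : Full chevE6 x) {r : Fin chevE6.nroots} (hr : (rs chevE6).InSub J r) (t : k) :
    tw (hx.P.nW w0)⁻¹ τ (x r t) = x r (t ^ 2) := by
  obtain ⟨c, hc, h1, -⟩ := hx.chv.rel.r7.nW_conj hx.chv.rel (wR_mem [68, 66, 36]) r
  have h2 : c = 1 := hc.elim id fun e => by rw [e, CharTwo.neg_eq]
  have h3 : (twE6.ε r : k) = 1 := by rcases twE6.ε_cases r with e | e <;> simp [e, CharTwo.neg_eq]
  rw [tw_apply, h.σ_x, h.τ_eq per_E6, hφ, h3, one_mul, Twist.ρ_val, ← w0_apply hr, inv_inv, ← one_mul (t ^ 2), ← h2,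
    w0, ← h1, h2, one_mul]
  group

section alg

variable [CharP k 2] {σ : G →* G} (A : Alg chevE6 x 2 4 σ) (hi : Function.Injective A.full.tor)
  (hm : ∀ g, τ^[2] g = σ g) {ζ : kˣ} (hζ : orderOf ζ = 5) (hz : ∀ v : kˣ, v ^ 5 = 1 → v ∈ Subgroup.zpowers ζ)

include h hi in
theorem tw_tor {b : Fin chevE6.rank → kˣ} :
    tw (A.full.P.nW w0)⁻¹ τ (A.full.tor b) = A.full.tor b ↔ ∃ u : kˣ, u ^ 15 = 1 ∧ b = el u y0 := by
  rw [w0, h.tw_tor_iff A.full (wR_mem _), hi.eq_iff, ← w0, ← h.mem_TW, mem_TW_iff h hφ]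

include h hi hm hζ hz in
theorem conj_five {s : G} (hs : tw (A.full.P.nW w0)⁻¹ τ s = s) (h5 : s ^ 5 = 1) (h1 : s ≠ 1) :
    ∃ c, tw (A.full.P.nW w0)⁻¹ τ c = c ∧ c * s * c⁻¹ = A.full.tor (el ζ y0) := by
  obtain ⟨n, hn, e⟩ := A.frob.exists_iterate_tw A.full A.one_lt A.loc two_pos hm (A.full.P.nW w0)⁻¹
  obtain ⟨g, a, rfl⟩ := A.exists_conj_tor (n := 5) (by norm_num) h5
  have h2 : a ^ 5 = 1 := hi (by rw [conj_pow, conj_eq_one_iff] at h5; rw [map_pow, h5, map_one])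
  obtain ⟨w, hw, h3⟩ := A.full.exists_W_conj (g⁻¹ * (A.full.P.nW w0)⁻¹ * τ g)
  have h4 := hi (h3 (h.σT a) a (by
    rw [tw_apply, map_mul, map_mul, map_inv, h.map_tor A.full] at hs
    calc _ = g⁻¹ * ((A.full.P.nW w0)⁻¹ * (τ g * A.full.tor (h.σT a) * (τ g)⁻¹) * (A.full.P.nW w0)⁻¹⁻¹) * g := by group
      _ = _ := by rw [hs]; group))
  obtain ⟨v, hv, h6⟩ := orbit hζ hz h2 ⟨w * h.tw.ρ, fun r => Units.ext (by
    conv_lhs => rw [← h4, Equiv.Perm.mul_apply, chi_cw ((rs chevE6).W_le_Aut hw), h.chi_σT'' A.full, h.τ_eq per_E6, hφ]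
    rfl)⟩ (by rintro rfl; simp at h1)
  have h7 : A.full.P.nW v * g⁻¹ * (g * A.full.tor a * g⁻¹) * (A.full.P.nW v * g⁻¹)⁻¹ = A.full.tor (el ζ y0) := by
    rw [← h6, ← A.full.nW_conj_tor hv]; group
  obtain ⟨c, hc, h8⟩ := (A.itr hn).exists_fixed_conj (Nat.mul_pos two_pos hn) e hs (g := A.full.P.nW v * g⁻¹)
    (by rw [h7, tw_tor h hφ A hi]; exact ⟨ζ, by rw [← orderOf_dvd_iff_pow_eq_one, hζ]; norm_num, rfl⟩)
    (n := 5) (by norm_num) h5
  exact ⟨c, hc, h8.trans h7⟩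

variable {Γ : Type*} [Group Γ] (ψ : (tw (A.full.P.nW w0)⁻¹ τ).eqLocus (MonoidHom.id G) →* Γ)
  (hs : Function.Surjective ψ) (hk : ∀ g, ψ g = 1 ↔ ∃ a, ChevM.cm chevE6 a = 1 ∧ A.full.tor a = g)

include h hi hm hζ hz hs hk in
theorem main : (∀ a b : Γ, orderOf a = 5 → orderOf b = 5 → IsConj a b) ∧ ∀ a : Γ, orderOf a = 5 →
    Nonempty (Subgroup.centralizer {a} ≃* (Multiplicative (ZMod 5) × alternatingGroup (Fin 8))) := by
  have h5 : ζ ^ 5 = 1 := hζ ▸ pow_orderOf_eq_one ζ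
  have hS : ∀ {g}, g ∈ (tw (A.full.P.nW w0)⁻¹ τ).eqLocus (MonoidHom.id G) ↔ tw (A.full.P.nW w0)⁻¹ τ g = g := Iff.rfl
  have hT : ∀ {u : kˣ}, u ^ 15 = 1 → A.full.tor (el u y0) ∈ (tw (A.full.P.nW w0)⁻¹ τ).eqLocus (MonoidHom.id G) :=
    fun hu => (tw_tor h hφ A hi).2 ⟨_, hu, rfl⟩
  have h15 : ζ ^ 15 = 1 := by rw [show 15 = 5 * 3 from rfl, pow_mul, h5, one_pow]
  have hel : ∀ (u : kˣ) (n : ℤ), el (u ^ n) y0 = el u y0 ^ n := fun u n => funext fun i => by
    simp only [el, Pi.pow_apply, ← _root_.zpow_mul, mul_comm]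
  have ha5 : el ζ y0 ^ 5 = 1 := by
    rw [← zpow_natCast, ← hel, zpow_natCast, h5]; exact funext fun i => _root_.one_zpow _
  set t : (tw (A.full.P.nW w0)⁻¹ τ).eqLocus (MonoidHom.id G) := ⟨_, hT h15⟩ with ht
  have ht5 : t ^ 5 = 1 := Subtype.ext (by rw [Subgroup.coe_pow, ← map_pow, ha5, map_one]; rfl)
  have hk3 : ∀ g, ψ g = 1 → g ^ 3 = 1 ∧ ∀ g', Commute g g' := fun g hg => by
    obtain ⟨a, h1, h2⟩ := (hk g).1 hg
    refine ⟨Subtype.ext (by rw [Subgroup.coe_pow, ← h2, ← map_pow, expC_E6.pow_eq_one h1, map_one]; rfl),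
      fun g' => Subtype.ext ?_⟩
    have : Commute (A.full.tor a) g' := A.full.induction (p := fun g => Commute (A.full.tor a) g) (Commute.one_right _)
      (fun r t g hg => (A.full.commute_tor_x (by
        rw [chi_eq_prod]
        exact Finset.prod_eq_one fun j _ => by
          rw [show chi chevE6 a ((rs chevE6).simple j) = 1 by
            simp only [chi, pair_simple_simple]; exact congrFun h1 j, _root_.one_zpow]) t).mul_right hg) g'
    rw [h2] at this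
    exact this
  have ht1 : t ≠ 1 := fun e => by
    have h1 : el ζ y0 = 1 := hi ((congrArg Subtype.val e).trans (map_one _).symm)
    have h2 := (inSub_iff ⟨36, by decide⟩).1 ((chi_y0 hζ _).1 (by rw [h1, chi_one]))
    revert h2; decide +kernel
  have hp : ∀ {g : (tw (A.full.P.nW w0)⁻¹ τ).eqLocus (MonoidHom.id G)}, g ^ 5 = 1 → ψ g = 1 → g = 1 := fun {g} h1 h2 => by
    rw [← pow_one g, show 1 = Nat.gcd 5 3 from rfl]; exact pow_gcd_eq_one.2 ⟨h1, (hk3 g h2).1⟩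
  have : Fact (Nat.Prime 5) := ⟨by norm_num⟩
  have ho : orderOf (ψ t) = 5 := orderOf_eq_prime (by rw [← map_pow, ht5, map_one]) fun e => ht1 (hp ht5 e)
  have hc : ∀ a : Γ, orderOf a = 5 → IsConj a (ψ t) := fun a ha => by
    obtain ⟨g, rfl⟩ := hs a
    have h1 : ψ g ^ 5 = 1 := ha ▸ pow_orderOf_eq_one _
    have h2 : ψ (g ^ 6) = ψ g := by rw [map_pow, pow_succ, h1, one_mul]
    have h3 : (g ^ 6) ^ 5 = 1 := by
      rw [← pow_mul, show 6 * 5 = 5 * 3 * 2 from rfl, pow_mul, pow_mul, (hk3 _ (by rw [map_pow, h1])).1, one_pow]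
    obtain ⟨c, h4, h6⟩ := conj_five h hφ A hi hm hζ hz (g ^ 6).2 (congrArg Subtype.val h3) fun e => by
      rw [show g ^ 6 = 1 from Subtype.ext e, map_one] at h2
      rw [← h2, orderOf_one] at ha
      omega
    exact isConj_iff.2 ⟨ψ ⟨c, h4⟩, by
      rw [← h2, ← map_inv, ← map_mul, ← map_mul]; exact congrArg ψ (Subtype.ext h6)⟩
  refine ⟨fun a b h1 h2 => (hc a h1).trans (hc b h2).symm, fun a ha => ?_⟩
  obtain ⟨c, hc⟩ := isConj_iff.1 (hc a ha)
  suffices Nonempty (Subgroup.centralizer {ψ t} ≃* (Multiplicative (ZMod 5) × alternatingGroup (Fin 8))) by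
    refine this.map fun e => MulEquiv.trans ?_ e
    refine ((MulAut.conj c).subgroupMap _).trans (MulEquiv.subgroupCongr ?_)
    ext g
    refine Subgroup.mem_map_equiv.trans ?_
    rw [← hc, Subgroup.mem_centralizer_singleton_iff, Subgroup.mem_centralizer_singleton_iff,
      MulAut.conj_symm_apply, ← mul_left_inj c⁻¹, ← mul_right_inj c]
    simp [mul_assoc]
  obtain ⟨f, hf⟩ := (stR A.full.chv.rel).exists_hom (by simp)
  obtain ⟨e⟩ := Alt.exists_equiv_A8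
  have hJ : ∀ {i j}, i ≠ j → (rs chevE6).InSub J ⟨rt i j, rt_lt i j⟩ := fun hij => (inSub_iff _).2 (inJ_rt _ _ hij)
  have hf1 : ∀ g, f g ∈ (tw (A.full.P.nW w0)⁻¹ τ).eqLocus (MonoidHom.id G) ⊓
      Subgroup.centralizer {A.full.tor (el ζ y0)} := fun g => by
    refine Subgroup.mem_comap.1 ((eq_top_of_xSL_mem fun i j hij u => ?_).ge (Subgroup.mem_top g))
    rw [Subgroup.mem_comap, hf i j hij]
    refine ⟨(tw_x h hφ A.full (hJ hij) _).trans ?_, Subgroup.mem_centralizer_singleton_iff.2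
      (A.full.commute_tor_x ((chi_y0 hζ _).2 (hJ hij)) _).symm⟩
    rw [← map_pow, ZMod.pow_card]; rfl
  let l : alternatingGroup (Fin 8) →* Γ := ψ.comp ((f.codRestrict _ fun g => (hf1 g).1).comp e.toMonoidHom)
  have hl : ∀ g, l g = ψ ⟨f (e g), (hf1 _).1⟩ := fun _ => rfl
  have hlt : ∀ g, Commute (ψ t) (l g) := fun g => by
    rw [hl]
    exact Commute.map (Subtype.ext (Subgroup.mem_centralizer_singleton_iff.1 (hf1 (e g)).2).symm) ψ
  have := alternatingGroup.isSimpleGroup (α := Fin 8) (by simp)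
  have hli : Function.Injective l := by
    rw [← MonoidHom.ker_eq_bot_iff]
    refine (MonoidHom.normal_ker l).eq_bot_or_eq_top.resolve_right fun e' => ?_
    have h1 : l (e.symm (xSL 0 1 1)) = 1 := MonoidHom.mem_ker.1 (e' ▸ Subgroup.mem_top _)
    have h2 := congrArg Subtype.val (hk3 _ h1).1
    rw [Subgroup.coe_pow, Subgroup.coe_one] at h2
    change f (e (e.symm _)) ^ 3 = 1 at h2
    rw [e.apply_symm_apply, hf 0 1 (by decide), map_one, pow_three, A.full.chv.rel.add _ _ _ (rt_lt _ _),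
      A.full.chv.rel.add _ _ _ (rt_lt _ _), CharTwo.add_self_eq_zero, add_zero] at h2
    exact one_ne_zero (A.full.chv.eq_zero (r := ⟨_, rt_lt 0 1⟩) h2)
  let z : Multiplicative (ZMod 5) →* Γ := (ZMod.lift 5 ⟨zmultiplesHom (Additive Γ) (Additive.ofMul (ψ t)), by
    exact (zpow_natCast (ψ t) 5).trans (ho ▸ pow_orderOf_eq_one _)⟩).toMultiplicativeLeft
  have hz' : ∀ n : ℤ, z (Multiplicative.ofAdd (n : ZMod 5)) = ψ t ^ n := fun n => by simp [z]
  have hz2 : ∀ i, ∃ n : ℤ, i = Multiplicative.ofAdd (n : ZMod 5) := fun i =>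
    (ZMod.intCast_surjective i.toAdd).imp fun n e => by rw [e]; rfl
  have hzl : ∀ i g, Commute (z i) (l g) := fun i g => by
    obtain ⟨n, rfl⟩ := hz2 i
    rw [hz']; exact (hlt g).zpow_left n
  let Φ := z.noncommCoprod l hzl
  have hΦ : Function.Injective Φ := (injective_iff_map_eq_one _).2 fun ⟨i, g⟩ h1 => by
    have h2 : z i * l g = 1 := h1
    have h3 : g = 1 := by
      rw [← Subgroup.mem_bot, ← alternatingGroup.center_eq_bot (by simp), Subgroup.mem_center_iff]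
      intro g'
      apply hli
      rw [map_mul, map_mul, eq_inv_of_mul_eq_one_right h2]
      exact (hzl i g').inv_left.symm
    obtain ⟨n, rfl⟩ := hz2 i
    rw [h3, map_one, mul_one, hz', ← orderOf_dvd_iff_zpow_eq_one, ho] at h2
    rw [h3, (ZMod.intCast_zmod_eq_zero_iff_dvd n 5).2 h2]; rfl
  refine ⟨(MulEquiv.subgroupCongr ?_).trans (MonoidHom.ofInjective hΦ).symm⟩
  refine le_antisymm (fun a ha => ?_) ?_
  · obtain ⟨g, rfl⟩ := hs a
    have h1 : ψ (g * t * g⁻¹ * t⁻¹) = 1 := by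
      rw [map_mul, map_mul, map_mul, Subgroup.mem_centralizer_singleton_iff.1 ha, map_inv, map_inv]; group
    have h2 : g * t * g⁻¹ * t⁻¹ = 1 := hp (by
      have h3 := ((hk3 _ h1).2 t).mul_pow 5
      rwa [inv_mul_cancel_right, conj_pow, ht5, mul_one, mul_one, mul_inv_cancel, eq_comm] at h3) h1
    obtain ⟨g', h3, h4⟩ := A.full.mem_of_fixed hi (isOfFinOrder_iff_pow_eq_one.2 ⟨5, by norm_num, ha5⟩) (chi_y0 hζ)
      two_ne_zero (fun r hr => tw_x h hφ A.full hr) (fun g hg => by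
        obtain ⟨b, rfl⟩ := A.full.mem_H_iff.1 hg
        rw [tw_apply, h.map_tor A.full, inv_inv]
        exact A.full.P.nW_inv_conj_H _ (A.full.tor_mem _))
      (M := (Φ.range.comap ψ).map (Subgroup.subtype _)) (fun r hr u hu => by
        obtain ⟨i, j, hij, h3⟩ := exists_rt hr
        obtain ⟨u, rfl⟩ : ∃ v, ZMod.castHom dvd_rfl k v = u := exists_algebraMap_eq _ (by simpa using hu)
        refine ⟨⟨_, (hf1 (xSL i j u)).1⟩, ⟨(1, e.symm (xSL i j u)), ?_⟩, by rw [← h3, ← hf i j hij]; rfl⟩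
        simp [Φ, hl]) (fun b hb => by
        obtain ⟨u, hu, rfl⟩ := (tw_tor h hφ A hi).1 hb
        obtain ⟨n, hn⟩ := hz (u ^ 6) (by rw [← pow_mul, show 6 * 5 = 15 * 2 from rfl, pow_mul, hu, one_pow])
        refine ⟨⟨_, hb⟩, ⟨(Multiplicative.ofAdd (n : ZMod 5), 1), ?_⟩, rfl⟩
        rw [show Φ _ = z _ * l 1 from rfl, map_one, mul_one, hz', ← map_zpow, ← mul_inv_eq_one, ← map_inv, ← map_mul, hk]
        refine ⟨el (u ^ 5) y0, cm_y0 (by rw [← pow_mul, hu]), ?_⟩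
        change _ = A.full.tor _ ^ n * (A.full.tor _)⁻¹
        rw [← map_zpow, ← map_inv, ← map_mul, ← hel, show ζ ^ n = u ^ 6 from hn, ← zpow_natCast, ← zpow_natCast, hel, hel,
          ← _root_.zpow_sub_one]
        rfl) g.2 (Subgroup.mem_centralizer_singleton_iff.2 (congrArg Subtype.val
          (mul_inv_eq_iff_eq_mul.1 (mul_inv_eq_one.1 h2))))
    rwa [← show g' = g from Subtype.ext h4]
  · rintro _ ⟨⟨i, g⟩, rfl⟩
    obtain ⟨n, rfl⟩ := hz2 i
    rw [show Φ _ = z _ * l g from rfl, hz']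
    exact Subgroup.mem_centralizer_singleton_iff.2 (((Commute.refl _).zpow_left n).mul_left (hlt g).symm)

end alg

end Cfsg.Agent.Chev.Five
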