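import Cfsg.Agent.Lib.Tw.OutA
import Cfsg.Agent.Lib.Chev.Kempf
import Cfsg.Agent.Lib.Chev.DCoset

/-! Overgroups of fixed point subgroups: the fixed points are strongly embedded. -/

set_option autoImplicit false
set_option linter.unusedSectionVars false

namespace Cfsg.Agent.Chev
open RSys PreRGD

variable {ι I : Type*} [Fintype I] [DecidableEq I] {R : RSys ι I} {G : Type*} [Group G] [Fintype ι] [DecidableEq ι]
  {P : PreRGD R G}

theorem RSys.rval_WJ {ψ : I → ℝ} {w : Equiv.Perm ι} (hw : w ∈ R.WJ {i | ψ i = 0}) (r : ι) :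
    R.rval ψ (w r) = R.rval ψ r :=
  Finset.sum_congr rfl fun i _ => by
    by_cases h : ψ i = 0
    · simp [h]
    · rw [rc_apply_of_mem_WJ hw r h]

/-- The optimal linear form of a set of unipotent elements is unique. -/
theorem PreRGD.Nondeg.exists_optimal' (hP : P.Nondeg) {X : Set G} {g1 : G} (hg1 : g1 ∈ P.full)
    (hX : ∀ x ∈ X, g1⁻¹ * x * g1 ∈ P.U) :
    ∃ g ∈ P.full, ∃ φ : I → ℝ, (∀ i, 0 ≤ φ i) ∧ (∀ x ∈ X, g⁻¹ * x * g ∈ P.US {r | 1 ≤ R.rval φ r}) ∧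
      ∀ n ∈ P.full, ∀ ψ : I → ℝ, (∀ i, 0 ≤ ψ i) → R.rQ ψ = R.rQ φ →
        (∀ x ∈ X, n⁻¹ * x * n ∈ P.US {r | 1 ≤ R.rval ψ r}) → ψ = φ ∧ g⁻¹ * n ∈ P.PJ {i | φ i = 0} := by
  let Ω : Set (I → ℝ) := {φ | ∃ g ∈ P.full, ∀ x ∈ X, g⁻¹ * x * g ∈ P.US {r | 1 ≤ R.rval φ r}}
  have hc : IsClosed Ω := by
    have : Ω = ⋃ S ∈ {S : Set ι | ∃ g ∈ P.full, ∀ x ∈ X, g⁻¹ * x * g ∈ P.US S}, ⋂ r ∈ S, {φ | 1 ≤ R.rval φ r} := by
      ext φ
      simp only [Set.mem_iUnion, Set.mem_iInter, Set.mem_ofPred_eq, Ω]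
      exact ⟨fun h => ⟨_, h, fun _ h => h⟩, fun ⟨S, ⟨g, hg, h⟩, h'⟩ => ⟨g, hg, fun x hx => USub_mono h' (h x hx)⟩⟩
    rw [this]
    exact (Set.toFinite _).isClosed_biUnion fun S _ => isClosed_biInter fun r _ =>
      isClosed_le continuous_const (continuous_rval r)
  have hne : Ω.Nonempty := ⟨fun _ => 1, g1, hg1, fun x hx => by
    refine USub_mono (fun r hr => ?_) (hX x hx)
    have h1 : (1 : ℤ) ≤ R.ht r := IsPos.ht_pos hr
    have h2 : R.rval (fun _ => 1) r = R.ht r := by simp [rval, ht, htv_apply]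
    show (1 : ℝ) ≤ _
    rw [h2]; exact_mod_cast h1⟩
  obtain ⟨φ0, ⟨g0, hg0, h0⟩, hmin⟩ := exists_min_rQ (R := R) hc hne
  obtain ⟨w0, hw0, hdom⟩ := exists_dominant (R := R) φ0
  set φ : I → ℝ := fun i => R.rval φ0 (w0 (R.simple i)) with hφ
  have hQ : R.rQ φ = R.rQ φ0 := rQ_apply φ0 (R.W_le_Aut hw0)
  have h1 : ∀ x ∈ X, (g0 * P.nW w0)⁻¹ * x * (g0 * P.nW w0) ∈ P.US {r | 1 ≤ R.rval φ r} := fun x hx => by
    have := P.nW_inv_conj_US hw0 (T := {r | 1 ≤ R.rval φ r}) (fun s hs => by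
      show (1 : ℝ) ≤ _
      rw [hφ, rval_apply φ0 (R.W_le_Aut hw0)]; simpa using hs) (h0 x hx)
    simpa [mul_assoc] using this
  set g := g0 * P.nW w0 with hg
  have hgf : g ∈ P.full := mul_mem hg0 (P.nW_mem_full _)
  refine ⟨g, hgf, φ, hdom, h1, fun n hn φ' hdom' hQ' h2 => ?_⟩
  obtain ⟨w, hw, b, hb, c, hc, e⟩ := P.mem_full_iff.1 (mul_mem (inv_mem hgf) hn)
  have hA : ∀ r ∈ {r | 1 ≤ R.rval φ r}, R.IsPos r := fun r hr => isPos_of_rval hdom (lt_of_lt_of_le one_pos hr)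
  have hA' : ∀ r ∈ {r | 1 ≤ R.rval φ' r}, R.IsPos r := fun r hr => isPos_of_rval hdom' (lt_of_lt_of_le one_pos hr)
  have hwA := R.W_le_Aut hw
  set ψ : I → ℝ := fun i => R.rval φ' (w⁻¹ (R.simple i)) with hψ
  have hψv : ∀ r, R.rval ψ r = R.rval φ' (w⁻¹ r) := rval_apply φ' (inv_mem hwA)
  have h3 : (fun i => (φ i + ψ i) / 2) ∈ Ω := ⟨g * b, mul_mem hgf (P.B_le_full hb), fun x hx => by
    have a1 : (g * b)⁻¹ * x * (g * b) ∈ P.US {r | 1 ≤ R.rval φ r} := by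
      simpa [mul_assoc] using B_conj_US (ideal_rval hdom) hA (inv_mem hb) (h1 x hx)
    have a2 : (g * b)⁻¹ * x * (g * b) ∈ P.US {r | 1 ≤ R.rval ψ r} := by
      have := P.nW_conj_US hw (T := {r | 1 ≤ R.rval ψ r}) (fun s hs => by
        show (1 : ℝ) ≤ _
        rw [hψv]; simpa using hs) (B_conj_US (ideal_rval hdom') hA' hc (h2 x hx))
      have e2 : n = g * (b * P.nW w * c) := by rw [← e]; simp
      rw [e2] at this
      simpa [mul_assoc] using this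
    have a3 : (g * b)⁻¹ * x * (g * b) ∈ P.US {r | 1 ≤ R.rval φ r} ⊓ P.US {r | 1 ≤ R.rval ψ r} := ⟨a1, a2⟩
    rw [hP.US_inf' (closed_rval φ) (closed_rval ψ) hA ((halfSpace_pos.preimage (inv_mem hwA)).mono fun r hr =>
      hA' _ (by simpa [hψv] using hr))] at a3
    refine USub_mono (fun r hr => ?_) a3
    have e : R.rval (fun i => (φ i + ψ i) / 2) r = (R.rval φ r + R.rval ψ r) / 2 := by
      simp only [rval, ← Finset.sum_add_distrib, Finset.sum_div]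
      exact Finset.sum_congr rfl fun i _ => by ring
    have b1 : 1 ≤ R.rval φ r := hr.1
    have b2 : 1 ≤ R.rval ψ r := hr.2
    show (1 : ℝ) ≤ _
    rw [e]; linarith⟩
  have h4 := eq_of_rQ_le (R := R) ((rQ_apply φ' (inv_mem hwA)).trans hQ') (hQ ▸ hmin _ h3)
  have h5 : ∀ r, R.rval φ' r = R.rval φ (w r) := fun r => by
    rw [← h4 (w r), rval_apply φ' (inv_mem hwA)]; simp
  have h6 : w ∈ R.WJ {i | φ i = 0} := mem_WJ_of_invs (inv_mem hw) (fun r hr => (inSub_iff_rval hdom).2 (by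
    rw [mem_invs] at hr
    have := h5 (w⁻¹ r)
    simp only [Equiv.Perm.coe_inv, Equiv.apply_symm_apply] at this
    exact le_antisymm (this ▸ rval_nonpos hdom' hr.2) (rval_nonneg hdom hr.1))) |> inv_mem_iff.mp
  exact ⟨funext fun i => by rw [← rval_simple (R := R) φ', h5, rval_WJ h6, rval_simple],
    P.cell_subset_PJ h6 ⟨b, hb, c, hc, e⟩⟩

/-- The highest root. -/
structure RSys.Top (R : RSys ι I) (θ : ι) : Prop where
  len_le : ∀ r, R.len r ≤ R.len θ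
  rc_le : ∀ r, R.rc r ≤ R.rc θ

theorem RSys.add_of_long {k r s : ι} (hr : R.len k ≤ R.len r) (hs : R.len s = R.len r) (h : s ≠ R.neg r)
    (hk : k ∈ R.intv r s) : R.rc k = R.rc r + R.rc s ∧ R.pair r s = -1 := by
  have h0 : s ≠ r := by rintro rfl; simp [intv_self] at hk
  obtain ⟨i, j, hi, hj, e⟩ := hk
  have h1 := R.form_self k
  have h2 := pair_mul_pair_le h0 h
  have h3 := R.pair_eq_of_len_eq hs
  simp only [e, map_add, map_smul, LinearMap.add_apply, LinearMap.smul_apply, form_rc_rc, pair_self, hs, h3,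
    smul_eq_mul] at h1
  rw [h3] at h2
  have h4 := R.len_pos r
  have h5 : -1 ≤ R.pair r s := by nlinarith
  have h6 : (i : ℤ) * i + j * j + i * j * R.pair r s ≤ 1 := by nlinarith
  have hi' : (1 : ℤ) ≤ i := by exact_mod_cast hi
  have hj' : (1 : ℤ) ≤ j := by exact_mod_cast hj
  have h7 : (1 : ℤ) ≤ i * j := by nlinarith
  have h8 : (i : ℤ) * j = 1 := by nlinarith [sq_nonneg ((i : ℤ) - j)]
  have h9 : (i : ℤ) = 1 := by nlinarith
  have h10 : (j : ℤ) = 1 := by nlinarith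
  rw [h9, h10] at h6 e
  exact ⟨by simpa using e, by omega⟩

namespace RSys.Top
variable {θ : ι} (T : R.Top θ)
include T

theorem pos : R.IsPos θ := by
  by_contra h
  have := htv_apply (R.rc θ) ▸ htv_apply (R.rc (R.neg θ)) ▸ Finset.sum_le_sum fun i _ => T.rc_le (R.neg θ) i
  have h1 := ht_neg_of_not_isPos h
  have h2 := R.ht_neg θ
  simp only [ht] at *
  omega

theorem ht_le (r : ι) : R.ht r ≤ R.ht θ := Finset.sum_le_sum fun i _ => T.rc_le r i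

theorem intv_eq {r : ι} (hr : R.IsPos r) : R.intv r θ = ∅ := Set.eq_empty_of_forall_notMem fun k hk =>
  (phi_lt_of_mem_intv (φ := htv) hr.ht_pos T.pos.ht_pos hk).2.not_ge (T.ht_le k)

theorem commute {a u : G} (ha : a ∈ P.X θ) (hu : u ∈ P.U) : Commute u a :=
  USub_induction (C := fun u => Commute u a) hu (fun r hr x hx => by
    have := P.commOn_halfSpace halfSpace_pos r hr θ T.pos x hx a ha
    rw [T.intv_eq hr, USub_empty, Subgroup.mem_bot] at this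
    exact commutatorElement_eq_one_iff_commute.mp this) (Commute.one_left _) fun _ _ _ _ => Commute.mul_left

theorem intv_long {r k : ι} (hr : R.len r = R.len θ) (h : r ≠ R.neg θ) (hk : k ∈ R.intv θ r) :
    R.IsPos k ∧ r ≠ R.neg k ∧ R.intv k r = ∅ := by
  obtain ⟨e, h1⟩ := add_of_long (T.len_le k) hr h hk
  have h2 : R.pair r k = 1 := by rw [pair, e, map_add, pv_rc, pv_rc, pair_self, R.pair_eq_of_len_eq hr, h1]; rfl
  have h3 : R.len k = R.len θ := by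
    have := R.form_self k
    simp only [e, map_add, LinearMap.add_apply, form_rc_rc, pair_self, hr, R.pair_eq_of_len_eq hr, h1] at this
    omega
  have h4 : r ≠ R.neg k := by rintro rfl; simp at h2
  refine ⟨fun i => by simpa [e, R.rc_neg, ← neg_le_iff_add_nonneg] using T.rc_le (R.neg r) i, h4, Set.eq_empty_of_forall_notMem fun m hm => ?_⟩
  have := (add_of_long (h3 ▸ T.len_le m) (hr.trans h3.symm) h4 hm).2
  rw [← R.pair_eq_of_len_eq (hr.trans h3.symm)] at this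
  omega

end RSys.Top

namespace Fold
variable {F : Fold P}

theorem σ_U {u : G} (hu : u ∈ P.U) : F.σ u ∈ P.U := σ_US st_pos hu

theorem σ_B {b : G} (hb : b ∈ P.B) : F.σ b ∈ P.B := by
  obtain ⟨u, hu, h, hh, rfl⟩ := P.mem_B_iff.mp hb
  exact map_mul F.σ u h ▸ mul_mem (P.U_le_B (σ_U hu)) (P.H_le_B (F.σ_H h hh))

theorem StI.σ_PJ {J : Set I} (hJ : F.StI J) {g : G} (hg : g ∈ P.PJ J) : F.σ g ∈ P.PJ J := by
  obtain ⟨w, hw, b, hb, c, hc, rfl⟩ := P.mem_PJ_iff.mp hg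
  rw [map_mul, map_mul]
  exact mul_mem (mul_mem (P.B_le_PJ J (σ_B hb)) (P.NJ_le_PJ J ((σ_over (over_nW (R.WJ_le_W J hw))).mem_NJ
    (hJ.conj_mem_WJ hw)))) (P.B_le_PJ J (σ_B hc))

theorem StI.σ_UJ {J : Set I} (hJ : F.StI J) {g : G} (hg : g ∈ P.UJ J) : F.σ g ∈ P.UJ J :=
  σ_US (st_pos.inter hJ.st.compl) hg

theorem StI.σ_UL {J : Set I} (hJ : F.StI J) {g : G} (hg : g ∈ P.UL J) : F.σ g ∈ P.UL J :=
  σ_US (st_pos.inter hJ.st) hg

theorem σ_Uw {w : Equiv.Perm ι} {g : G} (hg : g ∈ P.Uw w) : F.σ g ∈ P.Uw (F.ρ * w * F.ρ⁻¹) :=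
  σ_US (S := {r | R.IsPos r ∧ ¬ R.IsPos (w r)}) (T := {r | R.IsPos r ∧ ¬ R.IsPos ((F.ρ * w * F.ρ⁻¹) r)})
    (fun r hr => by simpa [F.ρ_pos] using hr) hg

theorem fix_of_B (hP : P.Nondeg) {w : Equiv.Perm ι} {m u v b : G} (hm : P.Over m w) (hu : u ∈ P.U) (hv : v ∈ P.Uw w)
    (hb : b ∈ P.B) (e : F.σ (u * m * v) = b * (u * m * v)) : w ∈ F.WF ∧ F.σ v = v := by
  obtain ⟨u', hu', t, ht, e'⟩ := P.mem_B_iff.mp (mul_mem hb (P.U_le_B hu))
  have := hP.bruhat_over_unique (σ_over (F := F) hm) (hm.H_mul ht) (σ_U hu) hu' (σ_Uw hv) hv (by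
    rw [← map_mul, ← map_mul, e, ← mul_assoc, ← mul_assoc, e', mul_assoc u'])
  exact ⟨mem_WF'.mpr ⟨hm.1, this.1⟩, this.2.2.2⟩

theorem stab_B (hP : P.Nondeg) {J : Set I} (hJ : F.StI J) {d : Equiv.Perm ι} (hd : d ∈ R.W)
    (h1 : ∀ k ∈ J, R.IsPos (d (R.simple k))) {c : G} (hc : c ∈ P.B)
    (h : (c * P.nW d)⁻¹ * F.σ (c * P.nW d) ∈ P.PJ J) : (c * P.nW d)⁻¹ * F.σ (c * P.nW d) ∈ P.B := by
  obtain ⟨k, hk, e⟩ := (σ_over (F := F) (over_nW hd)).exists_eq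
  have := (hP.dcoset_unique (J := ∅) (K := J) (F.conj_mem_W hd) hd (fun k hk => by
    obtain ⟨k, rfl⟩ := F.π.surjective k
    simpa [← F.ρ_simple, F.ρ_pos] using h1 k ((hJ k).mp hk)) h1 (by simp) (by simp)
    (p := c⁻¹ * F.σ c) (by simpa [PJ_empty] using mul_mem (inv_mem hc) (σ_B hc))
    (mul_mem h (inv_mem (P.B_le_PJ J (P.H_le_B hk)))) (by simp [e, mul_assoc])).2
  simp only [Set.mem_empty_iff_false, false_and, exists_false, and_false, Set.ofPred_false, PJ_empty] at this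
  simpa using mul_mem this (P.H_le_B hk)

theorem exists_over_mem {M : Subgroup G} (hn : ∀ i, ∃ n ∈ M, P.Over n (F.s i)) {w : Equiv.Perm ι} (hw : w ∈ F.WF) :
    ∃ n ∈ M, P.Over n w :=
  WF_induction (C := fun w => ∃ n ∈ M, P.Over n w) ⟨1, one_mem _, over_one_iff.mpr (one_mem _)⟩
    (fun _ _ i _ ⟨n, h1, h2⟩ => by
      obtain ⟨m, h3, h4⟩ := hn i
      exact ⟨n * m, mul_mem h1 h3, h2.mul h4⟩) hw

theorem mem_of_U (hP : P.Nondeg) {M H : Subgroup G} (hn : ∀ i, ∃ n ∈ M, P.Over n (F.s i)) (hM : M ≤ H)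
    (h : ∀ i, ∀ u ∈ H, u ∈ P.U → ∃ y ∈ M, y ∈ P.UL (F.orb i) ∧ y⁻¹ * u ∈ P.UJ (F.orb i)) {u : G}
    (hu : u ∈ H) (hu' : u ∈ P.U) : u ∈ M := by
  obtain ⟨n, h1, h2, m, h3, h4, h5⟩ := WF_induction (C := fun w => ∃ n ∈ M, P.Over n w ∧ ∃ m ∈ M, m ∈ P.U ∧
    n⁻¹ * (m * u) * n ∈ P.U) ⟨1, one_mem _, over_one_iff.mpr (one_mem _), 1, one_mem _, one_mem _, by simpa⟩
    (fun w hw i hi ⟨n, h1, h2, m, h3, h4, h5⟩ => by
      obtain ⟨n', h6, h7⟩ := hn i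
      obtain ⟨y, h8, h9, h10⟩ := h i _ (mul_mem (mul_mem (inv_mem (hM h1)) (mul_mem (hM h3) hu)) (hM h1)) h5
      refine ⟨n * n', mul_mem h1 h6, h2.mul h7, n * y⁻¹ * n⁻¹ * m,
        mul_mem (mul_mem (mul_mem h1 (inv_mem h8)) (inv_mem h1)) h3, mul_mem (h2.conj_US (T := {r | R.IsPos r})
          (fun r hr => isPos_of_orb hw hi hr.1 hr.2) (inv_mem h9)) h4, ?_⟩
      simpa [mul_assoc] using P.UJ_le_U _ (PJ_conj_UJ (inv_mem (P.NJ_le_PJ _ (h7.mem_NJ (s_mem_WJ i)))) h10))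
    (w0_mem_WF (F := F))
  have := hP.eq_one_of_mem_V_B (g := m * u) (by simpa [mul_assoc] using (h2.w0_conj_iff.2 _).mpr h5)
    (P.U_le_B (mul_mem h4 hu'))
  rw [eq_inv_of_mul_eq_one_right this]
  exact inv_mem h3

/-- `H` consists of fixed points of `F`, and its intersection with `U` of the common fixed points with `F'`. -/
structure SubH (F F' : Fold P) (H : Subgroup G) : Prop where
  nd : P.Nondeg
  full : ∀ g, g ∈ P.full
  ρ1 : F'.ρ = 1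
  rc : ∀ r i, R.rc (F.ρ r) (F.π i) = R.rc r i
  fix : ∀ h ∈ H, F.σ h = h
  U_iff : ∀ u ∈ P.U, u ∈ H ↔ F.σ u = u ∧ F'.σ u = u
  n : ∀ i, ∃ n ∈ H, F'.σ n = n ∧ P.Over n (F.s i)
  cent : ∀ J ≠ Set.univ, F.StI J → ∀ z ∈ P.PJ J, (∀ y ∈ H, y ∈ P.UJ J → Commute z y) → z ∈ P.UJ J
  rk : ∀ i, F.orb i ≠ Set.univ
  ne : Nonempty I

namespace SubH
variable {F' : Fold P} {H : Subgroup G} (S : F.SubH F' H)
include S

theorem π1 (i : I) : F'.π i = i := R.simple_inj (by rw [← F'.ρ_simple, S.ρ1]; rfl)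

theorem stI (J : Set I) : F'.StI J := fun i => by rw [S.π1]

theorem exists_over {w : Equiv.Perm ι} (hw : w ∈ F.WF) : ∃ n ∈ H, F'.σ n = n ∧ P.Over n w := by
  obtain ⟨n, h1, h2⟩ := exists_over_mem (M := H ⊓ F'.σ.eqLocus (MonoidHom.id _))
    (fun i => let ⟨n, h1, h2, h3⟩ := S.n i; ⟨n, ⟨h1, h2⟩, h3⟩) hw
  exact ⟨n, h1.1, h1.2, h2⟩

theorem fix_U {u : G} (h : u ∈ H) (hu : u ∈ P.U) : F'.σ u = u := ((S.U_iff u hu).mp h).2

theorem exists_rat {J : Set I} (hJ : F.StI J) {g : G} (h : g⁻¹ * F.σ g ∈ P.PJ J) (h' : g⁻¹ * F'.σ g ∈ P.PJ J) :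
    ∃ m ∈ H, F'.σ m = m ∧ m⁻¹ * g ∈ P.PJ J := by
  obtain ⟨d, hd, h1, -, c, hc, a, ha, rfl⟩ := exists_dcoset ∅ J (S.full g)
  rw [PJ_empty] at hc
  obtain ⟨w, m, hm, u, hu, v, hv, e⟩ := exists_bruhat_over (S.full (c * P.nW d)⁻¹)
  have key : ∀ F : Fold P, F.StI J → (c * P.nW d * a)⁻¹ * F.σ (c * P.nW d * a) ∈ P.PJ J → w ∈ F.WF ∧ F.σ v = v :=
    fun F hJ h => fix_of_B S.nd hm hu hv (inv_mem (stab_B S.nd hJ hd h1 hc (by
      simpa [mul_assoc] using mul_mem (mul_mem ha h) (inv_mem (hJ.σ_PJ ha))))) (by rw [← e]; simp [mul_assoc])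
  obtain ⟨n, h2, h3, h4⟩ := S.exists_over (key F hJ h).1
  have h5 := (key F' (S.stI J) h').2
  refine ⟨(n * v)⁻¹, inv_mem (mul_mem h2 ((S.U_iff v (P.Uw_le_U w hv)).mpr ⟨(key F hJ h).2, h5⟩)),
    fix_inv (fix_mul h3 h5), ?_⟩
  rw [inv_eq_iff_eq_inv.mp e]
  simpa [mul_assoc] using mul_mem (mul_mem (P.B_le_PJ J (P.H_le_B (h4.mul_inv_mem hm))) (inv_mem (P.U_le_PJ J hu))) ha

theorem z_mem {J : Set I} (hJ : F.StI J) (hJ' : J ≠ Set.univ) {b : G} (hb : b ∈ H) (hb' : b ∈ P.PJ J) :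
    b⁻¹ * F'.σ b ∈ P.UJ J :=
  S.cent J hJ' hJ _ (mul_mem (inv_mem hb') ((S.stI J).σ_PJ hb')) fun y hy hy' => by
    have h1 := S.fix_U (mul_mem (mul_mem hb hy) (inv_mem hb)) (P.UJ_le_U J (PJ_conj_UJ hb' hy'))
    rw [map_mul, map_mul, S.fix_U hy (P.UJ_le_U J hy'), map_inv] at h1
    have h2 : F'.σ b * y = b * y * b⁻¹ * F'.σ b := by rw [← h1]; simp
    simp [Commute, SemiconjBy, mul_assoc, h2]

theorem fix_B {b : G} (hb : b ∈ H) (hb' : b ∈ P.B) : F'.σ b = b := by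
  obtain ⟨n, h1, -, h2, m, h3, h4, h5⟩ := WF_induction (C := fun w => ∃ n ∈ H, F'.σ n = n ∧ P.Over n w ∧ ∃ m ∈ H,
    m ∈ P.U ∧ n⁻¹ * (m * b) * n ∈ P.B) ⟨1, one_mem _, map_one _, over_one_iff.mpr (one_mem _), 1, one_mem _, one_mem _,
      by simpa⟩ (fun w hw i hi ⟨n, h1, h1', h2, m, h3, h4, h5⟩ => by
      obtain ⟨n', h6, h6', h7⟩ := S.n i
      have hc := mul_mem (mul_mem (inv_mem h1) (mul_mem h3 hb)) h1
      obtain ⟨u, hu, t, ht, e⟩ := P.mem_B_iff.mp h5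
      obtain ⟨v, hv, x, hx, rfl⟩ := (P.mem_U_iff_UL (F.orb i)).mp hu
      have key : ∀ F1 : Fold P, F1.StI (F.orb i) → (v * x * t)⁻¹ * F1.σ (v * x * t) ∈ P.UJ (F.orb i) → F1.σ x = x :=
        fun F1 hJ h => by
          have h8 := mul_mem (P.UL_le_LJ _ hx) (P.H_le_LJ _ ht)
          have := (S.nd.levi_unique (hJ.σ_UJ hv) (mul_mem hv (PJ_conj_UJ (P.LJ_le_PJ _ h8) h))
            (mul_mem (P.UL_le_LJ _ (hJ.σ_UL hx)) (P.H_le_LJ _ (F1.σ_H t ht))) h8 (by simp [mul_assoc])).2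
          exact (S.nd.UH_unique (σ_U (P.UL_le_U _ hx)) (P.UL_le_U _ hx) (F1.σ_H t ht) ht this).1
      have h8 : x ∈ H := (S.U_iff x (P.UL_le_U _ hx)).mpr ⟨key F (stI_orb i) (by rw [← e, S.fix _ hc, inv_mul_cancel]; exact one_mem _),
        key F' (S.stI _) (e ▸ S.z_mem (stI_orb i) (S.rk i) hc (P.B_le_PJ _ h5))⟩
      refine ⟨n * n', mul_mem h1 h6, fix_mul h1' h6', h2.mul h7, n * x⁻¹ * n⁻¹ * m,
        mul_mem (mul_mem (mul_mem h1 (inv_mem h8)) (inv_mem h1)) h3, mul_mem (h2.conj_US (T := {r | R.IsPos r})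
          (fun r hr => isPos_of_orb hw hi hr.1 hr.2) (inv_mem hx)) h4, ?_⟩
      have h9 := P.NJ_le_PJ _ (h7.mem_NJ (s_mem_WJ i))
      have := mul_mem (P.U_le_B (P.UJ_le_U _ (PJ_conj_UJ (inv_mem (mul_mem (P.U_le_PJ _ (P.UL_le_U _ hx)) h9)) hv)))
        (P.H_le_B (h7.inv.conj_H ht))
      have e' : (n * n')⁻¹ * (n * x⁻¹ * n⁻¹ * m * b) * (n * n') = n'⁻¹ * x⁻¹ * (n⁻¹ * (m * b) * n) * n' := by group
      rw [e', e]
      simpa [mul_assoc] using this) (w0_mem_WF (F := F))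
  obtain ⟨u, hu, t, ht, e⟩ := P.mem_B_iff.mp h5
  have h6 : m * b ∈ P.H := S.nd.mem_H_of_mem_B_Bm (mul_mem (P.U_le_B h4) hb') (by
    have := mul_mem (P.V_le_Bm ((h2.w0_conj_iff.2 u).mpr hu)) (P.H_le_Bm (h2.conj_H ht))
    have e' : m * b = n * (n⁻¹ * (m * b) * n) * n⁻¹ := by group
    rw [e', e]
    simpa [mul_assoc] using this)
  obtain ⟨i⟩ := S.ne
  have h7 := S.nd.eq_one_of_mem_U_H (P.UJ_le_U _ (S.z_mem (stI_orb i) (S.rk i) (mul_mem h3 hb) (P.B_le_PJ _ (P.H_le_B h6))))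
    (mul_mem (inv_mem h6) (F'.σ_H _ h6))
  rw [map_mul, S.fix_U h3 h4, inv_mul_eq_one] at h7
  exact (mul_left_cancel h7).symm

theorem fix_PJ {J : Set I} (hJ : F.StI J) (hJ' : J ≠ Set.univ) {b : G} (hb : b ∈ H) (hb' : b ∈ P.PJ J) :
    F'.σ b = b := by
  have hz := S.z_mem hJ hJ' hb hb'
  obtain ⟨w, hw, m, hm, -, u, hu, -, v, hv, h1, rfl⟩ := fix_bruhat S.nd (S.full b) (S.fix b hb)
  have h2 := (fix_of_B (F := F') S.nd hm hu hv (P.U_le_B (P.UJ_le_U J (PJ_conj_UJ hb' hz))) (by group)).2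
  have h3 := (S.U_iff v (P.Uw_le_U w hv)).mpr ⟨h1, h2⟩
  obtain ⟨n, h4, h5, h6⟩ := S.exists_over hw
  have h7 := S.fix_B (mul_mem (mul_mem hb (inv_mem h3)) (inv_mem h4))
    (by simpa [mul_assoc] using mul_mem (P.U_le_B hu) (P.H_le_B (hm.mul_inv_mem h6)))
  rw [map_mul, map_mul, map_inv, map_inv, h2, h5] at h7
  simpa only [mul_left_inj] using h7

/-- Strong embedding of the fixed points. -/
theorem fix_of_conj {a g0 h : G} (ha : a ∈ H) (ha' : F'.σ a = a) (h1 : a ≠ 1) (hg0 : g0⁻¹ * a * g0 ∈ P.U) (hh : h ∈ H)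
    (e : F'.σ (h * a * h⁻¹) = h * a * h⁻¹) : F'.σ h = h := by
  obtain ⟨g, -, φ, h2, h3, h4⟩ := S.nd.exists_optimal' (X := {a}) (S.full g0) (by simpa)
  simp only [Set.mem_singleton_iff, forall_eq] at h3 h4
  have hv : ∀ r, R.rval (φ ∘ F.π.symm) (F.ρ r) = R.rval φ r := fun r => by
    rw [rval, ← Equiv.sum_comp F.π]; simp [S.rc, rval]
  obtain ⟨h5, h6⟩ := h4 (F.σ g) (S.full _) (φ ∘ F.π.symm) (fun i => h2 _) (by
    rw [rQ, ← Equiv.sum_comp F.ρ]; simp [hv, rQ]) (by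
      simpa [S.fix a ha] using F.σ_US (T := {r | 1 ≤ R.rval (φ ∘ F.π.symm) r}) (fun r hr => by simpa [hv]) h3)
  have hJ : F.StI {i | φ i = 0} := fun i => by
    have := congrFun h5 (F.π i)
    simp_all
  have hJ' : {i | φ i = 0} ≠ Set.univ := fun h => h1 (by
    have : {r | 1 ≤ R.rval φ r} = ∅ := Set.eq_empty_of_forall_notMem fun r hr => by
      have : ∀ i, φ i = 0 := Set.eq_univ_iff_forall.mp h
      simp [rval, this] at hr
      linarith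
    simpa [this, US, mul_inv_eq_one, mul_assoc, inv_mul_eq_iff_eq_mul] using h3)
  have h7 := (h4 (F'.σ g) (S.full _) φ h2 rfl (by
    simpa [ha'] using F'.σ_US (T := {r | 1 ≤ R.rval φ r}) (fun r hr => by simpa [S.ρ1]) h3)).2
  have h8 := (h4 (h⁻¹ * F'.σ h * g) (S.full _) φ h2 rfl (by
    rw [map_mul, map_mul, ha', map_inv] at e
    have : (F'.σ h)⁻¹ * (h * a * h⁻¹) * F'.σ h = a := by rw [← e]; group
    have e' : (h⁻¹ * F'.σ h * g)⁻¹ * a * (h⁻¹ * F'.σ h * g) = g⁻¹ * ((F'.σ h)⁻¹ * (h * a * h⁻¹) * F'.σ h) * g := by group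
    rwa [e', this])).2
  obtain ⟨m, h9, h10, h11⟩ := S.exists_rat hJ h6 h7
  obtain ⟨m', h12, h13, h14⟩ := S.exists_rat hJ (g := h * g) (by simpa [S.fix h hh, mul_assoc] using h6)
    (by simpa [mul_assoc] using mul_mem h8 h7)
  have := S.fix_PJ hJ hJ' (mul_mem (mul_mem (inv_mem h12) hh) h9) (by simpa [mul_assoc] using mul_mem h14 (inv_mem h11))
  simpa [h10, h13] using this

variable {θ : ι} (T : R.Top θ) {a : G} (ha : a ∈ P.X θ) (ha' : a ∈ H) (h1 : a ≠ 1)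
include T ha ha' h1

theorem fix_nonopp {r : ι} (hr : R.len r = R.len θ) (h : r ≠ R.neg θ) {u y : G} (hu : u ∈ P.U) (hy : y ∈ P.X r)
    (hb : u * y * u⁻¹ ∈ H) : F'.σ (u * y * u⁻¹) = u * y * u⁻¹ := by
  have haU := P.X_le_U T.pos ha
  have h2 := P.comm θ r h a ha y hy
  have h3 : a * (u * y * u⁻¹) * a⁻¹ * (u * y * u⁻¹)⁻¹ = u * (a * y * a⁻¹ * y⁻¹) * u⁻¹ := by
    have := (T.commute ha hu).eq
    calc _ = (a * u) * y * (a * u)⁻¹ * u * y⁻¹ * u⁻¹ := by group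
      _ = _ := by rw [← this]; group
  have h4 := mul_mem (mul_mem (mul_mem ha' hb) (inv_mem ha')) (inv_mem hb)
  by_cases h5 : a * (u * y * u⁻¹) * a⁻¹ * (u * y * u⁻¹)⁻¹ = 1
  · refine S.fix_of_conj (g0 := 1) ha' (S.fix_U ha' haU) h1 (by simpa) hb ?_
    rw [← (commutatorElement_eq_one_iff_commute.mp h5).eq, mul_inv_cancel_right, S.fix_U ha' haU]
  rw [h3] at h4 h5
  have h6 := B_conj_U (P.U_le_B hu) (USub_mono (fun k hk => (T.intv_long hr h hk).1) h2)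
  have h7 : Commute (a * y * a⁻¹ * y⁻¹) y := USub_induction (C := fun c => Commute c y) h2 (fun k hk x hx => by
    have := P.comm k r (T.intv_long hr h hk).2.1 x hx y hy
    rw [(T.intv_long hr h hk).2.2, USub_empty, Subgroup.mem_bot] at this
    exact commutatorElement_eq_one_iff_commute.mp this) (Commute.one_left _) fun _ _ _ _ => Commute.mul_left
  refine S.fix_of_conj (g0 := 1) h4 (S.fix_U h4 h6) h5 (by simpa only [inv_one, one_mul, mul_one] using h6) hb ?_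
  have := (h7.map (MulAut.conj u)).eq
  simp only [MulAut.conj_apply] at this
  rw [← this, mul_inv_cancel_right, S.fix_U h4 h6]

theorem fix_opp {i : I} (hi : F.s i (R.neg θ) ≠ R.neg θ) {x v y : G} (hx : x ∈ H) (hx' : x ∈ P.U)
    (hv : v ∈ P.UJ (F.orb i)) (hy : y ∈ P.X (R.neg θ)) (hb : x * v * y * (x * v)⁻¹ ∈ H) :
    F'.σ (x * v * y * (x * v)⁻¹) = x * v * y * (x * v)⁻¹ := by
  obtain ⟨n, h2, h3, h4⟩ := S.n i
  have e : n * v * n⁻¹ * (n * y * n⁻¹) * (n * v * n⁻¹)⁻¹ = n * x⁻¹ * (x * v * y * (x * v)⁻¹) * (n * x⁻¹)⁻¹ := by group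
  have h5 := mul_mem h2 (inv_mem hx)
  have := S.fix_nonopp T ha ha' h1 (by rw [Aut.len_apply (mem_Aut (s_mem i)), len_neg]) hi
    (P.UJ_le_U _ (PJ_conj_UJ (P.NJ_le_PJ _ (h4.mem_NJ (s_mem_WJ i))) hv)) (h4.conj_X hy)
    (e ▸ mul_mem (mul_mem h5 hb) (inv_mem h5))
  rw [e, map_mul, map_mul, map_inv, fix_mul h3 (fix_inv (S.fix_U hx hx'))] at this
  simpa only [mul_left_inj, mul_right_inj] using this

theorem fix_of_opp (hopp : ∀ u ∈ P.U, F.σ u = u → ∀ y ∈ P.X (R.neg θ), ∀ h ∈ H, h * a * h⁻¹ = u * y * u⁻¹ →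
    F'.σ (u * y * u⁻¹) = u * y * u⁻¹) {h : G} (hh : h ∈ H) : F'.σ h = h := by
  have haU := P.X_le_U T.pos ha
  refine S.fix_of_conj (g0 := 1) ha' (S.fix_U ha' haU) h1 (by simpa) hh ?_
  obtain ⟨w, hw, m, hm, -, u, hu, h2, v, hv, -, e⟩ := fix_bruhat S.nd (S.full h) (S.fix h hh)
  have h3 : h * a * h⁻¹ = u * (m * a * m⁻¹) * u⁻¹ := by
    rw [e, mul_assoc _ v, (T.commute ha (P.Uw_le_U w hv)).eq]; group
  by_cases h4 : w θ = R.neg θ
  · exact h3 ▸ hopp u hu h2 _ (h4 ▸ hm.conj_X ha) h hh h3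
  · rw [h3]
    exact S.fix_nonopp T ha ha' h1 (Aut.len_apply (mem_Aut hw) θ) h4 hu (hm.conj_X ha)
      (h3 ▸ mul_mem (mul_mem hh ha') (inv_mem hh))

theorem fix_all {i : I} (hi : F.s i (R.neg θ) ≠ R.neg θ) (h0 : ∀ x ∈ P.UL (F.orb i), F.σ x = x → x ∈ H) {h : G}
    (hh : h ∈ H) : F'.σ h = h :=
  S.fix_of_opp T ha ha' h1 (fun u hu h2 y hy h hh e => by
    obtain ⟨v, hv, -, x, hx, h3, e'⟩ := fix_split_UJ S.nd (stI_orb i) (inv_mem hu) (fix_inv h2)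
    obtain rfl : u = x⁻¹ * v⁻¹ := by rw [← mul_inv_rev, ← e', inv_inv]
    exact S.fix_opp T ha ha' h1 hi (inv_mem (h0 x hx h3)) (inv_mem (P.UL_le_U _ hx)) (inv_mem hv) hy
      (e ▸ mul_mem (mul_mem hh ha') (inv_mem hh))) hh

end SubH
end Fold
end Cfsg.Agent.Chev
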