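import Cfsg.Agent.Lib.Tw.MaxA
import Cfsg.Agent.Lib.Chev.RGD3
import Cfsg.Agent.Lib.Tw.InstF4

/-! Centralisers of rational unipotent radicals; leading coefficients of unipotent elements. -/

set_option autoImplicit false
set_option linter.unusedSectionVars false

namespace Cfsg.Agent.Chev
open RSys PreRGD

section
variable {ι I : Type*} [Fintype I] [DecidableEq I] {R : RSys ι I} {G : Type*} [Group G] [Fintype ι] [DecidableEq ι]
  {P : PreRGD R G}

variable (R) in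
/-- Positive roots other than `r` of height at least that of `r`. -/
def RSys.Tg (r : ι) : Set ι := {s | R.IsPos s ∧ R.ht r ≤ R.ht s ∧ s ≠ r}

theorem RSys.ideal_Tg (r : ι) : R.Ideal {s | R.IsPos s} (R.Tg r) := fun _ ha _ hs _ hk =>
  have := (phi_lt_of_mem_intv (φ := htv) ha.ht_pos hs.1.ht_pos hk).2
  ⟨IsPos.of_mem_intv ha hs.1 hk, hs.2.1.trans this.le, fun e => (hs.2.1.trans_lt this).ne' (congrArg R.ht e)⟩

theorem PreRGD.Nondeg.ht_apply_of_commute (hP : P.Nondeg) {w : Equiv.Perm ι} (hw : w ∈ R.W) {g : G} (hg : g ∈ P.cell w)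
    {A : Set ι} (hA : ∀ r ∈ A, R.IsPos r) (hwA : ∀ r ∈ A, w⁻¹ r ∈ A)
    (h : ∀ r ∈ A, ∃ x ∈ P.X r, x ≠ 1 ∧ ∃ y, x⁻¹ * y ∈ P.US (R.Tg r) ∧ Commute g y) :
    ∀ r ∈ A, R.ht (w⁻¹ r) = R.ht r := by
  obtain ⟨b, hb, c, hc, rfl⟩ := hg
  have hwAut := R.W_le_Aut hw
  have key : ∀ r ∈ A, R.ht r ≤ R.ht (w⁻¹ r) := by
    intro r hr
    obtain ⟨x, hx, hx1, y, hy, e⟩ := h r hr
    set T := {s | R.IsPos s ∧ R.ht r ≤ R.ht s} with hT
    have hTp : ∀ s ∈ T, R.IsPos s := fun s hs => hs.1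
    have hTi : R.Ideal {s | R.IsPos s} T := fun _ ha _ hs _ hk => ⟨IsPos.of_mem_intv ha hs.1 hk,
      hs.2.trans (phi_lt_of_mem_intv (φ := htv) ha.ht_pos hs.1.ht_pos hk).2.le⟩
    have hxT : y ∈ P.US T := by
      simpa using mul_mem (mem_USub (S := T) ⟨hA r hr, le_rfl⟩ hx) (USub_mono (T := T) (fun s hs => ⟨hs.1, hs.2.1⟩) hy)
    have a1 := B_conj_US hTi hTp (inv_mem hb) hxT
    have a2 := P.nW_conj_US hw (T := (w⁻¹ : Equiv.Perm ι) ⁻¹' T)
      (fun s hs => by rw [Set.mem_preimage, Equiv.Perm.inv_def, Equiv.symm_apply_apply]; exact hs)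
      (B_conj_US hTi hTp hc hxT)
    have e2 : P.nW w * (c * y * c⁻¹) * (P.nW w)⁻¹ = b⁻¹ * y * b⁻¹⁻¹ := by
      have := e.eq
      rw [inv_inv, mul_assoc b⁻¹, eq_inv_mul_iff_mul_eq, ← mul_left_inj (P.nW w * c)]
      simpa [mul_assoc] using this
    rw [e2] at a2
    have a3 : b⁻¹ * y * b⁻¹⁻¹ ∈ P.US T ⊓ P.US ((w⁻¹ : Equiv.Perm ι) ⁻¹' T) := ⟨a1, a2⟩
    rw [hP.US_inf' (hTi.closed hTp) ((hTi.closed hTp).preimage (inv_mem hwAut)) hTp
      ((halfSpace_of_pos hTp).preimage (inv_mem hwAut))] at a3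
    by_contra hcon
    have a4 := B_conj_US (ideal_Tg r) (fun _ h => h.1) hb (USub_mono (T := R.Tg r)
      (fun s hs => ⟨hs.1.1, hs.1.2, by rintro rfl; exact hcon hs.2.2⟩) a3)
    refine hx1 (hP.eq_one_of_mem_X_US (hA r hr) (fun _ h => h.1) ((ideal_Tg r).closed fun _ h => h.1)
      (fun h => h.2.2 rfl) hx ?_)
    simpa [mul_assoc] using mul_mem a4 (inv_mem hy)
  classical
  have h1 := Finset.sum_bij (s := Finset.univ.filter (· ∈ A)) (t := Finset.univ.filter (· ∈ A))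
    (f := fun r => R.ht (w⁻¹ r)) (g := R.ht) (fun r _ => w⁻¹ r) (by simpa using hwA) (by simp)
    (fun r hr => Finset.surj_on_of_inj_on_of_card_le (fun r _ => w⁻¹ r) (by simpa using hwA) (by simp) le_rfl r hr |>.imp
      fun _ h => h.imp fun _ h => h.symm) fun _ _ => rfl
  intro r hr
  exact ((Finset.sum_eq_sum_iff_of_le (fun r hr => key r (by simpa using hr))).mp h1.symm r (by simpa)).symm

variable (R) in
/-- The positive roots not below `v`. -/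
def RSys.NS (v : I → ℤ) : Set ι := {s | R.IsPos s ∧ ¬ R.rc s ≤ v}

theorem RSys.add_le_of_mem_intv {k r s : ι} (hr : R.IsPos r) (hs : R.IsPos s) (hk : k ∈ R.intv r s) :
    R.rc r + R.rc s ≤ R.rc k := by
  obtain ⟨i, j, hi, hj, e⟩ := hk
  intro l
  have h1 : 0 ≤ R.rc r l := hr l
  have h2 : 0 ≤ R.rc s l := hs l
  have hi' : (1 : ℤ) ≤ i := by exact_mod_cast hi
  have hj' : (1 : ℤ) ≤ j := by exact_mod_cast hj
  simp only [e, Pi.add_apply, Pi.smul_apply, smul_eq_mul]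
  nlinarith

theorem RSys.ideal_NS (v : I → ℤ) : R.Ideal {s | R.IsPos s} (R.NS v) := fun _ ha _ hs _ hk =>
  ⟨IsPos.of_mem_intv ha hs.1 hk, fun h => hs.2 (((le_add_iff_nonneg_left _).mpr ha).trans
    ((add_le_of_mem_intv ha hs.1 hk).trans h))⟩

theorem RSys.Tg_subset_NS (r : ι) : R.Tg r ⊆ R.NS (R.rc r) := fun s hs => ⟨hs.1, fun h => hs.2.2 (R.rc_inj (funext fun i =>
  (Finset.sum_eq_sum_iff_of_le fun i _ => h i).mp (le_antisymm (Finset.sum_le_sum fun i _ => h i) hs.2.1) i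
    (Finset.mem_univ i)))⟩

theorem RSys.Top.NS_eq {θ : ι} (T : R.Top θ) : R.NS (R.rc θ) = ∅ :=
  Set.eq_empty_of_forall_notMem fun r h => h.2 (T.rc_le r)

theorem PreRGD.NS_le_U (v : I → ℤ) : P.US (R.NS v) ≤ P.U := USub_mono fun _ h => h.1

theorem PreRGD.conj_NS {v : I → ℤ} {u g : G} (hu : u ∈ P.U) (hg : g ∈ P.US (R.NS v)) : u⁻¹ * g * u ∈ P.US (R.NS v) := by
  simpa using B_conj_US (ideal_NS v) (fun _ h => h.1) (inv_mem (P.U_le_B hu)) hg

theorem PreRGD.comm_NS {v : I → ℤ} {A S : Set ι} (hA : ∀ r ∈ A, R.IsPos r) (hS : ∀ r ∈ S, R.IsPos r)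
    (h : ∀ a ∈ A, ∀ s ∈ S, ¬ R.rc a + R.rc s ≤ v) {y g : G} (hy : y ∈ P.US A) (hg : g ∈ P.US S) :
    y⁻¹ * g⁻¹ * y * g ∈ P.US (R.NS v) := by
  have hN := ((P.commOn_halfSpace halfSpace_pos).mono subset_rfl fun _ h => h.1).le_normalizer (ideal_NS v)
  simpa using comm_mem_of_USub ((USub_mono hA).trans hN) ((USub_mono hS).trans hN) (fun r hr s hs x hx y hy =>
    USub_mono (T := R.NS v) (fun k hk => ⟨IsPos.of_mem_intv (hA r hr) (hS s hs) hk, fun h' => h r hr s hs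
      ((add_le_of_mem_intv (hA r hr) (hS s hs) hk).trans h')⟩)
    (P.commOn_halfSpace halfSpace_pos r (hA r hr) s (hS s hs) x hx y hy)) (inv_mem hy) (inv_mem hg)

/-- Commutators modulo the roots not below `v`. -/
theorem PreRGD.comm_step {v : I → ℤ} {A S : Set ι} (hA : ∀ r ∈ A, R.IsPos r) (hS : ∀ r ∈ S, R.IsPos r)
    (h : ∀ a ∈ A, ∀ s ∈ S, ¬ R.rc a + R.rc s ≤ v) {y g X : G} (hy : y ∈ P.US A) (hX : X ∈ P.U) (hg : X⁻¹ * g ∈ P.US S) :
    (y⁻¹ * X⁻¹ * y * X)⁻¹ * (y⁻¹ * g⁻¹ * y * g) ∈ P.US (R.NS v) := by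
  have hC : R.Ideal {s | R.IsPos s} {c | R.IsPos c ∧ ∃ a ∈ A, R.rc a ≤ R.rc c} := fun r hr c ⟨h1, a, ha, h2⟩ k hk =>
    ⟨IsPos.of_mem_intv hr h1 hk, a, ha, h2.trans (((le_add_iff_nonneg_left _).mpr hr).trans (add_le_of_mem_intv hr h1 hk))⟩
  have h1 := B_conj_US hC (fun _ h => h.1) (inv_mem (P.U_le_B hX))
    (USub_mono (T := {c | R.IsPos c ∧ ∃ a ∈ A, R.rc a ≤ R.rc c}) (fun a ha => ⟨hA a ha, a, ha, le_rfl⟩) hy)
  simpa [mul_assoc] using comm_NS (v := v) (A := {c | R.IsPos c ∧ ∃ a ∈ A, R.rc a ≤ R.rc c}) (fun _ h => h.1) hS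
    (fun c ⟨_, a, ha, h2⟩ s hs h' => h a ha s hs ((add_le_add_left h2 _).trans h')) h1 hg

end

end Cfsg.Agent.Chev

namespace Cfsg.Agent.ChevM
open Cfsg.Lie Chev RSys PreRGD

variable {D : ChevalleyDatum} [hT : Tab D] {K : Type*} [Field K]

variable (D) in
/-- A field endomorphism as a folding. -/
def fmFold (ψ : K →+* K) : Fold (PG D K) where
  σ := fm D ψ
  ρ := 1
  π := 1
  ρ_simple _ := rfl
  ρ_sref _ _ := rfl
  σ_X r a ha := by
    obtain ⟨t, rfl⟩ := mem_X_iff.mp ha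
    rw [fm_xG]; exact xG_mem_X r _
  σ_H _ := fm_mem_H ψ
  σ_n i := by simp [fm_n]

variable (D) in
/-- The highest root. -/
def θ : Fin D.nroots := ⟨D.nroots - 1, by rcases hT.isTab.cases with rfl | rfl | rfl | rfl | rfl | rfl | rfl <;> decide⟩

variable (D) in
theorem top_θ : (rs D).Top (θ D) := by
  have key : ∀ r < D.nroots, len D r ≤ len D (D.nroots - 1) ∧ ∀ i < D.rank, rcN D r i ≤ rcN D (D.nroots - 1) i := by
    rcases hT.isTab.cases with rfl | rfl | rfl | rfl | rfl | rfl | rfl <;> decide +kernel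
  exact ⟨fun r => (key r r.2).1, fun r i => (key r r.2).2 i i.2⟩

theorem mem_UJ_of_commute' {H : Subgroup (D.group K)} {J : Set (Fin D.rank)} (hJ : J ≠ Set.univ)
    (hn : ∃ n ∈ H, (PG D K).Over n ((rs D).w0J J))
    (hY : ∀ r, (rs D).IsPos r ∧ ¬ (rs D).InSub J r → ∃ y ∈ H, y ∈ (PG D K).UJ J ∧
      (xG D K r 1)⁻¹ * y ∈ (PG D K).US ((rs D).Tg r)) {g : D.group K} (hg : g ∈ (PG D K).PJ J)
    (h : ∀ y ∈ H, y ∈ (PG D K).UJ J → Commute g y) : g ∈ (PG D K).UJ J := by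
  have hP := nondeg D K
  have key : ∀ g ∈ (PG D K).PJ J, (∀ y ∈ H, y ∈ (PG D K).UJ J → Commute g y) → g ∈ (PG D K).U := by
    intro g hg h
    obtain ⟨w, hw, hgw⟩ := (PG D K).mem_PJ_iff.1 hg
    have hwA := (rs D).WJ_le_Aut J hw
    have h1 := hP.ht_apply_of_commute ((rs D).WJ_le_W J hw) hgw (A := {r | (rs D).IsPos r ∧ ¬ (rs D).InSub J r})
      (fun _ h => h.1) (fun r hr => ⟨(isPos_apply_iff_of_not_inSub (inv_mem hw) hr.2).2 hr.1,
        fun h => hr.2 ((inSub_apply_iff (inv_mem hw)).1 h)⟩)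
      (fun r hr => let ⟨y, h1, h2, h3⟩ := hY r hr; ⟨_, xG_mem_X r 1, xG_ne_one r one_ne_zero, y, h3, h y h1 h2⟩)
    obtain rfl : w = 1 := inv_eq_one.mp (eq_one_of_forall_pos_WJ (inv_mem hw) fun j hj => by
      obtain ⟨r, s, hr, hs, e⟩ := exists_add_simple hJ hj
      have h2 := ht_comb (Aut.rc_comb (inv_mem hwA) (a := 1) (b := 1) (k := s) (r := (rs D).simple j) (s := r)
        (by simpa using e))
      have h3 := ht_comb (a := 1) (b := 1) (k := s) (r := (rs D).simple j) (s := r) (by simpa using e)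
      rw [h1 r hr, h1 s hs, h3, ht_simple] at h2
      exact isPos_iff_ht.mpr (by omega))
    obtain ⟨u, hu, k, hk, rfl⟩ := (PG D K).mem_B_iff.1 (mem_cell_one_iff.1 hgw)
    obtain ⟨a, rfl⟩ := mem_H_iff.1 hk
    have h2 : ∀ r, (rs D).IsPos r ∧ ¬ (rs D).InSub J r → chi D a r = 1 := fun r hr => by
      obtain ⟨y, h1, h2, h3⟩ := hY r hr
      have h4 := B_conj_US (ideal_Tg r) (fun _ h => h.1) (mem_cell_one_iff.1 hgw) h3
      have h5 := B_conj_US (ideal_Tg r) (fun _ h => h.1) ((PG D K).U_le_B hu) (USub_mono (T := (rs D).Tg r)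
        (fun s hs => ⟨hs.1, hs.2.le, by rintro rfl; exact hs.2.false⟩)
        (U_comm_X hr.1 (xG_mem_X r ((chi D a r : K) * 1)) hu))
      rw [← hG_conj_xG] at h5
      have h6 : u * hG D a * y * (u * hG D a)⁻¹ = y := by rw [(h y h1 h2).eq, mul_inv_cancel_right]
      have h7 : (xG D K r 1)⁻¹ * (hG D a * xG D K r 1 * (hG D a)⁻¹) ∈ (PG D K).US ((rs D).Tg r) := by
        have := mul_mem (mul_mem h3 (inv_mem h4)) (inv_mem h5)
        nth_rw 1 [← h6] at this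
        simpa [mul_assoc] using this
      rw [hG_conj_xG] at h7
      have := hP.eq_one_of_mem_X_US hr.1 (fun _ h => h.1) ((ideal_Tg r).closed fun _ h => h.1) (fun h => h.2.2 rfl)
        (mul_mem (inv_mem (xG_mem_X r _)) (xG_mem_X r _)) h7
      exact Units.ext (by simpa using (xG_injective r.2 (inv_mul_eq_one.mp this)).symm)
    have h3 : hG D a = 1 := hG_eq_one_iff.2 (funext fun j => by
      rw [← chi_simple]
      by_cases hj : j ∈ J
      · obtain ⟨r, s, hr, hs, e⟩ := exists_add_simple hJ hj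
        have := chi_comb a (i := 1) (j := 1) (k := s) (r := (rs D).simple j) (s := r) (by simpa using e)
        rw [h2 r hr, h2 s hs] at this
        simpa using this.symm
      · exact h2 _ ⟨(rs D).isPos_simple j, fun h => hj (inSub_simple.1 h)⟩)
    simpa [h3] using hu
  obtain ⟨n, h1, h2⟩ := hn
  have h3 := (PG D K).NJ_le_PJ J (h2.mem_NJ (w0J_mem J))
  have h4 := key _ (mul_mem (mul_mem h3 hg) (inv_mem h3)) fun y hy hy' => by
    simpa [mul_assoc] using (h _ (mul_mem (mul_mem (inv_mem h1) hy) (inv_mem (inv_mem h1)))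
      (PJ_conj_UJ (inv_mem h3) hy')).map (MulAut.conj n)
  refine hP.mem_UJ_of_w0J_conj (key g hg h) ?_
  have h5 := (PG D K).H_le_B ((over_nW h2.1).mul_inv_mem h2)
  simpa [mul_assoc] using mul_mem (mul_mem h5 ((PG D K).U_le_B h4)) (inv_mem h5)

end Cfsg.Agent.ChevM
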