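import Cfsg.Agent.Lib.Tw.MaxB
import Cfsg.Agent.Lib.Tw.Word
import Cfsg.Agent.Lib.Tw.OutC

/-! The fixed points of the field automorphism form a maximal subgroup of `²E₆(q)` and of `³D₄(q)`. -/

set_option autoImplicit false
set_option linter.unusedSectionVars false
set_option synthInstance.maxSize 2048

namespace Cfsg.Agent.Chev
open Cfsg.Lie RSys PreRGD ChevM

section
variable {ι I : Type*} [Fintype I] [DecidableEq I] {R : RSys ι I} {G : Type*} [Group G] [Fintype ι] [DecidableEq ι]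
  {P : PreRGD R G}

theorem RSys.closed_of_ht {S : Set ι} {h : ℤ} (h0 : 0 < h) (h1 : ∀ s ∈ S, h ≤ R.ht s) (h2 : ∀ s, h < R.ht s → s ∈ S) :
    R.Closed S := fun r hr s hs _ hk =>
  h2 _ ((h1 r hr).trans_lt (phi_lt_of_mem_intv (φ := htv) (h0.trans_le (h1 r hr)) (h0.trans_le (h1 s hs)) hk).1)

theorem PreRGD.comm_mem_ht {a : ℤ} (h0 : 0 < a) {y g : G} (hy : y ∈ P.US {s | a ≤ R.ht s}) (hg : g ∈ P.U) :
    y⁻¹ * g⁻¹ * y * g ∈ P.US {s | a + 1 ≤ R.ht s} := by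
  have hp : ∀ b, 0 < b → ∀ s ∈ {s | b ≤ R.ht s}, R.IsPos s := fun b hb s hs => isPos_iff_ht.mpr (hb.trans_le hs)
  have hN := ((P.commOn_halfSpace halfSpace_pos).mono subset_rfl (hp (a + 1) (by omega))).le_normalizer
    fun r hr s hs k hk => le_trans hs (phi_lt_of_mem_intv (φ := htv) hr.ht_pos (hp (a + 1) (by omega) s hs).ht_pos hk).2.le
  simpa using comm_mem_of_USub ((USub_mono (hp a h0)).trans hN) hN (fun r hr s hs x hx y hy =>
    USub_mono (T := {s | a + 1 ≤ R.ht s})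
      (fun k hk => Int.add_one_le_iff.mpr (lt_of_le_of_lt hr (phi_lt_of_mem_intv (φ := htv) (hp a h0 r hr).ht_pos hs.ht_pos hk).1))
      (P.commOn_halfSpace halfSpace_pos r (hp a h0 r hr) s hs x hx y hy)) (inv_mem hy) (inv_mem hg)

end

variable {D : ChevalleyDatum} [Tab D] {K : Type*} [Field K]

theorem step_word {C : Coll} (hC : CollFor D C) (hK : CharOK K C.p) (v : ℕ → K) {Yw Xw W : List (ℕ × Pol)}
    {κ : Fin D.nroots} {f : Pol} {L : List ℕ} (hc : C.check (commW Yw Xw) ((κ, f) :: W) = true)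
    (hY : ∀ a ∈ Yw, a.1 < D.nroots ∧ D.nroots ≤ 2 * a.1 ∧ ∀ s < D.nroots, D.nroots ≤ 2 * s → s ∉ L →
      ¬ ∀ i < D.rank, rcN D a.1 i + rcN D s i ≤ rcN D κ i)
    (hX : ∀ a ∈ Xw, a.1 < D.nroots ∧ D.nroots ≤ 2 * a.1)
    (hW : ∀ a ∈ W, a.1 < D.nroots ∧ D.nroots ≤ 2 * a.1 ∧ ¬ ∀ i < D.rank, rcN D a.1 i ≤ rcN D κ i) {g : D.group K}
    (hg : (evS (xG D K) v Xw)⁻¹ * g ∈ (PG D K).US {s | (rs D).IsPos s ∧ s.1 ∉ L}) :
    (xG D K κ (evP v f))⁻¹ * ((evS (xG D K) v Yw)⁻¹ * g⁻¹ * evS (xG D K) v Yw * g) ∈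
      (PG D K).US ((rs D).NS ((rs D).rc κ)) := by
  have h1 := comm_step (P := PG D K) (v := (rs D).rc κ) (A := {s | ∃ a ∈ Yw, a.1 = s.1})
    (fun r ⟨a, ha, e⟩ => (rs_isPos_iff_le r).mpr (by rw [← e]; exact (hY a ha).2.1)) (fun _ h => h.1)
    (fun r ⟨a, ha, e⟩ s hs h => (hY a ha).2.2 s s.2 ((rs_isPos_iff_le s).mp hs.1) hs.2 fun i hi => by
      rw [e]; exact h ⟨i, hi⟩)
    (evS_mem_USub (x := xG D K) (w := Yw) v fun a ha => ⟨(hY a ha).1, a, ha, rfl⟩)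
    (evS_mem_USub (x := xG D K) (S := {s | (rs D).IsPos s}) v fun a ha =>
      ⟨(hX a ha).1, (rs_isPos_iff_le _).mpr (hX a ha).2⟩) hg
  rw [(stRel_xG D K).comm_of_check hC hK v hc, evS_cons] at h1
  have h2 : evS (xG D K) v W ∈ (PG D K).US ((rs D).NS ((rs D).rc κ)) := evS_mem_USub v fun a ha => ⟨(hW a ha).1,
    (rs_isPos_iff_le _).mpr (hW a ha).2.1, fun h => (hW a ha).2.2 fun i hi => h ⟨i, hi⟩⟩
  simpa [mul_assoc] using mul_mem h2 h1

namespace IsTw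
variable {T : TwData} {φ : K →+* K} {σ : D.group K →* D.group K} (h : IsTw D T (xG D K) φ σ) {k : ℕ} (P : Per D T k)

variable (T σ k) in
/-- The product over the orbit of a root. -/
def Yo (r : ℕ) (t : K) : D.group K := dl σ (kr T k r) (xG D K r t)

include h P

theorem σ_x' (r : Fin D.nroots) (t : K) : σ (xG D K r t) = xG D K (h.tw.ρ r) (T.ε r * φ t) := by rw [h.σ_x, h.τ_eq P]

theorem σ_fm (g : D.group K) : fm D φ (σ g) = σ (fm D φ g) :=
  DFunLike.congr_fun (hom_ext_xG (f := (fm D φ).comp σ) (g := σ.comp (fm D φ)) fun r t => by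
    simp [h.σ_x' P, fm_xG]) g

theorem σ_eq_fm {g : D.group K} (hg : g ∈ (PG D K).US {r | T.π r = r}) : σ g = fm D φ g :=
  USub_induction (C := fun g => σ g = fm D φ g) hg (fun r hr x hx => by
    obtain ⟨t, rfl⟩ := mem_X_iff.mp hx
    simpa [kr_fix hr, fm_xG] using h.iter_kr P r t) (by simp) fun a b _ _ ha hb => by simp [ha, hb]

theorem σ_Yo (r : Fin D.nroots) {t : K} (ht : t ∈ Fx T k φ r) : σ (Yo T σ k r t) = Yo T σ k r t :=
  (h.orbOK P r).fix_dl (x_mem_USub (S := {r, (rs D).neg r}) (by simp) t) ((h.fix_iff P r t).mpr ht)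

theorem fm_Yo (r : ℕ) (t : K) : fm D φ (Yo T σ k r t) = Yo T σ k r (φ t) := by
  rw [Yo, map_dl _ (h.σ_fm P), fm_xG, Yo]

theorem Yo_add (r : Fin D.nroots) (t u : K) : Yo T σ k r (t + u) = Yo T σ k r t * Yo T σ k r u := by
  have := (h.orbOK P r).dlHom.map_mul ⟨_, x_mem_USub (S := {r, (rs D).neg r}) (r := r) (by simp) t⟩
    ⟨_, x_mem_USub (S := {r, (rs D).neg r}) (r := r) (by simp) u⟩
  simpa [Yo, Fold.OrbOK.dlHom_apply, h.chv.rel.add r _ _ r.2] using this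

omit h P in
theorem mem_Fx_of_fix (r : ℕ) {t : K} (ht : φ t = t) : t ∈ Fx T k φ r := mem_Fx.mpr (Function.iterate_fixed ht _)

omit h P in
theorem mem_Fx_of_ne (hφk : ∀ t, φ^[k] t = t) {r : ℕ} (hr : T.π r ≠ r) (t : K) : t ∈ Fx T k φ r :=
  mem_Fx.mpr (by rw [kr_ne hr, hφk])

omit h P in
variable (T k) in
/-- The orbit product as a word. -/
def orbW (r : ℕ) (m : ℕ → List ℕ) : List (ℕ × Pol) := (List.range (kr T k r)).map fun j => (T.π^[j] r, [(sgnP T r j, m j)])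

theorem Yo_eq (r : Fin D.nroots) {t : K} {v : ℕ → K} {m : ℕ → List ℕ} (e : ∀ j, ((m j).map v).prod = φ^[j] t) :
    Yo T σ k r t = evS (xG D K) v (orbW T k r m) := by
  rw [Yo, orbW]
  induction kr T k r with
  | zero => rfl
  | succ n ih => simp [dl_succ', ih, List.range_succ, h.iter_eq P, e, h.tw.ρ_pow_val]

omit P in
theorem UJ_le {i : Fin D.rank} {L : List ℕ} (hL : ∀ s ∈ L, ∃ j < k, T.π^[j] (D.simple i) = s) :
    (PG D K).UJ (h.fold.orb i) ≤ (PG D K).US {s | (rs D).IsPos s ∧ s.1 ∉ L} := USub_mono fun s hs => ⟨hs.1, fun h1 => by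
  obtain ⟨j, -, e⟩ := hL _ h1
  refine hs.2 ?_
  rw [show s = (h.fold.ρ ^ j) ((rs D).simple i) from Fin.ext (by rw [← e]; exact (h.tw.ρ_pow_val j ((rs D).simple i)).symm),
    Fold.ρ_pow_simple]
  exact inSub_simple.mpr ⟨j, rfl⟩⟩

theorem exists_n (i : Fin D.rank) : ∃ n, σ n = n ∧ fm D φ n = n ∧ (PG D K).Over n (h.fold.s i) := by
  have o := h.orbOK P ((rs D).simple i)
  have h0 : nElt D (xG D K) ((rs D).simple i : Fin D.nroots) 1 ∈
      (PG D K).US {(rs D).simple i, (rs D).neg ((rs D).simple i)} := by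
    rw [nElt_eq]
    exact mul_mem (mul_mem (xG_mem_US (by simp) _) (xG_mem_US (by simp) _)) (xG_mem_US (by simp) _)
  have h1 := o.fix_dl h0 (by
    rw [fold_σ, nElt_eq, iterate_map_mul, iterate_map_mul, (h.iter_neg_iff o.per _).mpr, (h.fix_iff P _ _).mpr]
    exacts [mem_Fx_of_fix _ (map_one φ), (h.fix_iff P _ _).mpr (mem_Fx_of_fix _ (by simp))])
  refine ⟨_, h1, by rw [fold_σ, map_dl _ (h.σ_fm P), fm_nElt, map_one], Fold.over_s (F := h.fold) (nondeg D K)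
    (dl_mem' (fun _ => Fold.σ_N (F := h.fold)) _ (nElt_mem_N _ one_ne_zero))
    (dl_mem' (fun _ => (Fold.stI_orb (F := h.fold) i).σ_PJ) _ (GJ_le_PJ _ _ (USub_mono ?_ h0))) h1
    (xG_mem_U ((rs D).isPos_simple i) 1) ?_ (xG_ne_one _ one_ne_zero)⟩
  · rintro _ (rfl | rfl)
    exacts [inSub_simple.mpr (Fold.mem_orb_self i), inSub_neg.mpr (inSub_simple.mpr (Fold.mem_orb_self i))]
  · obtain ⟨j, hj⟩ := Nat.exists_eq_succ_of_ne_zero o.pos.ne'
    have := (o.commute_dl h0 (xG_mem_US (r := (rs D).simple i) (by simp) 1) (j := j) (by omega)).eq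
    rw [hj, dl_succ, mul_assoc _ _ (xG D K _ _), ← this, mul_inv_rev, mul_assoc, mul_assoc, mul_inv_cancel_left, ← mul_assoc,
      h.chv.rel.r7.n_conj_self _ one_ne_zero]
    exact xG_mem_V (not_isPos_neg_simple i) _

variable (hrc : ∀ r < D.nroots, ∀ i < D.rank, rcN D (T.π r) (T.ν i) = rcN D r i)
include hrc

omit P in
theorem ht_ρ (j : ℕ) (r : Fin D.nroots) : (rs D).ht ((h.tw.ρ ^ j) r) = (rs D).ht r := by
  induction j with
  | zero => rfl
  | succ j ih =>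
    rw [← ih, pow_succ', Equiv.Perm.mul_apply, ht, htv_apply, ← Equiv.sum_comp h.tw.νp]
    exact Finset.sum_congr rfl fun i _ => hrc _ ((h.tw.ρ ^ j) r).2 i i.2

theorem Yo_Tg {r : Fin D.nroots} (hr : (rs D).IsPos r) (t : K) :
    (xG D K r t)⁻¹ * Yo T σ k r t ∈ (PG D K).US ((rs D).Tg r) :=
  USub_mono (fun s hs => by
    obtain ⟨j, -, -, e⟩ := id hs
    exact ⟨e ▸ (h.fold.ρ_pow_pos j r).mpr hr, e ▸ (h.ht_ρ hrc j r).ge, by rintro rfl; exact (h.orbOK P s).not_mem hs⟩)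
    ((h.orbOK P r).inv_mul_dl_mem (x_mem_XS r t))

variable {H : Subgroup (D.group K)} (hH : ∀ g ∈ H, σ g = g) (hM : ∀ g, σ g = g → fm D φ g = g → g ∈ H)
include hM

omit hrc in
theorem Yo_mem (r : Fin D.nroots) {t : K} (ht : φ t = t) : Yo T σ k r t ∈ H :=
  hM _ (h.σ_Yo P r (mem_Fx_of_fix r ht)) (by rw [h.fm_Yo P, ht])

include hH

theorem subH (hrk : ∀ i, h.fold.orb i ≠ Set.univ) (hU : ∀ u ∈ H, u ∈ (PG D K).U → fm D φ u = u) (i0 : Fin D.rank) :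
    h.fold.SubH (fmFold D φ) H where
  nd := nondeg D K
  full := mem_full
  ρ1 := rfl
  rc r i := hrc r r.2 i i.2
  fix := hH
  U_iff u hu := ⟨fun h1 => ⟨hH u h1, hU u h1 hu⟩, fun h1 => hM u h1.1 h1.2⟩
  n i := let ⟨n, h1, h2, h3⟩ := h.exists_n P i; ⟨n, hM n h1 h2, h2, h3⟩
  cent J hJ hJ' z hz := mem_UJ_of_commute' hJ (Fold.exists_over_mem
    (fun i => let ⟨n, h1, h2, h3⟩ := h.exists_n P i; ⟨n, hM n h1 h2, h3⟩) hJ'.w0J_mem) (fun r hr =>
      ⟨_, h.Yo_mem P hM r (map_one φ), dl_mem' (fun _ => hJ'.σ_UJ) _ (xG_mem_US hr 1), h.Yo_Tg P hrc hr.1 1⟩) hz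
  rk := hrk
  ne := ⟨i0⟩

theorem Yo_mem_of (hφk : ∀ t, φ^[k] t = t) {κ : Fin D.nroots} (h0 : (rs D).IsPos κ) (h1 : T.π κ ≠ κ)
    (h2 : ∀ s : Fin D.nroots, (rs D).ht κ ≤ (rs D).ht s → T.π s ≠ s → ∃ j < k, T.π^[j] κ = s ∧ (rs D).ht s = (rs D).ht κ)
    {g : D.group K} (hg : g ∈ H) {t : K} (h3 : (xG D K κ t)⁻¹ * g ∈ (PG D K).US ((rs D).NS ((rs D).rc κ)))
    (h4 : g ∈ (PG D K).US {s | (rs D).ht κ ≤ (rs D).ht s}) : Yo T σ k κ t ∈ H := by
  have hP := nondeg D K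
  have hp := h0.ht_pos
  have h5 : (xG D K κ t)⁻¹ * g ∈ (PG D K).US ((rs D).Tg κ) := by
    have : (xG D K κ t)⁻¹ * g ∈ (PG D K).US _ ⊓ (PG D K).US {s | (rs D).ht κ ≤ (rs D).ht s} :=
      Subgroup.mem_inf.mpr ⟨h3, mul_mem (inv_mem (xG_mem_US (r := κ) (le_refl ((rs D).ht κ)) t)) h4⟩
    rw [hP.US_inf halfSpace_pos ((ideal_NS _).closed fun _ h => h.1) 
      (closed_of_ht (S := {s | (rs D).ht κ ≤ (rs D).ht s}) hp (fun _ h => h) fun _ h => h.le)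
      (fun _ h => h.1) fun s hs => isPos_iff_ht.mpr (hp.trans_le hs)] at this
    exact USub_mono (fun s hs => by exact ⟨hs.1.1, hs.2, by rintro rfl; exact hs.1.2 le_rfl⟩) this
  have h6 : (Yo T σ k κ t)⁻¹ * g ∈ (PG D K).US ((rs D).Tg κ) := by
    simpa [mul_assoc] using mul_mem (inv_mem (h.Yo_Tg P hrc h0 t)) h5
  have h7 : σ ((Yo T σ k κ t)⁻¹ * g) = (Yo T σ k κ t)⁻¹ * g := by
    rw [map_mul, map_inv, h.σ_Yo P κ (mem_Fx_of_ne hφk h1 t), hH g hg]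
  have h8 : ∀ n, (Yo T σ k κ t)⁻¹ * g ∈
      (PG D K).US {s | (rs D).ht κ ≤ (rs D).ht s ∧ ∀ j < n, s ≠ (h.tw.ρ ^ j) κ} := fun n => by
    induction n with
    | zero => exact USub_mono (fun s hs => by exact ⟨hs.2.1, by simp⟩) h6
    | succ n ih =>
      have h9 := Fold.σ_pow_US (F := h.fold) (j := n) (T := (rs D).Tg ((h.tw.ρ ^ n) κ)) (fun s hs =>
        ⟨(h.fold.ρ_pow_pos n s).mpr hs.1, by simpa [h.ht_ρ hrc] using hs.2.1, by simpa using hs.2.2⟩) h6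
      rw [Fold.fix_pow h7] at h9
      have : (Yo T σ k κ t)⁻¹ * g ∈ (PG D K).US _ ⊓ (PG D K).US _ := ⟨ih, h9⟩
      rw [hP.US_inf halfSpace_pos (closed_of_ht (S := {s | (rs D).ht κ ≤ (rs D).ht s ∧ ∀ j < n, s ≠ (h.tw.ρ ^ j) κ}) hp
        (fun _ h => h.1) fun s hs => ⟨hs.le, fun j _ e => by
        simp [e, h.ht_ρ hrc] at hs⟩) ((ideal_Tg _).closed fun _ h => h.1)
        (fun s hs => isPos_iff_ht.mpr (hp.trans_le hs.1)) fun _ h => h.1] at this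
      exact USub_mono (fun s hs => by exact ⟨hs.1.1, fun j hj => (Nat.lt_succ_iff_lt_or_eq.mp hj).elim (hs.1.2 j)
        fun e => e ▸ hs.2.2.2⟩) this
  have h9 := hM _ h7 ((h.σ_eq_fm P (USub_mono (fun s hs => by
    by_contra hs'
    obtain ⟨j, hj, e, -⟩ := h2 s hs.1 hs'
    exact hs.2 j hj (Fin.ext (by rw [h.tw.ρ_pow_val, e]))) (h8 k))).symm.trans h7)
  simpa using mul_mem hg (inv_mem h9)

omit hrc hH in
theorem Yo_conj {n : D.group K} (h1 : σ n = n) (h2 : fm D φ n = n) {r s : Fin D.nroots} (hk : kr T k s = kr T k r) {c : K}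
    (e : ∀ t, n * xG D K r t * n⁻¹ = xG D K s (c * t)) {t : K} (ht : Yo T σ k r t ∈ H) :
    φ c = c ∧ Yo T σ k s (c * t) ∈ H := by
  have h3 := congrArg (fm D φ) (e 1)
  rw [map_mul, map_mul, map_inv, h2, fm_xG, fm_xG, map_one, e] at h3
  refine ⟨by simpa using (xG_injective s.2 h3).symm, ?_⟩
  rw [Yo, ← e, ← dl_conj h1, hk]
  exact mul_mem (mul_mem (hM n h1 h2) ht) (inv_mem (hM n h1 h2))

omit hrc hH in
theorem Yo_smul {β r : Fin D.nroots} (hβ : T.π β = β) (h1 : (rs D).pair β r = 1) {c t : K} (hc : φ c = c)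
    (ht : Yo T σ k r t ∈ H) : Yo T σ k r (c * t) ∈ H := by
  by_cases h0 : c = 0
  · simpa [h0] using h.Yo_mem P hM r (map_zero φ)
  have h2 : ∀ u, nElt D (xG D K) β u ∈ (PG D K).US {r | T.π r = r} := fun u => by
    have h3 : T.π ((rs D).neg β : Fin D.nroots) = ((rs D).neg β : Fin D.nroots) := by
      rw [rs_neg_val, h.tw.neg β β.2, hβ]
    rw [nElt_eq]
    exact mul_mem (mul_mem (xG_mem_US hβ _) (xG_mem_US h3 _)) (xG_mem_US hβ _)
  have h3 : fm D φ (hElt D (xG D K) β c) = hElt D (xG D K) β c := by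
    rw [h.chv.rel.h_eq, map_mul, map_inv, fm_nElt, fm_nElt, hc, map_one]
  refine (h.Yo_conj P hM (n := hElt D (xG D K) β c) ?_ h3 rfl (fun t => ?_) ht).2
  · rw [h.σ_eq_fm P, h3]
    rw [h.chv.rel.h_eq]
    exact mul_mem (h2 _) (inv_mem (h2 _))
  · simpa [h1] using h.chv.rel.r7.h_conj_x h.chv.rel β r h0 t

omit hrc hH in
theorem Yo_W (l : List (Fin D.rank))
    (hl : (allLt D.nroots fun r => Nat.beq (T.π (wordN D (l.map Fin.val) r)) (wordN D (l.map Fin.val) (T.π r))) = true)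
    {β r s : Fin D.nroots} (hβ : T.π β = β) (h1 : (rs D).pair β s = 1) (e : wordN D (l.map Fin.val) r = s)
    (hk : kr T k s = kr T k r) {t : K} (ht : Yo T σ k r t ∈ H) : Yo T σ k s t ∈ H := by
  obtain ⟨n, hn, h2⟩ := Fold.exists_over_mem (M := σ.eqLocus (MonoidHom.id _) ⊓ (fm D φ).eqLocus (MonoidHom.id _))
    (fun i => let ⟨n, h1, h2, h3⟩ := h.exists_n P i; ⟨n, ⟨h1, h2⟩, h3⟩) (h.wordW_mem_WF l hl)
  obtain ⟨c, h3, h4⟩ := h.chv.rel.over_conj h2 r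
  rw [show (rs D).wordW l r = s from Fin.ext (by rw [wordW_val, e])] at h4
  obtain ⟨h5, h6⟩ := h.Yo_conj P hM hn.1 hn.2 hk h4 ht
  simpa [h3] using h.Yo_smul P hM hβ h1 (c := c⁻¹) (by simp [h5]) h6

omit hrc in
theorem exists_lead {A : Type*} {rep : A → Fin D.rank} (hrep : ∀ i, ∃ a, i ∈ h.fold.orb (rep a))
    (hU : ¬ ∀ u ∈ H, u ∈ (PG D K).U → fm D φ u = u) : ∃ a t, T.π (D.simple (rep a)) ≠ D.simple (rep a) ∧ φ t ≠ t ∧
      ∃ g ∈ H, (Yo T σ k (D.simple (rep a)) t)⁻¹ * g ∈ (PG D K).UJ (h.fold.orb (rep a)) := by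
  by_contra hc
  push Not at hc
  refine hU fun u hu hu' => (Fold.mem_of_U (F := h.fold) (nondeg D K) (M := H ⊓ (fm D φ).eqLocus (MonoidHom.id _))
    (fun i => let ⟨n, h1, h2, h3⟩ := h.exists_n P i; ⟨n, ⟨hM n h1 h2, h2⟩, h3⟩) inf_le_left (fun i u hu hu' => ?_) hu hu').2
  obtain ⟨a, ha⟩ := hrep i
  have o := h.orbOK P ((rs D).simple (rep a))
  obtain ⟨v, hv, -, y, hy, h1, e⟩ := Fold.fix_split_UJ (F := h.fold) (nondeg D K) (Fold.stI_orb (rep a)) (inv_mem hu')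
    (Fold.fix_inv (hH u hu))
  obtain ⟨x, hx, h2, h3⟩ := o.exists_dl (nondeg D K) (o.UL_eq ▸ inv_mem hy) (Fold.fix_inv h1)
  obtain ⟨t, rfl⟩ := mem_X_iff.mp hx
  have h4 : y⁻¹⁻¹ * u ∈ (PG D K).UJ (h.fold.orb (rep a)) := by
    rw [inv_eq_iff_eq_inv.mp e, mul_inv_rev, inv_mul_cancel_left, inv_mem_iff]; exact hv
  have h5 : φ t = t := by
    by_cases h6 : T.π (D.simple (rep a)) = D.simple (rep a)
    · simpa [mem_Fx, kr_fix h6] using (h.fix_iff P _ t).mp h2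
    · exact by_contra fun h7 => hc a t h6 h7 u hu (h3 ▸ h4 :)
  rw [Fold.orb_eq ha]
  exact ⟨y⁻¹, h3 ▸ ⟨h.Yo_mem P hM _ h5, (h.fm_Yo P _ t).trans (by rw [h5]; rfl)⟩, inv_mem hy, h4⟩

omit hrc hH in
theorem gen_le_of {A : Type*} {rep : A → Fin D.rank} (hrep : ∀ i, ∃ a, i ∈ h.fold.orb (rep a))
    (h1 : ∀ a, T.π (D.simple (rep a)) ≠ D.simple (rep a) → ∀ t, Yo T σ k (D.simple (rep a)) t ∈ H) : h.fold.gen ≤ H :=
  h.gen_le P hrep (fun a t ht => by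
    by_cases h6 : T.π (D.simple (rep a)) = D.simple (rep a)
    · exact h.Yo_mem P hM ((rs D).simple (rep a)) (by simpa [mem_Fx, kr_fix h6] using ht)
    · exact h1 a h6 t) fun a => by
    have := h.Yo_mem P hM ((rs D).neg ((rs D).simple (rep a))) (map_one φ)
    rwa [Yo, show kr T k ((rs D).neg ((rs D).simple (rep a)) : Fin D.nroots) = kr T k (D.simple (rep a)) by
      have := (rs D).neg_inj' (r := h.tw.ρ ((rs D).simple (rep a))) (s := (rs D).simple (rep a))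
      rw [← h.tw.ρ_neg, Fin.ext_iff, Fin.ext_iff] at this
      exact if_congr this rfl rfl] at this

theorem fm_of_U (hrk : ∀ i, h.fold.orb i ≠ Set.univ) (hU : ∀ u ∈ H, u ∈ (PG D K).U → fm D φ u = u) {i : Fin D.rank}
    (hi : T.π (D.simple i) = D.simple i) (hθ : T.π (θ D) = θ D) (h1 : D.cartan i (θ D) ≠ 0) {g : D.group K} (hg : g ∈ H) :
    fm D φ g = g := by
  have o := h.orbOK P ((rs D).simple i)
  have h2 : h.fold.orb i = {i} := Set.eq_singleton_iff_unique_mem.mpr ⟨Fold.mem_orb_self i, fun j hj =>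
    Fold.orb_induction (C := (· = i)) rfl (by
      rintro _ rfl
      exact (rs D).simple_inj ((h.tw.ρ_simple _).symm.trans (Fin.ext hi))) hj⟩
  refine (h.subH P hrc hH hM hrk hU i).fix_all (top_θ D) (xG_mem_X _ 1)
    (by simpa [Yo, kr_fix hθ] using h.Yo_mem P hM (θ D) (map_one φ)) (xG_ne_one _ one_ne_zero) (i := i) (fun e => h1 ?_)
    (fun x hx e => hM x e ((h.σ_eq_fm P (USub_mono (fun r hr => ?_) hx)).symm.trans e)) hg
  · have h3 : (rs D).sref i = h.fold.s i := by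
      rw [Fold.s, h2]
      exact eq_w0J ((rs D).sref_mem_WJ rfl) (by rintro _ rfl; simpa [sref_simple] using not_isPos_neg_simple _)
    have := ht_sref (R := rs D) i ((rs D).neg (θ D))
    rw [h3, e] at this
    simpa [rs_pair_simple] using this
  · rw [h2] at hr
    obtain rfl | rfl := inSub_singleton_iff.mp hr.2
    exacts [hi, absurd hr.1 (not_isPos_neg_simple i)]

theorem Yo_step (hφk : ∀ t, φ^[k] t = t) {C : Coll} (hC : CollFor D C) (hK : C.p = 0) {i : Fin D.rank} {δ κ : Fin D.nroots}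
    {f : Pol} {W : List (ℕ × Pol)}
    (hc : C.check (commW (orbW T k δ fun _ => []) (orbW T k (D.simple i) fun j => [j])) ((κ, f) :: W) = true)
    (h1 : ∀ j < k, D.nroots ≤ 2 * T.π^[j] δ ∧ ((List.range D.rank).map (rcN D (T.π^[j] δ))).sum + 1 =
      ((List.range D.rank).map (rcN D κ)).sum ∧ ∀ s < D.nroots, D.nroots ≤ 2 * s →
      s ∉ (List.range k).map (T.π^[·] (D.simple i)) → ¬ ∀ i < D.rank, rcN D (T.π^[j] δ) i + rcN D s i ≤ rcN D κ i)
    (hW : ∀ a ∈ W, a.1 < D.nroots ∧ D.nroots ≤ 2 * a.1 ∧ ¬ ∀ i < D.rank, rcN D a.1 i ≤ rcN D κ i) (h2 : T.π κ ≠ κ)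
    (h3 : ∀ s : Fin D.nroots, (rs D).ht κ ≤ (rs D).ht s → T.π s ≠ s → ∃ j < k, T.π^[j] κ = s ∧ (rs D).ht s = (rs D).ht κ)
    {t : K} {g : D.group K} (hg : g ∈ H) (hg' : (Yo T σ k (D.simple i) t)⁻¹ * g ∈ (PG D K).UJ (h.fold.orb i)) :
    Yo T σ k κ (evP (φ^[·] t) f) ∈ H := by
  have hkr : ∀ r j, j < kr T k r → j < k := fun r j hj => by have := P.pos; unfold kr at hj; split_ifs at hj <;> omega
  have hδ : (rs D).IsPos δ := (rs_isPos_iff_le δ).mpr (h1 0 P.pos).1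
  have h4 : (rs D).ht δ + 1 = (rs D).ht κ := by rw [ht_eq_sum, ht_eq_sum]; exact (h1 0 P.pos).2.1
  have h5 := h.Yo_eq P δ (t := 1) (v := (φ^[·] t)) (m := fun _ => []) fun j => by simp
  have h6 := h.Yo_mem P hM δ (map_one φ)
  have h7 : Yo T σ k (D.simple i) t ∈ (PG D K).U := dl_mem' (fun _ => Fold.σ_U (F := h.fold)) _ (xG_mem_U ((rs D).isPos_simple i) t)
  refine h.Yo_mem_of P hrc hH hM hφk (isPos_iff_ht.mpr (by have := hδ.ht_pos; omega)) h2 h3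
    (mul_mem (mul_mem (mul_mem (inv_mem h6) (inv_mem hg)) h6) hg) ?_ (h4 ▸ comm_mem_ht hδ.ht_pos ?_ ?_)
  · rw [h5]
    refine step_word hC (Or.inl hK) _ hc (fun a ha => ?_) (fun a ha => ?_) hW (h.UJ_le (i := i) (k := k) (L := (List.range k).map (T.π^[·] (D.simple i))) 
      (fun s hs => by simpa only [List.mem_map, List.mem_range] using hs) ?_)
    · obtain ⟨j, hj, rfl⟩ := List.mem_map.mp ha
      have := h1 j (hkr _ _ (List.mem_range.mp hj))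
      exact ⟨h.tw.ρ_pow_val j δ ▸ Fin.is_lt _, this.1, this.2.2⟩
    · obtain ⟨j, hj, rfl⟩ := List.mem_map.mp ha
      have := (rs_isPos_iff_le _).mp ((h.fold.ρ_pow_pos j _).mpr ((rs D).isPos_simple i))
      exact ⟨h.tw.ρ_pow_val j ((rs D).simple i) ▸ Fin.is_lt _, h.tw.ρ_pow_val j ((rs D).simple i) ▸ this⟩
    · exact h.Yo_eq P ((rs D).simple i) (t := t) (v := (φ^[·] t)) (m := fun j => [j]) (fun j => by simp) ▸ hg'
  · simpa using mul_mem (xG_mem_US (S := {s | (rs D).ht δ ≤ (rs D).ht s}) (le_refl ((rs D).ht δ)) 1)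
      (USub_mono (fun s hs => hs.2.1) (h.Yo_Tg P hrc hδ 1))
  · simpa using mul_mem h7 (UJ_le_U _ _ hg')

end IsTw

theorem span_two {φ : K →+* K} (hφ : ∀ t, φ^[2] t = t) {V : AddSubgroup K} (h1 : ∀ c t, φ c = c → t ∈ V → c * t ∈ V)
    (h2 : 1 ∈ V) {τ : K} (h3 : τ ∈ V) (h4 : φ τ ≠ τ) (s : K) : s ∈ V := by
  have h5 : τ - φ τ ≠ 0 := sub_ne_zero.mpr h4.symm
  have h6 : φ τ - τ ≠ 0 := sub_ne_zero.mpr h4
  have h7 : ∀ t, φ (φ t) = t := hφ
  have := add_mem (h1 ((s - φ s) / (τ - φ τ)) τ (by simp only [map_div₀, map_sub, h7]; field_simp; ring) h3)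
    (h1 ((τ * φ s - s * φ τ) / (τ - φ τ)) 1 (by simp only [map_div₀, map_sub, map_mul, h7]; field_simp; ring) h2)
  convert this using 1
  field_simp; ring

theorem span_three {φ : K →+* K} (hφ : ∀ t, φ^[3] t = t) {V : AddSubgroup K} (h1 : ∀ c t, φ c = c → t ∈ V → c * t ∈ V)
    (h2 : 1 ∈ V) (h0 : ∀ t ∈ V, φ t * φ (φ t) ∈ V) {τ : K} (h3 : τ ∈ V) (h4 : φ τ ≠ τ) (s : K) : s ∈ V := by
  have h7 : ∀ t, φ (φ (φ t)) = t := hφ
  have a1 : φ τ - τ ≠ 0 := sub_ne_zero.mpr h4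
  have a2 : φ (φ τ) - φ τ ≠ 0 := by simpa using (map_ne_zero φ).mpr a1
  have a3 : τ - φ (φ τ) ≠ 0 := by simpa [h7] using (map_ne_zero φ).mpr a2
  have a4 : ∀ t, φ ((φ t - t) * (φ (φ t) - φ t) * (t - φ (φ t))) = (φ t - t) * (φ (φ t) - φ t) * (t - φ (φ t)) := fun t => by
    simp only [map_mul, map_sub, h7]; ring
  set Δ := (φ τ - τ) * (φ (φ τ) - φ τ) * (τ - φ (φ τ)) with hΔ
  have := add_mem (add_mem
    (h1 ((s * (φ (φ τ) ^ 2 - φ τ ^ 2) * τ + φ s * (τ ^ 2 - φ (φ τ) ^ 2) * φ τ + φ (φ s) * (φ τ ^ 2 - τ ^ 2) * φ (φ τ)) / Δ) 1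
      (by rw [map_div₀, a4]; simp only [map_mul, map_sub, map_add, map_pow, h7]; ring) h2)
    (h1 ((s * (φ τ - φ (φ τ)) * τ + φ s * (φ (φ τ) - τ) * φ τ + φ (φ s) * (τ - φ τ) * φ (φ τ)) / Δ) τ
      (by rw [map_div₀, a4]; simp only [map_mul, map_sub, map_add, h7]; ring) h3))
    (h1 ((s * (φ τ - φ (φ τ)) + φ s * (φ (φ τ) - τ) + φ (φ s) * (τ - φ τ)) / Δ) _
      (by rw [map_div₀, a4]; simp only [map_mul, map_sub, map_add, h7]; ring) (h0 τ h3))
  convert this using 1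
  rw [hΔ]; field_simp; ring

namespace IsTw
variable {φ : K →+* K} [Finite K]

/-- The parameters of the orbit products in a subgroup. -/
def Ym {T : TwData} {σ : D.group K →* D.group K} (h : IsTw D T (xG D K) φ σ) {k : ℕ} (P : Per D T k)
    (H : Subgroup (D.group K)) (r : Fin D.nroots) : AddSubgroup K where
  carrier := {t | Yo T σ k r t ∈ H}
  zero_mem' := by simp [Yo, h.chv.rel.zero r.2]
  add_mem' ha hb := by simpa [h.Yo_add P] using mul_mem ha hb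
  neg_mem' {t} ht := by
    have := h.Yo_add P r (-t) t
    rw [neg_add_cancel, Yo, h.chv.rel.zero r.2, dl_one_right, eq_comm, mul_eq_one_iff_eq_inv] at this
    simpa [this]

theorem max_E6 {σ : chevE6.group K →* chevE6.group K} (h : IsTw chevE6 twE6 (xG chevE6 K) φ σ) (hφ : ∀ t, φ^[2] t = t)
    {H : Subgroup (chevE6.group K)} (hH : ∀ g ∈ H, σ g = g) (hM : ∀ g, σ g = g → fm chevE6 φ g = g → g ∈ H) :
    (∀ g ∈ H, fm chevE6 φ g = g) ∨ h.fold.gen ≤ H := by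
  have hrc : ∀ r < chevE6.nroots, ∀ i < chevE6.rank, rcN chevE6 (twE6.π r) (twE6.ν i) = rcN chevE6 r i := by decide +kernel
  by_cases hU : ∀ u ∈ H, u ∈ (PG chevE6 K).U → fm chevE6 φ u = u
  · refine Or.inl fun g => h.fm_of_U per_E6 hrc hH hM (fun i e => ?_) hU (i := ⟨1, by decide⟩) (by decide +kernel)
      (by decide +kernel) (by decide +kernel)
    have := fun j => h.orb_inv (fun i => if i = 1 then 0 else if i = 3 then 1 else 2) (by decide +kernel)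
      (e ▸ Set.mem_univ j : j ∈ h.fold.orb i)
    simpa using (this ⟨1, by decide⟩).trans (this ⟨3, by decide⟩).symm
  let rep : Fin 4 → Fin chevE6.rank := ![⟨5, by decide⟩, ⟨2, by decide⟩, ⟨1, by decide⟩, ⟨3, by decide⟩]
  have hrep : ∀ i, ∃ a, i ∈ h.fold.orb (rep a) := fun i =>
    have : ∀ i : Fin chevE6.rank, ∃ a, ∃ j < 2, twE6.ν^[j] (rep a) = i := by decide +kernel
    let ⟨a, j, _, e⟩ := this i; ⟨a, h.mem_orb_of j e⟩
  have hc : ∀ a, twE6.π (chevE6.simple (rep a)) ≠ chevE6.simple (rep a) → a = 0 ∨ a = 1 := by decide +kernel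
  obtain ⟨a, t, h1, h2, g, hg, h3⟩ := h.exists_lead per_E6 hH hM hrep hU
  have h4 : Yo twE6 σ 2 68 (-t) ∈ H := by
    have h5 : ∀ s : Fin chevE6.nroots, (rs chevE6).ht ⟨68, by decide⟩ ≤ (rs chevE6).ht s → twE6.π s ≠ s →
        ∃ j < 2, twE6.π^[j] 68 = s ∧ (rs chevE6).ht s = (rs chevE6).ht ⟨68, by decide⟩ := by
      simp only [ht_eq_sum]; decide +kernel
    rcases hc a h1 with rfl | rfl
    · simpa using h.Yo_step per_E6 hrc hH hM hφ (collFor_E6 0 id) rfl (δ := ⟨67, by decide⟩) (κ := ⟨68, by decide⟩)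
        (f := [(-1, [0])]) (W := [(66, [(-1, [1])])]) (by decide +kernel) (by decide +kernel) (by decide +kernel)
        (by decide +kernel) h5 hg h3
    · simpa using h.Yo_step per_E6 hrc hH hM hφ (collFor_E6 0 id) rfl (δ := ⟨65, by decide⟩) (κ := ⟨68, by decide⟩)
        (f := [(-1, [0])]) (W := [(66, [(-1, [1])]), (69, [(1, [0, 1])])]) (by decide +kernel) (by decide +kernel)
        (by decide +kernel) (by decide +kernel) h5 hg h3
  have h5 := span_two hφ (V := h.Ym per_E6 H ⟨68, by decide⟩) (τ := t) (fun c t hc => h.Yo_smul per_E6 hM (β := ⟨60, by decide⟩) (by decide +kernel) (by decide +kernel) hc)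
    (h.Yo_mem per_E6 hM _ (map_one φ)) (neg_mem_iff.mp (show -t ∈ _ from h4)) h2
  refine Or.inr (h.gen_le_of per_E6 hM hrep fun a h1 t => ?_)
  rcases hc a h1 with rfl | rfl
  · exact h.Yo_W per_E6 hM ([2, 4, 3, 1, 2, 4, 0, 5, 3, 2, 4, 0, 5].map (Fin.ofNat 6)) (by decide +kernel) (β := ⟨18, by decide⟩)
      (s := ⟨36, by decide⟩) (by decide +kernel) (by decide +kernel) (by decide +kernel) (by decide +kernel) (h5 t)
  · exact h.Yo_W per_E6 hM ([0, 5, 3, 1, 2, 4, 3, 2, 4, 0, 5].map (Fin.ofNat 6)) (by decide +kernel) (β := ⟨6, by decide⟩)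
      (s := ⟨42, by decide⟩) (by decide +kernel) (by decide +kernel) (by decide +kernel) (by decide +kernel) (h5 t)

theorem max_D4 {σ : chevD4.group K →* chevD4.group K} (h : IsTw chevD4 twD4a (xG chevD4 K) φ σ) (hφ : ∀ t, φ^[3] t = t)
    {H : Subgroup (chevD4.group K)} (hH : ∀ g ∈ H, σ g = g) (hM : ∀ g, σ g = g → fm chevD4 φ g = g → g ∈ H) :
    (∀ g ∈ H, fm chevD4 φ g = g) ∨ h.fold.gen ≤ H := by
  have hrc : ∀ r < chevD4.nroots, ∀ i < chevD4.rank, rcN chevD4 (twD4a.π r) (twD4a.ν i) = rcN chevD4 r i := by decide +kernel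
  by_cases hU : ∀ u ∈ H, u ∈ (PG chevD4 K).U → fm chevD4 φ u = u
  · refine Or.inl fun g => h.fm_of_U per_D4 hrc hH hM (fun i e => ?_) hU (i := ⟨1, by decide⟩) (by decide +kernel)
      (by decide +kernel) (by decide +kernel)
    have := fun j => h.orb_inv (fun i => if i = 1 then 0 else 1) (by decide +kernel)
      (e ▸ Set.mem_univ j : j ∈ h.fold.orb i)
    simpa using (this ⟨1, by decide⟩).trans (this ⟨0, by decide⟩).symm
  have hc : ∀ a, twD4a.π (chevD4.simple (repD4 a)) ≠ chevD4.simple (repD4 a) → a = 0 := by decide +kernel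
  obtain ⟨a, t, h1, h2, g, hg, h3⟩ := h.exists_lead per_D4 hH hM h.hrep_D4 hU
  obtain rfl := hc a h1
  have h5 : ∀ s : Fin chevD4.nroots, (rs chevD4).ht ⟨17, by decide⟩ ≤ (rs chevD4).ht s → twD4a.π s ≠ s →
      ∃ j < 3, twD4a.π^[j] 17 = s ∧ (rs chevD4).ht s = (rs chevD4).ht ⟨17, by decide⟩ := by
    simp only [ht_eq_sum]; decide +kernel
  have h4 : Yo twD4a σ 3 17 (φ t + φ (φ t)) ∈ H := by
    simpa using h.Yo_step per_D4 hrc hH hM hφ (collFor_D4 0 id) rfl (δ := ⟨19, by decide⟩) (κ := ⟨17, by decide⟩)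
      (f := [(1, [1]), (1, [2])]) (W := [(20, [(-1, [0]), (-1, [2])]), (21, [(-1, [0]), (-1, [1])]),
        (22, [(1, [0, 1]), (1, [0, 2]), (1, [1, 2])]), (23, [(1, [0]), (1, [1]), (1, [2])])]) (by decide +kernel)
      (by decide +kernel) (by decide +kernel) (by decide +kernel) h5 hg h3
  have h6 : ∀ t ∈ h.Ym per_D4 H ⟨17, by decide⟩, t ∈ h.Ym per_D4 H ⟨18, by decide⟩ := fun t =>
    h.Yo_W per_D4 hM ([1, 0, 2, 3].map (Fin.ofNat 4)) (by decide +kernel) (β := ⟨9, by decide⟩)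
      (by decide +kernel) (by decide +kernel) (by decide +kernel) (by decide +kernel)
  have h7 := span_three hφ (V := h.Ym per_D4 H ⟨17, by decide⟩)
    (fun c t hc => h.Yo_smul per_D4 hM (β := ⟨22, by decide⟩) (by decide +kernel) (by decide +kernel) hc)
    (h.Yo_mem per_D4 hM _ (map_one φ)) (fun t ht => by
      have a1 := h6 t ht
      have a2 := h.Yo_W per_D4 hM ([1].map (Fin.ofNat 4)) (by decide +kernel) (β := ⟨14, by decide⟩) (s := ⟨19, by decide⟩)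
        (by decide +kernel) (by decide +kernel) (by decide +kernel) (by decide +kernel) a1
      have a3 := h.Yo_mem per_D4 hM ⟨14, by decide⟩ (map_one φ)
      have a4 := mul_mem (inv_mem a2) (mul_mem (mul_mem (mul_mem (inv_mem a3) (inv_mem a1)) a3) a1)
      have e := fun r => h.Yo_eq per_D4 r (t := t) (v := (φ^[·] t)) (m := fun j => [j]) fun j => by simp
      rw [e, e, h.Yo_eq per_D4 _ (t := 1) (v := (φ^[·] t)) (m := fun _ => []) fun j => by simp,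
        h.chv.rel.comm_of_check (collFor_D4 0 id) (charOK_zero K) _ (w := orbW twD4a 3 19 (fun j => [j]) ++ (17, [(1, [1, 2])]) ::
          [(20, [(-1, [0, 2])]), (21, [(-1, [0, 1])]), (22, [(1, [0, 1, 2])]), (23, [(1, [0, 1, 2])])]) (by decide +kernel),
        evS_append, inv_mul_cancel_left] at a4
      show Yo twD4a σ 3 17 _ ∈ H
      simpa using h.Yo_mem_of per_D4 hrc hH hM hφ (κ := ⟨17, by decide⟩) (t := evP (φ^[·] t) [(1, [1, 2])])
        (by decide +kernel) (by decide +kernel) h5 a4 (by rw [evS_cons, inv_mul_cancel_left]; exact evS_mem_USub _ (by simp only [NS, Set.mem_ofPred_eq, rs_isPos_iff_le, Pi.le_def]; decide +kernel))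
        (evS_mem_USub _ (by decide +kernel))) h4 fun e => h2 (by
      rw [map_add, show φ (φ (φ t)) = t from hφ t] at e
      linear_combination -e)
  refine Or.inr (h.gen_le_of per_D4 hM h.hrep_D4 fun a h1 t => ?_)
  obtain rfl := hc a h1
  exact h6 t (h7 t)

end IsTw

theorem max_of_tw [Finite K] {T : TwData} {φ : K →+* K} {σ : D.group K →* D.group K} (h : IsTw D T (xG D K) φ σ) {k : ℕ} (P : Per D T k)
    (hφ : ∀ t, φ^[k] t = t) {i : Fin D.rank} (hi : T.π (D.simple i) ≠ D.simple i) {t : K} (ht : φ t ≠ t)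
    {Γ M : Subgroup (GL D.Idx K)} (h0 : Γ ≤ D.group K) (h1 : ∀ g : D.group K, (g : GL D.Idx K) ∈ Γ ↔ σ g = g)
    (h2 : ∀ g : D.group K, (g : GL D.Idx K) ∈ Γ → g ∈ h.fold.gen) {q : ℕ} (hq : ∀ t, φ t = t ^ q)
    (hM : ∀ g, g ∈ M ↔ g ∈ Γ ∧ ∀ i j, (g : Matrix D.Idx D.Idx K) i j ^ q = (g : Matrix D.Idx D.Idx K) i j)
    (H0 : ∀ H : Subgroup (D.group K), (∀ g ∈ H, σ g = g) → (∀ g, σ g = g → fm D φ g = g → g ∈ H) →
      (∀ g ∈ H, fm D φ g = g) ∨ h.fold.gen ≤ H) : M ≠ Γ ∧ ∀ H, M ≤ H → H ≤ Γ → H = M ∨ H = Γ := by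
  have h3 : ∀ g : D.group K, (g : GL D.Idx K) ∈ M ↔ σ g = g ∧ fm D φ g = g := fun g => by
    rw [hM, h1, ← mat_injective.eq_iff (a := fm D φ g), mat_fm, ← Matrix.ext_iff]
    simp only [Matrix.map_apply, hq]
  refine ⟨fun e => ht ?_, fun H h4 h5 => (H0 (H.subgroupOf _) (fun g hg => (h1 g).mp (h5 hg))
    fun g a b => h4 ((h3 g).mpr ⟨a, b⟩)).imp (fun h6 => le_antisymm (fun g hg => ?_) h4)
    fun h6 => le_antisymm h5 fun g hg => h6 (h2 ⟨g, h0 hg⟩ hg)⟩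
  · have n := h.nd_of_per P i
    have := ((h3 _).mp (e ▸ (h1 _).mpr (h.σ_Yo P ((rs D).simple i) (IsTw.mem_Fx_of_ne hφ hi t)))).2
    rw [h.fm_Yo P] at this
    exact (n.sc_dl _).symm.trans ((congrArg (sc i) this).trans (n.sc_dl _))
  · exact (h3 ⟨g, h0 (h5 hg)⟩).mpr ⟨(h1 _).mp (h5 hg), h6 _ hg⟩

variable [Fintype K] (p : ℕ) [Fact p.Prime] {q : ℕ} (hq : ∃ a : ℕ, 1 ≤ a ∧ q = p ^ a)
include hq

theorem isPrimePow_of : IsPrimePow q :=
  let ⟨a, h, e⟩ := hq; e ▸ (isPrimePow_nat_iff _).mpr ⟨p, a, Fact.out, h, rfl⟩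

theorem max_twistedE6 (hK : Fintype.card K = q ^ 2) {M : Subgroup (GL chevE6.Idx K)} (hM : ∀ g, g ∈ M ↔ g ∈ twistedE6 K q ∧
    ∀ i j, (g : Matrix chevE6.Idx chevE6.Idx K) i j ^ q = (g : Matrix chevE6.Idx chevE6.Idx K) i j) :
    M ≠ twistedE6 K q ∧ ∀ H, M ≤ H → H ≤ twistedE6 K q → H = M ∨ H = twistedE6 K q := by
  obtain ⟨_, _, _, -, φ, h1, h2⟩ := exists_frob (isPrimePow_of p hq) hK
  have h3 := (isPrimePow_of p hq).one_lt
  obtain ⟨t, ht⟩ := exists_pow_ne_self (K := K) h3 (by rw [hK]; nlinarith)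
  exact max_of_tw (isTw_adj (twOK_E6 K) φ) per_E6 h2 (i := ⟨0, by decide⟩) (by decide +kernel) (h1 t ▸ ht)
    (genSubgroup_le_group _) (fun _ => mem_twistedE6_iff φ h1 h2)
    (fun _ h => range_twistedE6 φ h1 h2 ▸ mem_range_wordIncl.mpr h) h1 hM fun _ => IsTw.max_E6 _ h2

theorem max_twistedD4 (hK : Fintype.card K = q ^ 3) {M : Subgroup (GL chevD4.Idx K)} (hM : ∀ g, g ∈ M ↔ g ∈ twistedD4 K q ∧
    ∀ i j, (g : Matrix chevD4.Idx chevD4.Idx K) i j ^ q = (g : Matrix chevD4.Idx chevD4.Idx K) i j) :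
    M ≠ twistedD4 K q ∧ ∀ H, M ≤ H → H ≤ twistedD4 K q → H = M ∨ H = twistedD4 K q := by
  obtain ⟨_, _, _, -, φ, h1, h2⟩ := exists_frob (isPrimePow_of p hq) hK
  have h3 := (isPrimePow_of p hq).one_lt
  obtain ⟨t, ht⟩ := exists_pow_ne_self (K := K) h3 (by rw [hK]; exact lt_self_pow₀ h3 (by norm_num))
  exact max_of_tw (isTw_adj (twOK_D4a K) φ) per_D4 h2 (i := ⟨0, by decide⟩) (by decide +kernel) (h1 t ▸ ht)
    (genSubgroup_le_group _) (fun _ => mem_twistedD4_iff φ h1 h2)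
    (fun _ h => range_twistedD4 φ h1 h2 ▸ mem_range_wordIncl.mpr h) h1 hM fun _ => IsTw.max_D4 _ h2

end Cfsg.Agent.Chev
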