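import Cfsg.Agent.Lib.SL2.Bruhat

/-! Finite groups generated by two opposite root elements; pairs of involutions; Sylow subgroups. -/

set_option autoImplicit false

namespace Cfsg.Agent

theorem card_modEq_of_pow {α : Type*} [Finite α] (f : Function.End α) (p : ℕ) [Fact p.Prime] (hf : f ^ p = 1) :
    Nat.card α ≡ Nat.card f.fixedPoints [MOD p] := by
  classical
  have := Fintype.ofFinite α
  rw [Nat.card_eq_fintype_card, Nat.card_eq_fintype_card]
  convert Equiv.Perm.card_fixedPoints_modEq (n := 1) (f := f) (p := p) (by simpa)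

theorem isConj_or_exists {G : Type*} [Group G] {a b : G} (ha : a * a = 1) (hb : b * b = 1) (h : IsOfFinOrder (a * b)) :
    IsConj a b ∨ ∃ k : ℕ, (a * b) ^ k ≠ 1 ∧ (a * b) ^ k * (a * b) ^ k = 1 ∧ Commute ((a * b) ^ k) a ∧
      Commute ((a * b) ^ k) b := by
  have h1 : SemiconjBy a (a * b) (a * b)⁻¹ := by
    rw [SemiconjBy, mul_inv_rev, inv_eq_of_mul_eq_one_right ha, inv_eq_of_mul_eq_one_right hb, ← mul_assoc, ha, mul_assoc, ha,
      one_mul, mul_one]
  have h2 := fun k => (h1.pow_right k).eq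
  have h3 := pow_orderOf_eq_one (a * b)
  obtain ⟨k, e | e⟩ := Nat.even_or_odd' (orderOf (a * b))
  · have h4 : (a * b) ^ k * (a * b) ^ k = 1 := by rw [← pow_add, ← two_mul, ← e, h3]
    have h5 : Commute ((a * b) ^ k) a := by
      rw [Commute, SemiconjBy, h2, inv_pow, inv_eq_of_mul_eq_one_right h4]
    refine Or.inr ⟨k, pow_ne_one_of_lt_orderOf (by have := h.orderOf_pos; omega) (by have := h.orderOf_pos; omega), h4, h5, ?_⟩
    simpa [← mul_assoc, ha] using h5.mul_right ((Commute.refl (a * b)).pow_left k)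
  · refine Or.inl (isConj_iff.mpr ⟨(a * b) ^ k, ?_⟩)
    have h4 : (a * b) ^ k * a = a * ((a * b) ^ k)⁻¹ := by
      rw [eq_mul_inv_iff_mul_eq, mul_assoc, h2, inv_pow, mul_inv_cancel_left]
    have h5 : ((a * b) ^ k)⁻¹ * ((a * b) ^ k)⁻¹ = a * b := by
      rw [← mul_inv_rev, ← pow_add, ← two_mul, inv_eq_iff_mul_eq_one, ← pow_succ, ← e, h3]
    rw [h4, mul_assoc, h5, ← mul_assoc, ha, one_mul]

theorem exists_conj_mem_of_normalizer {G : Type*} [Group G] [Finite G] (p : ℕ) [Fact p.Prime] {S : Subgroup G}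
    (hS : IsPGroup p S) (h : ∀ g ∈ Subgroup.normalizer (S : Set G), (∃ e, g ^ p ^ e = 1) → g ∈ S) {z : G} {e : ℕ}
    (hz : z ^ p ^ e = 1) : ∃ g, g⁻¹ * z * g ∈ S := by
  obtain ⟨Q, hQ⟩ := hS.exists_le_sylow
  have h1 : (Q : Subgroup G) ≤ S := by
    by_contra h1
    have := Q.isPGroup'.isNilpotent
    obtain ⟨g, h2, h3⟩ := SetLike.exists_of_lt (Group.normalizerCondition_of_isNilpotent (S.subgroupOf Q)
      (lt_top_iff_ne_top.mpr fun e => h1 (Subgroup.subgroupOf_eq_top.mp e)))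
    rw [← Subgroup.subgroupOf_normalizer_eq hQ] at h2
    exact h3 (h g h2 (let ⟨e, he⟩ := Q.isPGroup' g; ⟨e, congrArg Subtype.val he⟩))
  obtain ⟨Q', hQ'⟩ := (IsPGroup.of_card_dvd_pow (p := p) (G := Subgroup.zpowers z) (n := e)
    (by rw [Nat.card_zpowers]; exact orderOf_dvd_of_pow_eq_one hz)).exists_le_sylow
  obtain ⟨g, rfl⟩ := MulAction.exists_smul_eq G Q Q'
  exact ⟨g, h1 (by
    simpa [Sylow.coe_subgroup_smul, Subgroup.mem_pointwise_smul_iff_inv_smul_mem] using hQ' (Subgroup.mem_zpowers z))⟩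

namespace SL2.RankOne
variable {K G : Type*} [Field K] [Group G] (D : RankOne K G) {B : Subgroup G} (hx : ∀ a, D.x a ∈ B) (hh : ∀ t, D.h t ∈ B)
  (hw : D.w ∉ B)

theorem x_pow (p : ℕ) [CharP K p] (a : K) : D.x a ^ p = 1 := by
  have : ∀ n : ℕ, D.x a ^ n = D.x (n * a) := fun n => by
    induction n with
    | zero => simp [x_zero_of_add D.x_add]
    | succ n ih => rw [pow_succ, ih, ← D.x_add]; simp [add_mul]
  simp [this, x_zero_of_add D.x_add]

include hx hh hw

theorem eq_zero_of_mem {b : K} (h : D.w * D.x b * D.w⁻¹ ∈ B) : b = 0 := by_contra fun hb => hw (by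
  have := D.w_x (Units.mk0 b hb)
  rw [Units.val_mk0] at this
  rw [this] at h
  simpa [mul_mem_cancel_left, mul_mem_cancel_right, hx, hh] using h)

theorem eq_zero_of_mem' {b : K} (h : D.w⁻¹ * D.x b * D.w ∈ B) : b = 0 := D.eq_zero_of_mem hx hh hw (by
  have := mul_mem (mul_mem (hh (-1)) h) (inv_mem (hh (-1)))
  rw [← D.w_w] at this
  simpa [mul_assoc] using this)

theorem even_card (p : ℕ) [Fact p.Prime] [CharP K p] (hp : (2 : K) ≠ 0) {ι : G →* G} (h1 : ∀ b ∈ B, ι b ∈ B)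
    (h2 : ∀ a, ι (D.x a) = D.x (-a)) (h3 : ι D.w = D.w⁻¹) {c : K} (hc : c ≠ 0)
    [Finite (Subgroup.closure {D.x 1, D.w * D.x c * D.w⁻¹})] :
    2 ∣ Nat.card (Subgroup.closure {D.x 1, D.w * D.x c * D.w⁻¹}) := by
  set S := Subgroup.closure {D.x 1, D.w * D.x c * D.w⁻¹} with hS
  have hn := x_neg_of_add D.x_add
  have sm : ∀ (s : S) (g : G), s • (g : G ⧸ B) = ((s * g : G) : G ⧸ B) := fun _ _ => rfl
  let Ω := MulAction.orbit S ((1 : G) : G ⧸ B)
  have : Finite Ω := (Set.finite_range _).to_subtype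
  let pt : K → G ⧸ B := fun z => (D.x z * D.w : G)
  have a1 : ∀ z z', pt z = pt z' → z = z' := fun z z' e => by
    have := D.eq_zero_of_mem' hx hh hw (b := -z + z') (by simpa [D.x_add, hn, mul_assoc] using QuotientGroup.eq.mp e)
    linear_combination -this
  have a2 : ∀ z, pt z ≠ (1 : G) := fun z e => hw (by simpa [mul_mem_cancel_left, hx] using QuotientGroup.eq.mp e.symm)
  have a3 : ∀ g, D.Cell g → (g : G ⧸ B) = (1 : G) ∨ ∃ z, (g : G ⧸ B) = pt z := by
    rintro _ (⟨a, t, rfl⟩ | ⟨a, t, b, rfl⟩)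
    · exact Or.inl (QuotientGroup.eq.mpr (by simpa using inv_mem (mul_mem (hx a) (hh t)))).symm.symm
    · refine Or.inr ⟨a, (QuotientGroup.eq.mpr ?_).symm⟩
      have := D.w_mul_h t⁻¹
      rw [inv_inv] at this
      simpa [mul_assoc, ← this, ← mul_assoc (D.h t)] using mul_mem (hh t⁻¹) (hx b)
  have a4 : S ≤ Subgroup.closure (Set.range D.x ∪ Set.range D.h ∪ {D.w}) := (Subgroup.closure_le _).mpr (by
    have b1 : ∀ a, D.x a ∈ Subgroup.closure (Set.range D.x ∪ Set.range D.h ∪ {D.w}) := fun a =>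
      Subgroup.subset_closure (by simp)
    have b2 : D.w ∈ Subgroup.closure (Set.range D.x ∪ Set.range D.h ∪ {D.w}) := Subgroup.subset_closure (by simp)
    rintro _ (rfl | rfl)
    exacts [b1 1, mul_mem (mul_mem b2 (b1 c)) (inv_mem b2)])
  have a5 : ∀ ω : Ω, ω.1 = (1 : G) ∨ ∃ z, ω.1 = pt z := by
    rintro ⟨_, s, rfl⟩
    simpa [sm] using a3 _ (D.cell_of_mem_closure (a4 s.2))
  have a6 : ∀ s : S, (s : G) ^ p = 1 → Nat.card Ω ≡ {ω : Ω | s • ω = ω}.ncard [MOD p] := fun s hs =>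
    card_modEq_of_pow (MulAction.toEndHom s) p (by rw [← map_pow, show s ^ p = 1 from Subtype.ext hs, map_one])
  let o : Ω := ⟨_, MulAction.mem_orbit_self _⟩
  have a7 := a6 ⟨D.x 1, Subgroup.subset_closure (by simp)⟩ (D.x_pow p 1)
  rw [show {ω : Ω | _ • ω = ω} = {o} from Set.eq_singleton_iff_unique_mem.mpr
    ⟨Subtype.ext (QuotientGroup.eq.mpr (by simpa using hx 1)), fun ω h => Subtype.ext ((a5 ω).resolve_right fun ⟨z, e⟩ => by
      have := congrArg Subtype.val h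
      rw [MulAction.orbit.coe_smul, e] at this
      simpa using a1 (1 + z) z (by rw [← this]; simp [pt, D.x_add, mul_assoc, sm]))⟩,
    Set.ncard_singleton] at a7
  have a8 : pt 0 ∈ Ω := by
    have b1 := a6 ⟨D.w * D.x c * D.w⁻¹, Subgroup.subset_closure (by simp)⟩ (by simp [D.x_pow p])
    obtain ⟨ω, h⟩ : {ω : Ω | (⟨D.w * D.x c * D.w⁻¹, Subgroup.subset_closure (by simp)⟩ : S) • ω = ω}.Nonempty := by
      by_contra h
      rw [Set.not_nonempty_iff_eq_empty.mp h, Set.ncard_empty] at b1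
      exact absurd (a7.symm.trans b1) (by simp [Nat.ModEq, Nat.mod_eq_of_lt (Fact.out : p.Prime).one_lt])
    have b2 := congrArg Subtype.val h
    rw [MulAction.orbit.coe_smul] at b2
    rcases a5 ω with e | ⟨z, e⟩
    · rw [e] at b2
      exact absurd (D.eq_zero_of_mem hx hh hw (by simpa using QuotientGroup.eq.mp b2.symm)) hc
    · have b3 : D.x c • ((D.w⁻¹ * D.x z * D.w : G) : G ⧸ B) = (D.w⁻¹ * D.x z * D.w : G) := by
        rw [e] at b2
        simpa [pt, mul_assoc, sm] using congrArg (D.w⁻¹ • ·) b2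
      obtain e' | ⟨z', e'⟩ := a3 _ (D.cell_mul_w (D.cell_mul_x (g := D.w⁻¹) (Or.inr ⟨0, -1, 0, by
        simp [D.w_inv, x_zero_of_add D.x_add]⟩) z))
      · rw [← D.eq_zero_of_mem' hx hh hw (b := z) (by simpa using QuotientGroup.eq.mp e'.symm), ← e]; exact ω.2
      · rw [e'] at b3
        exact absurd (by simpa using a1 (c + z') z' (by rw [← b3]; simp [pt, D.x_add, mul_assoc])) hc
  have a9 : ∀ s ∈ S, ι s ∈ S := fun s hs => (Subgroup.closure_le (S.comap ι)).mpr (by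
    rintro _ (rfl | rfl)
    · simpa [h2, hn] using Subgroup.subset_closure (by simp)
    · have := D.h_x (-1) c
      rw [← D.w_w] at this
      have b1 : ι (D.w * D.x c * D.w⁻¹) = (D.w * D.x c * D.w⁻¹)⁻¹ := by
        simp only [map_mul, map_inv, h2, h3, hn]
        conv_lhs => rw [show D.x c = _ from by simpa using this.symm]
        group
      exact Subgroup.mem_comap.mpr (b1 ▸ inv_mem (Subgroup.subset_closure (by simp)))) hs
  let j : G ⧸ B → G ⧸ B := Quotient.map' ι fun a b h => by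
    rw [QuotientGroup.leftRel_apply] at h ⊢
    simpa using h1 _ h
  have b1 : ∀ g : G, j g = ι g := fun _ => rfl
  have b2 : ∀ z, j (pt z) = pt (-z) := fun z => QuotientGroup.eq.mpr (by simpa [h2, h3, D.w_w, mul_assoc] using hh (-1))
  let f : Function.End Ω := fun ω => ⟨j ω, by
    obtain ⟨_, s, rfl⟩ := ω
    exact ⟨⟨ι s, a9 s s.2⟩, by simp [b1, sm]⟩⟩
  have b3 := card_modEq_of_pow f 2 (funext fun ω => Subtype.ext (by
    show j (j ω) = ω
    rcases a5 ω with e | ⟨z, e⟩ <;> simp [e, b1, b2]))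
  rw [show f.fixedPoints = {o, ⟨_, a8⟩} from Set.ext fun ω => ⟨fun h => (a5 ω).imp Subtype.ext fun ⟨z, e⟩ => by
      have := congrArg Subtype.val h
      simp only [f, e, b2] at this
      have b4 : 2 * z = 0 := by linear_combination -a1 _ _ this
      exact Subtype.ext (by simpa [(mul_eq_zero.mp b4).resolve_left hp] using e), by
      rintro (rfl | rfl) <;> exact Subtype.ext (by simp [f, o, b1, b2])⟩, Nat.card_coe_set_eq {o, _},
    Set.ncard_pair (a := o) fun e => a2 0 (congrArg Subtype.val e).symm] at b3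
  refine ((Nat.modEq_zero_iff_dvd).mp b3).trans ?_
  rw [Nat.card_congr (MulAction.orbitEquivQuotientStabilizer S _)]
  exact Subgroup.card_quotient_dvd_card _

theorem exists_torus (p : ℕ) [Fact p.Prime] [CharP K p] (hp : (2 : K) ≠ 0) {ι : G →* G} (h1 : ∀ b ∈ B, ι b ∈ B)
    (h2 : ∀ a, ι (D.x a) = D.x (-a)) (h3 : ι D.w = D.w⁻¹) (h4 : D.h (-1) ≠ 1) {c : K} (hc : c ≠ 0) {S : Subgroup G} [Finite S]
    (h5 : D.x 1 ∈ S) (h6 : D.w * D.x c * D.w⁻¹ ∈ S) : ∃ a t, t ≠ 1 ∧ D.x a * D.h t ∈ S := by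
  have h7 : Subgroup.closure {D.x 1, D.w * D.x c * D.w⁻¹} ≤ S := (Subgroup.closure_le _).mpr (by rintro _ (rfl | rfl) <;> simpa)
  have := Finite.of_injective _ (Subgroup.inclusion_injective h7)
  obtain ⟨⟨g, hg⟩, h8⟩ := exists_prime_orderOf_dvd_card' 2 (D.even_card hx hh hw p hp h1 h2 h3 hc)
  replace h8 : orderOf g = 2 := by rw [← h8, ← Subgroup.orderOf_coe]
  have h9 : g * g = 1 := by rw [← sq, ← h8]; exact pow_orderOf_eq_one g
  obtain ⟨a, t, rfl⟩ | ⟨a, t, b, rfl⟩ := D.cell_of_mem_closure ((Subgroup.closure_le _).mpr (by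
    have b1 : ∀ a, D.x a ∈ Subgroup.closure (Set.range D.x ∪ Set.range D.h ∪ {D.w}) := fun a =>
      Subgroup.subset_closure (by simp)
    have b2 : D.w ∈ Subgroup.closure (Set.range D.x ∪ Set.range D.h ∪ {D.w}) := Subgroup.subset_closure (by simp)
    rintro _ (rfl | rfl)
    exacts [b1 1, mul_mem (mul_mem b2 (b1 c)) (inv_mem b2)]) hg)
  · refine ⟨a, t, ?_, h7 hg⟩
    rintro rfl
    have := orderOf_dvd_of_pow_eq_one (D.x_pow p a)
    rw [map_one, mul_one] at h8
    rw [h8, Nat.prime_dvd_prime_iff_eq Nat.prime_two Fact.out] at this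
    exact hp (by simpa [← this] using CharP.cast_eq_zero K p)
  · have e : D.x (b + a) * D.h t * (D.w * D.x (b + a) * D.w⁻¹) * D.h t⁻¹ * D.h (-1) = 1 := by
      rw [← D.w_h, ← D.w_w, D.x_add]
      simpa [mul_assoc] using congrArg (fun g => D.x b * g * (D.x b)⁻¹) h9
    have e' := D.eq_zero_of_mem hx hh hw (b := b + a) (by
      have : _ ∈ B := e ▸ one_mem B
      simpa [mul_mem_cancel_left, mul_mem_cancel_right, hx, hh] using this)
    simp [e', x_zero_of_add D.x_add, h4] at e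

end SL2.RankOne
end Cfsg.Agent
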