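import Cfsg.Agent.Lib.Tw.MaxC
import Cfsg.Agent.Lib.Tw.MaxD
import Cfsg.Agent.Lib.Chev.Misc

/-! Finite subgroups of a Chevalley group containing the root elements over the prime field. -/

set_option autoImplicit false
set_option linter.unusedSectionVars false
set_option synthInstance.maxSize 2048

namespace Cfsg.Agent.ChevM
open Cfsg.Lie Chev RSys PreRGD

variable {D : ChevalleyDatum} [hT : Tab D] {K : Type*} [Field K]

theorem fmFold_orb (ψ : K →+* K) (i : Fin D.rank) : (fmFold D ψ).orb i = {i} := by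
  ext j; simp [Fold.orb, fmFold, eq_comm]

theorem fmFold_s (ψ : K →+* K) (i : Fin D.rank) : (fmFold D ψ).s i = (rs D).sref i := by
  rw [Fold.s, fmFold_orb, eq_comm]
  exact eq_w0J ((rs D).sref_mem_WJ rfl) (by rintro _ rfl; simpa [sref_simple] using not_isPos_neg_simple _)

section
variable {i : Fin D.rank} {g : D.group K}

theorem sc_fm (ψ : K →+* K) (hg : g ∈ (PG D K).U) : sc i (fm D ψ g) = ψ (sc i g) :=
  sc_eq (by rw [← fm_xG, ← map_inv, ← map_mul]; exact fm_mem_US ψ (sc_spec hg))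

theorem sc_xG_self (t : K) : sc i (xG D K ((rs D).simple i : Fin D.nroots) t) = t := sc_eq (by simp)

theorem sc_xG_ne {r : Fin D.nroots} (hr : (rs D).IsPos r) (h : (rs D).simple i ≠ r) (t : K) : sc i (xG D K r t) = 0 :=
  sc_eq (by
    rw [xG_zero, inv_one, one_mul]
    refine xG_mem_US (S := {r | (rs D).IsPos r ∧ ¬ (rs D).InSub {i} r}) ⟨hr, fun h' => ?_⟩ t
    obtain rfl | rfl := inSub_singleton_iff.mp h'
    exacts [h rfl, not_isPos_neg_simple i hr])

theorem mem_U_of_pow (p : ℕ) [Fact p.Prime] [CharP K p] (hg : g ∈ (PG D K).B) {e : ℕ} (h : g ^ p ^ e = 1) :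
    g ∈ (PG D K).U := by
  obtain ⟨u, hu, k, hk, rfl⟩ := (PG D K).mem_B_iff.1 hg
  have h1 : ∀ n : ℕ, (u * k) ^ n * (k ^ n)⁻¹ ∈ (PG D K).U := fun n => by
    induction n with
    | zero => simp
    | succ n ih => simpa [pow_succ', mul_assoc] using mul_mem hu (B_conj_U ((PG D K).H_le_B hk) ih)
  have h2 := (nondeg D K).eq_one_of_mem_U_H (h1 (p ^ e)) (by simpa [h] using pow_mem hk _)
  obtain ⟨a, rfl⟩ := mem_H_iff.1 hk
  rw [h, one_mul, inv_eq_one, ← map_pow, hG_eq_one_iff, map_pow] at h2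
  have h3 : hG D a = 1 := hG_eq_one_iff.2 (funext fun j => Units.ext (iterateFrobenius_inj K p e (by
    simpa [iterateFrobenius_def] using congrArg Units.val (congrFun h2 j))))
  simpa [h3] using hu

end

variable (K) in
/-- The rank one data of a root. -/
def rankOne (r : Fin D.nroots) : SL2.RankOne K (D.group K) where
  x := xG D K r
  h := (hG D).comp ⟨⟨fun t i => t ^ (rs D).cc r i, by ext; simp⟩, fun a b => by ext; simp [mul_zpow]⟩
  w := nElt D (xG D K) r 1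
  x_add a b := (xG_add _ _ _).symm
  h_x t a := (hG_conj_xG (fun i => t ^ (rs D).cc r i) r a).trans (by rw [chi_coroot, pair_self]; simp [zpow_ofNat])
  w_h t := by
    have h7 := r7_xG D K
    have := h7.n_conj_h (stRel_xG D K) r r one_ne_zero t
    rw [refl_self, h7.self, h7.h_neg_root (stRel_xG D K) r (by simp), h7.h_neg_root (stRel_xG D K) r (by simp)] at this
    refine (congrArg (_ * · * _) (hElt_eq_hG r t).symm).trans (.trans ?_ (hElt_eq_hG r t⁻¹))
    simpa [(stRel_xG D K).h_one] using this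
  w_w := by
    rw [(stRel_xG D K).n_sq, show (-1 : K) = (-1 : Kˣ) from rfl, hElt_eq_hG, ← map_inv]
    exact congrArg _ (funext fun i => by simp [← inv_zpow])
  w_x b := by
    have := (stRel_xG D K).x_neg_eq r (b⁻¹ : Kˣ)
    rw [(stRel_xG D K).n_eq_h_mul, hElt_eq_hG] at this
    simpa [(r7_xG D K).n_conj_self r one_ne_zero, mul_assoc] using this

theorem tab_facts : (∃ i < D.rank, D.pairing (D.nroots - 1) (D.simple i) = 1 ∧ D.cartan i (D.nroots - 1) ≠ 0 ∧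
    D.simple i ≠ D.nroots - 1) ∧ (∃ j < D.rank, rcN D (D.nroots - 1) j % 2 = 1) ∧ ∃ i < D.rank, ∃ k < D.rank, i ≠ k ∧
    (len D (D.simple i) ≠ len D (D.nroots - 1) ∨ D.commTerms (D.simple i) (D.simple k) = []) := by
  rcases hT.isTab.cases with rfl | rfl | rfl | rfl | rfl | rfl | rfl <;> decide +kernel

theorem exists_node : ∃ i, (rs D).sref i ((rs D).neg (θ D)) ≠ (rs D).neg (θ D) ∧ (rs D).simple i ≠ θ D ∧
    ∀ t : Kˣ, cm D (fun i => t ^ (rs D).cc (θ D) i) i = t := by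
  obtain ⟨⟨i, hi, h1, h2, h3⟩, -⟩ := tab_facts (D := D)
  lift i to Fin D.rank using hi
  refine ⟨i, fun e => h2 ?_, fun e => h3 (congrArg Fin.val e), fun t => by
    rw [← chi_simple, chi_coroot, rs_pair, show D.pairing (θ D) ((rs D).simple i : Fin D.nroots) = 1 from h1, zpow_one]⟩
  have := ht_sref (R := rs D) i ((rs D).neg (θ D))
  rw [e] at this
  simpa [rs_pair_simple, θ] using this

theorem exists_torus_θ (p : ℕ) [Fact p.Prime] [CharP K p] (hp : (2 : K) ≠ 0) {c : K} (hc : c ≠ 0) {S : Subgroup (D.group K)}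
    [Finite S] (h1 : xG D K (θ D) 1 ∈ S) (h2 : xG D K ((rs D).neg (θ D) : Fin D.nroots) c ∈ S) :
    ∃ (a : K) (t : Kˣ), t ≠ 1 ∧ xG D K (θ D) a * hG D (fun i => t ^ (rs D).cc (θ D) i) ∈ S := by
  have T := top_θ D
  obtain ⟨i, -, -, h5⟩ := exists_node (D := D) (K := K)
  obtain ⟨-, ⟨j, hj, h4⟩, -⟩ := tab_facts (D := D)
  lift j to Fin D.rank using hj
  have h6 : lch D (Pi.mulSingle j (-1 : Kˣ)) (θ D) = -1 := by
    rw [lch, Finset.prod_eq_single j (fun k _ h => by simp [h]) (by simp), Pi.mulSingle_eq_same,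
      Odd.neg_one_zpow (n := Chev.rc D (θ D) j) (Int.odd_iff.mpr h4)]
  have h7 := (r7_xG D K).n_conj_self (θ D) one_ne_zero
  refine (rankOne K (θ D)).exists_torus (B := (PG D K).B) (xG_mem_B T.pos)
    (fun t => (PG D K).H_le_B (hG_mem_H _)) (fun h => xG_ne_one _ (by simp) ((nondeg D K).eq_one_of_mem_V_B
      (xG_mem_V (not_isPos_neg_iff.mpr T.pos) _) (h7 1 ▸ mul_mem (mul_mem h (xG_mem_B T.pos 1)) (inv_mem h)))) p hp
    (ι := (dgAut D (Pi.mulSingle j (-1 : Kˣ))).toMonoidHom) (fun b hb => ?_)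
    (fun a => (dgAut_xG _ (θ D).2 a).trans (by simp [h6, rankOne])) ?_ (fun h => hp ?_) (neg_ne_zero.mpr hc) h1
    (by simpa [rankOne, h7] using h2)
  · obtain ⟨u, hu, k, hk, rfl⟩ := (PG D K).mem_B_iff.1 hb
    obtain ⟨a, rfl⟩ := mem_H_iff.1 hk
    rw [map_mul]
    refine mul_mem ((PG D K).U_le_B (dfAut_one (D := D) (K := K) _ ▸ (dfAut_mem_US _ 1).mpr hu))
      ((PG D K).H_le_B (mem_H_of_eq_dg (c := cm D a) ?_))
    simp [dgAut_coe, hG_coe, ← map_mul, ← map_inv, mul_comm]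
  · show dgAut D _ (nElt D _ _ _) = (nElt D _ _ _)⁻¹
    rw [← (stRel_xG D K).n_neg, nElt_eq, nElt_eq, map_mul, map_mul, dgAut_xG _ (θ D).2, dgAut_xG _ (Fin.is_lt _),
      rs_neg_val, lch_neg _ (θ D).2, h6]
    simp
  · have := (h5 (-1)).symm.trans (congrFun (hG_eq_one_iff.mp h) i)
    have h8 : (-1 : K) = 1 := congrArg Units.val this
    linear_combination -h8

variable {H : Subgroup (D.group K)} (hx : ∀ r : Fin D.nroots, xG D K r 1 ∈ H)
include hx

theorem n_mem (r : Fin D.nroots) : nElt D (xG D K) r 1 ∈ H := by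
  rw [nElt_eq, inv_one, ← xG_inv]
  exact mul_mem (mul_mem (hx r) (inv_mem (hx _))) (hx r)

theorem nW_mem (w : Equiv.Perm (Fin D.nroots)) : (PG D K).nW w ∈ H := nw_mem_of fun j _ => n_mem hx ((rs D).simple j)

variable {ψ : K →+* K}

theorem subH (h1 : ∀ u ∈ H, u ∈ (PG D K).U → ∀ i, ψ (sc i u) = sc i u)
    (h2 : ∀ (r : Fin D.nroots) t, ψ t = t → xG D K r t ∈ H) : (fmFold D (RingHom.id K)).SubH (fmFold D ψ) H :=
  have hn : ∀ i, ∃ n ∈ H, fm D ψ n = n ∧ (PG D K).Over n ((fmFold D (RingHom.id K)).s i) := fun i =>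
    ⟨_, n_mem hx ((rs D).simple i), fm_n ψ i, fmFold_s (RingHom.id K) i ▸ over_n i⟩
  { nd := nondeg D K
    full := mem_full
    ρ1 := rfl
    rc _ _ := rfl
    fix h _ := fm_id h
    U_iff u hu := ⟨fun h => ⟨fm_id u, (Fold.mem_of_U (M := H ⊓ (fm D ψ).eqLocus (MonoidHom.id _)) (nondeg D K)
      (fun i => let ⟨n, a, b, c⟩ := hn i; ⟨n, ⟨a, b⟩, c⟩) inf_le_left (fun i u hu hu' => by
        rw [fmFold_orb]
        exact ⟨_, ⟨h2 _ _ (h1 u hu hu' i), (fm_xG ψ _ _).trans (congrArg _ (h1 u hu hu' i))⟩,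
          xG_mem_US (S := {r | (rs D).IsPos r ∧ (rs D).InSub {i} r}) ⟨(rs D).isPos_simple i, inSub_simple.mpr rfl⟩ _,
          sc_spec hu'⟩) h hu).2⟩, fun h => mem_of_fm_eq ψ halfSpace_pos closed_pos hu h.2 fun r _ => h2 r⟩
    n := hn
    cent J hJ hJ' z hz := mem_UJ_of_commute' hJ (Fold.exists_over_mem (fun i => let ⟨n, a, _, c⟩ := hn i; ⟨n, a, c⟩)
      hJ'.w0J_mem) (fun r hr => ⟨_, hx r, xG_mem_US hr 1, by simp⟩) hz
    rk i e := by
      obtain ⟨-, -, j, hj, k, hk, h, -⟩ := tab_facts (D := D)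
      rw [fmFold_orb] at e
      exact h (congrArg Fin.val ((e.symm.le (Set.mem_univ ⟨j, hj⟩)).trans (e.symm.le (Set.mem_univ ⟨k, hk⟩)).symm))
    ne := let ⟨⟨i, hi, _⟩, _⟩ := tab_facts (D := D); ⟨⟨i, hi⟩⟩ }

variable (S : (fmFold D (RingHom.id K)).SubH (fmFold D ψ) H) [Finite H] (p : ℕ) [Fact p.Prime] [CharP K p]
include S p

theorem fix_odd (hp : (2 : K) ≠ 0) {g : D.group K} (hg : g ∈ H) : fm D ψ g = g := by
  have T := top_θ D
  have hP := nondeg D K
  obtain ⟨i, h2, h3, h5⟩ := exists_node (D := D) (K := K)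
  refine S.fix_of_opp T (xG_mem_X _ 1) (hx _) (xG_ne_one _ one_ne_zero) (fun u hu _ y hy h hh e => ?_) hg
  obtain ⟨c, rfl⟩ := mem_X_iff.mp hy
  have h7 := e ▸ mul_mem (mul_mem hh (hx _)) (inv_mem hh)
  have : Finite (H.comap (MulAut.conj u).toMonoidHom) := Finite.of_injective
    (fun g => (⟨_, g.2⟩ : H)) fun a b h => Subtype.ext ((MulAut.conj u).injective (congrArg Subtype.val h))
  obtain ⟨a, t, h8, h9⟩ := exists_torus_θ p hp (c := c)
    (by rintro rfl; exact xG_ne_one (θ D) one_ne_zero (by simpa [xG_zero] using e))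
    (S := H.comap (MulAut.conj u).toMonoidHom) (by simpa [(T.commute (xG_mem_X _ 1) hu).eq] using hx (θ D)) h7
  set k := hG D fun i => t ^ (rs D).cc (θ D) i with hk
  have b0 := B_conj_U ((PG D K).H_le_B (hG_mem_H fun i => t ^ (rs D).cc (θ D) i)) (inv_mem hu)
  have b1 := mul_mem (mul_mem hu (xG_mem_U T.pos a)) b0
  have b2 := S.fix_B (b := u * xG D K (θ D) a * (k * u⁻¹ * k⁻¹) * k) (by simpa [mul_assoc] using h9)
    (mul_mem ((PG D K).U_le_B b1) ((PG D K).H_le_B (hG_mem_H _)))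
  obtain ⟨b3, b4⟩ := hP.UH_unique (fm_mem_US ψ b1) b1 (fm_mem_H ψ (hG_mem_H _)) (hG_mem_H _)
    ((map_mul (fm D ψ) _ _).symm.trans b2)
  have b5 : ψ t = t := by
    have := congrArg (fm D ψ) (hG_conj_xG (fun i => t ^ (rs D).cc (θ D) i) ((rs D).simple i) 1)
    rw [map_mul, map_mul, map_inv, b4, fm_xG, map_one, hG_conj_xG, fm_xG, chi_simple, h5] at this
    simpa using (xG_injective (Fin.is_lt _) this).symm
  have b6 := sc_fm (i := i) ψ b1
  rw [b3, sc_mul (mul_mem hu (xG_mem_U T.pos a)) b0, sc_mul hu (xG_mem_U T.pos a), sc_xG_ne T.pos h3,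
    sc_conj _ (inv_mem hu), h5, sc_inv hu] at b6
  have b7 : ψ (sc i u) = sc i u := mul_left_cancel₀ (sub_ne_zero.mpr fun e : (t : K) = 1 => h8 (Units.ext e)) (by
    simp only [map_add, map_mul, map_neg, map_zero, b5] at b6
    linear_combination b6)
  have b8 := xG_mem_U ((rs D).isPos_simple i) (sc i u)
  have b9 := S.fix_opp T (xG_mem_X _ 1) (hx _) (xG_ne_one _ one_ne_zero) (i := i) (by rwa [fmFold_s])
    ((S.U_iff _ b8).mpr ⟨fm_id _, (fm_xG ψ _ _).trans (congrArg _ b7)⟩) b8 (by rw [fmFold_orb]; exact sc_spec hu) hy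
  rw [mul_inv_cancel_left] at b9
  exact b9 h7

omit S in
theorem exists_conj_U {z : D.group K} (hz : z ∈ H) {e : ℕ} (h : z ^ p ^ e = 1) : ∃ g, g⁻¹ * z * g ∈ (PG D K).U := by
  obtain ⟨g, hg⟩ := exists_conj_mem_of_normalizer p (S := (PG D K).U.subgroupOf H) (fun u => by
      obtain ⟨M, hM⟩ := Finite.exists_le fun r : Fin D.nroots => 2 * (rs D).ht r
      exact ⟨M.toNat, Subtype.ext (Subtype.ext (pow_eq_one_of_mem_U p (fun r => (hM r).trans_lt
        ((Int.self_le_toNat M).trans_lt (by exact_mod_cast Nat.lt_pow_self (Fact.out : p.Prime).one_lt))) u.2))⟩)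
    (fun g hg ⟨e, he⟩ => mem_U_of_pow p ((nondeg D K).mem_B_of_conj_X (mem_full _) fun i =>
      ⟨_, xG_mem_X _ 1, xG_ne_one _ one_ne_zero, (PG D K).U_le_B ((Subgroup.mem_normalizer_iff.mp hg ⟨_, hx _⟩).mp
        (xG_mem_U ((rs D).isPos_simple i) 1))⟩) (congrArg Subtype.val he)) (z := ⟨z, hz⟩) (Subtype.ext h)
  exact ⟨g, hg⟩

omit S p [Finite H] in
theorem exists_invol [CharP K 2] : ∃ j ∈ H, j ∈ (PG D K).U ∧ j * j = 1 ∧
    ∀ r, (rs D).len r = (rs D).len (θ D) → ∃ i, (rs D).simple i ≠ r ∧ sc i j ≠ 0 := by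
  have h0 : ∀ r t, xG D K r t * xG D K r t = 1 := fun r t => by rw [xG_add, CharTwo.add_self_eq_zero, xG_zero]
  obtain ⟨-, -, i, hi, k, hk, h1, h2⟩ := tab_facts (D := D)
  lift i to Fin D.rank using hi
  lift k to Fin D.rank using hk
  have h3 := fun i => xG_mem_U (F := K) ((rs D).isPos_simple i) 1
  have h4 : (rs D).simple i ≠ (rs D).simple k := fun e => h1 (congrArg Fin.val ((rs D).simple_inj e))
  rcases h2 with h2 | h2
  · exact ⟨_, hx _, h3 i, h0 _ _, fun r hr => ⟨i, by rintro rfl; exact h2 hr, by rw [sc_xG_self]; exact one_ne_zero⟩⟩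
  · have := (stRel_xG D K).comm' h4.symm (fun e => not_isPos_neg_simple i (e ▸ (rs D).isPos_simple k)) 1 1
    rw [ChevalleyDatum.commWord, show D.commTerms ((rs D).simple i : Fin D.nroots) ((rs D).simple k : Fin D.nroots) = []
      from h2, inv_eq_of_mul_eq_one_right (h0 _ _), inv_eq_of_mul_eq_one_right (h0 _ _), mul_assoc] at this
    refine ⟨_, mul_mem (hx _) (hx _), mul_mem (h3 k) (h3 i), this, fun r _ => ?_⟩
    by_cases h : (rs D).simple i = r
    · exact ⟨k, h ▸ h4.symm, by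
        rw [sc_mul (h3 k) (h3 i), sc_xG_self, sc_xG_ne ((rs D).isPos_simple i) h4.symm]; simp⟩
    · exact ⟨i, h, by rw [sc_mul (h3 k) (h3 i), sc_xG_self, sc_xG_ne ((rs D).isPos_simple k) h4]; simp⟩

omit hx S p [Finite H] in
theorem not_isConj {j : D.group K} (h2 : j ∈ (PG D K).U)
    (h4 : ∀ r, (rs D).len r = (rs D).len (θ D) → ∃ i, (rs D).simple i ≠ r ∧ sc i j ≠ 0) :
    j ≠ 1 ∧ ¬ IsConj (xG D K (θ D) 1) j := by
  have h5 : j ≠ 1 := by rintro rfl; simpa [sc_one] using h4 _ rfl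
  refine ⟨h5, fun h => ?_⟩
  obtain ⟨c, hc⟩ := isConj_iff.mp h
  obtain ⟨w, m, hm, u, hu, v, hv, rfl⟩ := exists_bruhat_over (mem_full c)
  obtain ⟨t, ht⟩ := mem_X_iff.mp (hm.conj_X (xG_mem_X (θ D) 1))
  have b1 : u⁻¹ * j * u = xG D K (w (θ D) : Fin D.nroots) t := by
    rw [← hc, ← ht, mul_assoc _ v, ((top_θ D).commute (xG_mem_X _ 1) ((PG D K).Uw_le_U w hv)).eq]; group
  have b2 := mul_mem (mul_mem (inv_mem hu) h2) hu
  obtain ⟨i, b3, b4⟩ := h4 (w (θ D)) (Aut.len_apply ((rs D).W_le_Aut hm.1) _)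
  have b5 := sc_xG_ne (K := K) (by_contra fun h => h5 (by
    have := (nondeg D K).eq_one_of_mem_V_B (by rw [b1]; exact xG_mem_V h t) ((PG D K).U_le_B b2)
    simpa [mul_assoc, inv_mul_eq_iff_eq_mul] using this)) b3 t
  rw [← b1, sc_mul (mul_mem (inv_mem hu) h2) hu, sc_mul (inv_mem hu) h2, sc_inv hu] at b5
  exact b4 (by linear_combination b5)

omit p in
theorem fix_even [CharP K 2] {g : D.group K} (hg : g ∈ H) : fm D ψ g = g := by
  obtain ⟨j, h1, h2, h3, h4⟩ := exists_invol hx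
  obtain ⟨h5, h0⟩ := not_isConj h2 h4
  refine S.fix_of_opp (top_θ D) (xG_mem_X _ 1) (hx _) (xG_ne_one _ one_ne_zero) (fun u _ _ y _ h hh e => ?_) hg
  rw [← e]
  have h6 := mul_mem (mul_mem hh (hx (θ D))) (inv_mem hh)
  have h7 : IsConj (xG D K (θ D) 1) (h * xG D K (θ D) 1 * h⁻¹) := isConj_iff.mpr ⟨h, rfl⟩
  have h8 : h * xG D K (θ D) 1 * h⁻¹ * (h * xG D K (θ D) 1 * h⁻¹) = 1 := by
    rw [conj_mul, xG_add, CharTwo.add_self_eq_zero, xG_zero, mul_one, mul_inv_cancel]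
  generalize h * xG D K (θ D) 1 * h⁻¹ = b at h6 h7 h8
  have h9 := H.subtype.isOfFinOrder (isOfFinOrder_of_finite (⟨j * b, mul_mem h1 h6⟩ : H))
  rw [Subgroup.subtype_apply] at h9
  obtain h9 | ⟨k, h7, h8, h9, h10⟩ := isConj_or_exists h3 h8 h9
  · exact absurd (h7.trans h9.symm) h0
  · have b1 := pow_mem (mul_mem h1 h6) k
    generalize (j * b) ^ k = z at b1 h7 h8 h9 h10
    obtain ⟨g, b2⟩ := exists_conj_U hx 2 b1 (e := 1) (by rw [pow_one, sq, h8])
    have b3 := S.fix_of_conj (g0 := 1) h1 (S.fix_U h1 h2) h5 (by rwa [inv_one, one_mul, mul_one]) b1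
      (by rw [h9.eq, mul_inv_cancel_right, S.fix_U h1 h2])
    exact S.fix_of_conj b1 b3 h7 b2 h6 (by rw [← h10.eq, mul_inv_cancel_right, b3])

theorem fix_sub {g : D.group K} (hg : g ∈ H) : fm D ψ g = g := by
  by_cases hp : (2 : K) = 0
  · have : CharP K 2 := CharTwo.of_one_ne_zero_of_two_eq_zero one_ne_zero hp
    exact fix_even hx S hg
  · exact fix_odd hx S p hp hg

end Cfsg.Agent.ChevM
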