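import Cfsg.Agent.Lib.Tw.MaxE
import Cfsg.Agent.Lib.Chev.LenConj
import Mathlib.RingTheory.RootsOfUnity.AlgebraicallyClosed

/-! The field of definition of a finite subgroup containing the root elements over the prime field. -/

set_option autoImplicit false
set_option linter.unusedSectionVars false
set_option synthInstance.maxSize 2048

namespace Cfsg.Agent.ChevM
open Cfsg.Lie Chev RSys PreRGD

theorem exists_eq_of_inj {α : Type*} {P : Set α} (hP : P.Finite) {f : α → α} (h1 : ∀ a ∈ P, f a ∈ P)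
    (h2 : Function.Injective f) {a : α} (ha : a ∈ P) : ∃ b ∈ P, f b = a :=
  ((hP.injOn_iff_bijOn_of_mapsTo h1).mp h2.injOn).surjOn ha

theorem exists_pow_iff {K : Type*} [Field K] (p : ℕ) [Fact p.Prime] [CharP K p] {A : AddSubgroup K} (h0 : (A : Set K).Finite)
    (h1 : 1 ∈ A) (h2 : ∀ a ∈ A, ∀ b ∈ A, a * b ∈ A) : ∃ m, 0 < m ∧ ∀ t, t ∈ A ↔ t ^ p ^ m = t := by
  classical
  let F : Subfield K := { A with
    mul_mem' := fun ha hb => h2 _ ha _ hb
    one_mem' := h1
    inv_mem' a ha := by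
      by_cases h : a = 0
      · simp [h]
      · obtain ⟨b, hb, e⟩ := exists_eq_of_inj h0 (h2 a ha) (mul_right_injective₀ h) h1
        exact eq_inv_of_mul_eq_one_right e ▸ hb }
  have : Fintype F := h0.fintype
  obtain ⟨m, hp, hm⟩ := FiniteField.card F p
  have h3 : ∀ t ∈ A, t ^ p ^ (m : ℕ) = t := fun t ht => congrArg Subtype.val (hm ▸ FiniteField.pow_card (⟨t, ht⟩ : F))
  have h4 := FiniteField.X_pow_card_pow_sub_X_ne_zero K m.ne_zero hp.one_lt
  have h5 : h0.toFinset = (Polynomial.X ^ p ^ (m : ℕ) - Polynomial.X : Polynomial K).roots.toFinset :=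
    Finset.eq_of_subset_of_card_le (fun t ht => by simpa [h4, sub_eq_zero] using h3 t (by simpa using ht)) (by
      refine ((Multiset.toFinset_card_le _).trans (Polynomial.card_roots' _)).trans_eq ?_
      rw [FiniteField.X_pow_card_pow_sub_X_natDegree_eq K m.ne_zero hp.one_lt, ← hm, h0.card_toFinset]
      exact Fintype.card_congr (Equiv.refl _))
  exact ⟨m, m.2, fun t => ⟨h3 t, fun h => by simpa using h5.ge (by simpa [h4, sub_eq_zero] using h)⟩⟩

variable {K : Type*} [Field K]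

section
variable {D : ChevalleyDatum} [hT : Tab D]

/-- The parameters of the root elements in a subgroup. -/
def As (H : Subgroup (D.group K)) (r : Fin D.nroots) : AddSubgroup K where
  carrier := {t | xG D K r t ∈ H}
  zero_mem' := by simp [xG_zero]
  add_mem' ha hb := by simpa [xG_add] using H.mul_mem ha hb
  neg_mem' ha := by simpa [xG_inv] using H.inv_mem ha

/-- A subgroup contains an element with a given leading part. -/
def St (H : Subgroup (D.group K)) (κ : Fin D.nroots) (x : D.group K) : Prop :=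
  ∃ g ∈ H, x⁻¹ * g ∈ (PG D K).US ((rs D).NS ((rs D).rc κ))

variable {H : Subgroup (D.group K)}

theorem finite_As [Finite H] (r : Fin D.nroots) : (As H r : Set K).Finite :=
  Set.Finite.preimage (f := xG D K r) (xG_injective r.2).injOn (Set.toFinite (H : Set (D.group K)))

theorem mem_As {r : Fin D.nroots} {t : K} : t ∈ As H r ↔ xG D K r t ∈ H := Iff.rfl

theorem St.start {u : D.group K} (hu : u ∈ H) (hu' : u ∈ (PG D K).U) (i : Fin D.rank) :
    St H ((rs D).simple i) (xG D K ((rs D).simple i : Fin D.nroots) (sc i u)) :=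
  ⟨u, hu, USub_mono (fun s hs => by
    exact ⟨hs.1, fun h => hs.2 fun j hj => le_antisymm (by simpa [rc_simple, Ne.symm hj] using h j) (hs.1 j)⟩) (sc_spec hu')⟩

theorem St.mem {x : D.group K} (h : St H (θ D) x) : x ∈ H := by
  obtain ⟨g, hg, h⟩ := h
  rw [(top_θ D).NS_eq, US, USub_empty, Subgroup.mem_bot, inv_mul_eq_one] at h
  rwa [h]

theorem St.step {C : Coll} (hC : CollFor D C) (hK : C.p = 0) {v : ℕ → K} {κ κ' δ : Fin D.nroots}
    {X W W' : List (ℕ × Pol)} (h : St H κ (evS (xG D K) v X)) (hδ : xG D K δ 1 ∈ H)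
    (hc : C.check (commW [(δ, [(1, [])])] X) (W ++ W') = true)
    (h1 : D.nroots ≤ 2 * δ ∧ (∀ s < D.nroots, D.nroots ≤ 2 * s → (∀ i < D.rank, rcN D δ i + rcN D s i ≤ rcN D κ' i) →
      ∀ i < D.rank, rcN D s i ≤ rcN D κ i) ∧ (∀ a ∈ X, a.1 < D.nroots ∧ D.nroots ≤ 2 * a.1) ∧
      ∀ a ∈ W', a.1 < D.nroots ∧ D.nroots ≤ 2 * a.1 ∧ ¬ ∀ i < D.rank, rcN D a.1 i ≤ rcN D κ' i) :
    St H κ' (evS (xG D K) v W) := by
  obtain ⟨g, hg, h⟩ := h
  have h2 := comm_step (P := PG D K) (v := (rs D).rc κ') (A := {δ}) (S := (rs D).NS ((rs D).rc κ))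
    (by rintro _ rfl; exact (rs_isPos_iff_le _).mpr h1.1) (fun _ h => h.1) (by
      rintro _ rfl s hs h
      exact hs.2 fun i => h1.2.1 s s.2 ((rs_isPos_iff_le s).mp hs.1) (fun i hi => h ⟨i, hi⟩) i i.2)
    (xG_mem_US (S := {δ}) rfl 1) (evS_mem_USub (x := xG D K) (S := {s | (rs D).IsPos s}) v fun a ha =>
      ⟨(h1.2.2.1 a ha).1, (rs_isPos_iff_le _).mpr (h1.2.2.1 a ha).2⟩) h
  have h3 := (stRel_xG D K).comm_of_check hC (Or.inl hK) v hc
  simp only [evS_cons, evS_nil, evP_cons, evP_nil, Int.cast_one, List.map_nil, List.prod_nil, mul_one, add_zero] at h3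
  rw [h3, evS_append] at h2
  have h4 : evS (xG D K) v W' ∈ (PG D K).US ((rs D).NS ((rs D).rc κ')) := evS_mem_USub v fun a ha =>
    ⟨(h1.2.2.2 a ha).1, (rs_isPos_iff_le _).mpr (h1.2.2.2 a ha).2.1, fun h => (h1.2.2.2 a ha).2.2 fun i hi => h ⟨i, hi⟩⟩
  exact ⟨_, mul_mem (mul_mem (mul_mem (inv_mem hδ) (inv_mem hg)) hδ) hg, by simpa [mul_assoc] using mul_mem h4 h2⟩

variable (hx : ∀ r : Fin D.nroots, xG D K r 1 ∈ H)
include hx

theorem As_W {r s : Fin D.nroots} (h : (rs D).len r = (rs D).len s) {t : K} (ht : t ∈ As H r) : t ∈ As H s := by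
  obtain ⟨w, hw, rfl⟩ := exists_W_of_len_eq h
  obtain ⟨c, hc, h1, -⟩ := nW_conj_xG (F := K) hw r
  have : c * t ∈ As H (w r) := show xG D K _ _ ∈ H from
    h1 t ▸ mul_mem (mul_mem (nW_mem hx w) ht) (inv_mem (nW_mem hx w))
  rcases hc with rfl | rfl <;> simpa using this

theorem mul_mem_As {r s : Fin D.nroots} (h1 : (rs D).len r = (rs D).len (θ D)) (h2 : (rs D).len s = (rs D).len (θ D))
    (h3 : s ≠ r) (h4 : s ≠ (rs D).neg r) {c : ℤ} (hc : c = 1 ∨ c = -1) (h : D.commTerms r s = [((θ D : ℕ), c, 1, 1)])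
    (a : K) (ha : a ∈ As H (θ D)) (b : K) (hb : b ∈ As H (θ D)) : a * b ∈ As H (θ D) := by
  have h5 := mem_As.mp (As_W hx h1.symm ha)
  have h6 := mem_As.mp (As_W hx h2.symm hb)
  have h7 : (c : K) * (-a) ^ 1 * b ^ 1 ∈ As H (θ D) := by
    have := mul_mem (mul_mem (mul_mem (inv_mem h6) (inv_mem h5)) h6) h5
    rw [(stRel_xG D K).comm' h3 h4, ChevalleyDatum.commWord, h] at this
    simpa only [mem_As, List.map_cons, List.map_nil, wordVal_cons, wordVal_nil, mul_one] using this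
  rcases hc with rfl | rfl <;> simpa using h7

theorem sc_mem_As [SLaced D] {u : D.group K} (hu : u ∈ H) (hu' : u ∈ (PG D K).U) (i : Fin D.rank) :
    sc i u ∈ As H (θ D) := by
  have key : ∀ r < D.nroots, D.nroots ≤ 2 * r → len D r = len D (D.nroots - 1) →
      r = D.nroots - 1 ∨ ∃ i < D.rank, D.cartan i r < 0 := by
    rcases hT.isTab.cases with rfl | rfl | rfl | rfl | rfl | rfl | rfl <;> decide +kernel
  have : ∀ n : ℕ, ∀ r, (rs D).IsPos r → (rs D).ht (θ D) ≤ (rs D).ht r + n → ∀ c, St H r (xG D K r c) → c ∈ As H (θ D) := by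
    intro n
    induction n using Nat.strong_induction_on with | _ n ih => ?_
    intro r hr hn c hc
    obtain e | ⟨j, hj, e⟩ := key r r.2 ((rs_isPos_iff_le r).mp hr) (by simp only [SLaced.len_eq])
    · obtain rfl : r = θ D := Fin.ext e
      exact hc.mem
    lift j to Fin D.rank using hj
    rw [← rs_pair_simple] at e
    have h1 : r ≠ (rs D).simple j := by rintro rfl; simp at e
    have h2 : r ≠ (rs D).neg ((rs D).simple j) := by rintro rfl; exact not_isPos_neg_simple j hr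
    obtain ⟨k, hk⟩ := SLaced.exists_add (r := (rs D).simple j) (s := r) (by have := SLaced.pair_cases h1 h2; omega)
    obtain ⟨c', hc', h3⟩ := SLaced.commTerms_eq (hk.trans (add_comm _ _))
    have h4 := ht_comb (a := 1) (b := 1) (k := k) (r := (rs D).simple j) (s := r) (by simpa using hk)
    rw [ht_simple] at h4
    have h5 := (top_θ D).ht_le k
    obtain ⟨g, hg, h6⟩ := hc
    have h7 := comm_step (P := PG D K) (v := (rs D).rc k) (A := {(rs D).simple j}) (S := (rs D).NS ((rs D).rc r))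
      (by rintro _ rfl; exact (rs D).isPos_simple j) (fun _ h => h.1)
      (by rintro _ rfl s hs h; exact hs.2 (by simpa [hk] using h)) (xG_mem_US (S := {(rs D).simple j}) rfl 1)
      (xG_mem_U hr c) h6
    rw [(stRel_xG D K).comm' h1.symm (fun e => h2 ((rs D).eq_neg_comm.mp e)), ChevalleyDatum.commWord, h3, List.map_cons,
      List.map_nil, wordVal_cons, wordVal_nil, mul_one] at h7
    have := ih (n - 1) (by omega) k (isPos_iff_ht.mpr (by have := hr.ht_pos; omega)) (by omega) _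
      ⟨_, mul_mem (mul_mem (mul_mem (inv_mem (hx _)) (inv_mem hg)) (hx _)) hg, h7⟩
    rcases hc' with rfl | rfl <;> simpa using this
  exact this _ _ ((rs D).isPos_simple i) (by
    rw [Int.toNat_of_nonneg (top_θ D).pos.ht_pos.le]; have := ((rs D).isPos_simple i).ht_pos; omega) _ (St.start hu hu' i)

omit hx in
theorem fix_of_sq {ψ : K →+* K} {t : K} (h1 : ψ (t * t) = t * t) (h2 : ψ ((t + 1) * (t + 1)) = (t + 1) * (t + 1)) :
    ψ t = t := by
  simp only [map_mul, map_add, map_one] at h1 h2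
  exact sub_eq_zero.mp (pow_eq_zero_iff two_ne_zero |>.mp (by linear_combination (1 + t) * h1 - t * h2))

/-- The facts to be established for each type. -/
def Par (H : Subgroup (D.group K)) : Prop := (∀ a ∈ As H (θ D), ∀ b ∈ As H (θ D), a * b ∈ As H (θ D)) ∧
  ∀ ψ : K →+* K, (∀ t ∈ As H (θ D), ψ t = t) → ∀ u ∈ H, u ∈ (PG D K).U → ∀ i, ψ (sc i u) = sc i u

theorem par_sl [SLaced D] : Par H := by
  obtain ⟨r, s, e⟩ := SLaced.exists_decomp (θ D)
  obtain ⟨c, hc, h⟩ := SLaced.commTerms_eq e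
  have h1 := SLaced.pair_of_add e
  exact ⟨mul_mem_As hx (SLaced.len_eq _ |>.trans (SLaced.len_eq _).symm) (SLaced.len_eq _ |>.trans (SLaced.len_eq _).symm)
    (by rintro rfl; simp at h1) (SLaced.ne_neg_of_pair h1.ge) hc h, fun ψ h u hu hu' i => h _ (sc_mem_As hx hu hu' i)⟩

omit hx

theorem St.start' {u : D.group K} (hu : u ∈ H) (hu' : u ∈ (PG D K).U) (i : Fin D.rank) :
    St H ((rs D).simple i) (evS (xG D K) (fun _ => sc i u) [(D.simple i, [(1, [0])])]) := by
  simpa using St.start hu hu' i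

theorem St.mem' {v : ℕ → K} {f : Pol} (h : St H (θ D) (evS (xG D K) v [(D.nroots - 1, f)])) :
    evP v f ∈ As H (θ D) := by
  simpa [mem_As, θ] using h.mem

end

theorem par_G2 {H : Subgroup (chevG2.group K)} (hx : ∀ r : Fin chevG2.nroots, xG chevG2 K r 1 ∈ H) : Par H := by
  refine ⟨mul_mem_As hx (r := ⟨6, by decide⟩) (s := ⟨10, by decide⟩) (by decide +kernel) (by decide +kernel) (by decide)
    (by decide +kernel) (Or.inl rfl) (by decide +kernel), fun ψ h u hu hu' i => ?_⟩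
  have C := collFor_G2 0 id
  have S := St.start' hu hu' i
  fin_cases i
  · have h1 := h _ ((S.step C rfl (hx ⟨9, by decide⟩) (κ' := ⟨10, by decide⟩) (W := [(10, [(-3, [0])])]) (W' := [])
      (by decide +kernel) (by decide +kernel)).step C rfl (hx ⟨6, by decide⟩) (W := [(11, [(-3, [0])])]) (W' := [])
      (by decide +kernel) (by decide +kernel)).mem'
    have h2 := h _ ((S.step C rfl (hx ⟨6, by decide⟩) (κ' := ⟨10, by decide⟩)
      (W := [(8, [(1, [0])]), (9, [(1, [0, 0])]), (10, [(-1, [0, 0, 0])])]) (W' := [(11, [(-1, [0, 0, 0])])])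
      (by decide +kernel) (by decide +kernel)).step C rfl (hx ⟨6, by decide⟩) (W := [(11, [(-1, [0, 0, 0])])]) (W' := [])
      (by decide +kernel) (by decide +kernel)).mem'
    simp only [evP_cons, evP_nil, List.map, List.prod_cons, List.prod_nil, map_add, map_mul, map_intCast, map_one,
      map_zero] at h1 h2
    push_cast at h1 h2
    exact sub_eq_zero.mp (pow_eq_zero_iff three_ne_zero |>.mp (by linear_combination (ψ (sc _ u) * sc _ u) * h1 - h2))
  · simpa using h _ (S.step C rfl (hx ⟨10, by decide⟩) (W := [(11, [(-1, [0])])]) (W' := [])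
      (by decide +kernel) (by decide +kernel)).mem'

theorem par_F4 {H : Subgroup (chevF4.group K)} (hx : ∀ r : Fin chevF4.nroots, xG chevF4 K r 1 ∈ H) : Par H := by
  refine ⟨mul_mem_As hx (r := ⟨24, by decide⟩) (s := ⟨46, by decide⟩) (by decide +kernel) (by decide +kernel) (by decide)
    (by decide +kernel) (Or.inl rfl) (by decide +kernel), fun ψ h u hu hu' i => ?_⟩
  have C := collFor_F4 0 id
  have key : (∀ u ∈ H, u ∈ (PG chevF4 K).U → ψ (sc i u * sc i u) = sc i u * sc i u) → ψ (sc i u) = sc i u := fun h => by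
    have h1 := xG_mem_U (F := K) ((rs chevF4).isPos_simple i) 1
    have := h _ (mul_mem hu (hx _)) (mul_mem hu' h1)
    rw [sc_mul hu' h1, sc_xG_self] at this
    exact fix_of_sq (h u hu hu') this
  fin_cases i
  · exact key fun u hu hu' => by
      simpa using h _ (((St.start' hu hu' _).step C rfl (hx ⟨31, by decide⟩) (κ' := ⟨42, by decide⟩)
        (W := [(38, [(1, [0])]), (42, [(-1, [0, 0])])]) (W' := []) (by decide +kernel) (by decide +kernel)).step C rfl
        (hx ⟨32, by decide⟩) (W := [(47, [(-1, [0, 0])])]) (W' := []) (by decide +kernel) (by decide +kernel)).mem'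
  · exact key fun u hu hu' => by
      simpa using h _ (((St.start' hu hu' _).step C rfl (hx ⟨26, by decide⟩) (κ' := ⟨31, by decide⟩)
        (W := [(29, [(1, [0])]), (31, [(-1, [0, 0])])]) (W' := []) (by decide +kernel) (by decide +kernel)).step C rfl
        (hx ⟨43, by decide⟩) (W := [(47, [(-1, [0, 0])])]) (W' := []) (by decide +kernel) (by decide +kernel)).mem'
  · simpa using h _ (((St.start' hu hu' _).step C rfl (hx ⟨24, by decide⟩) (κ' := ⟨26, by decide⟩)
      (W := [(26, [(1, [0])])]) (W' := []) (by decide +kernel) (by decide +kernel)).step C rfl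
      (hx ⟨45, by decide⟩) (W := [(47, [(-1, [0])])]) (W' := []) (by decide +kernel) (by decide +kernel)).mem'
  · simpa using h _ ((St.start' hu hu' _).step C rfl (hx ⟨46, by decide⟩) (W := [(47, [(-1, [0])])]) (W' := [])
      (by decide +kernel) (by decide +kernel)).mem'

theorem par_B2_odd {H : Subgroup (chevB2.group K)} [Finite H] (hx : ∀ r : Fin chevB2.nroots, xG chevB2 K r 1 ∈ H)
    (h2 : (2 : K) ≠ 0) : Par H := by
  have C := collFor_B2 0 id
  refine ⟨fun a ha b hb => ?_, fun ψ h u hu hu' i => mul_left_cancel₀ h2 ?_⟩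
  · have h3 : ∀ a ∈ As H (θ chevB2), a ∈ As H ⟨6, by decide⟩ := fun a ha => by
      have h4 := mem_As.mp (As_W hx (s := ⟨4, by decide⟩) (by decide +kernel) ha)
      have h5 := mul_mem (mul_mem (mul_mem (inv_mem (hx ⟨5, by decide⟩)) (inv_mem h4)) (hx ⟨5, by decide⟩)) h4
      have := (stRel_xG chevB2 K).comm_of_check C (charOK_zero K) (fun _ => a) (a := [(5, [(1, [])])])
        (b := [(4, [(1, [0])])]) (w := [(6, [(-1, [0])]), (7, [(1, [0])])]) (by decide +kernel)
      simp only [evS_cons, evS_nil, evP_cons, evP_nil, Int.cast_one, Int.cast_neg, List.map, List.prod_cons,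
        List.prod_nil, mul_one, one_mul, neg_mul, add_zero] at this
      rw [this, mul_mem_cancel_right (show xG chevB2 K 7 a ∈ H from ha)] at h5
      exact neg_mem_iff.mp (mem_As.mpr h5)
    have h4 := mem_As.mp (As_W hx (s := ⟨5, by decide⟩) (by decide +kernel) (h3 a ha))
    have h5 := mul_mem (mul_mem (mul_mem (inv_mem (mem_As.mp (h3 b hb))) (inv_mem h4)) (mem_As.mp (h3 b hb))) h4
    rw [(stRel_xG chevB2 K).comm' (r := ⟨5, by decide⟩) (by decide) (by decide +kernel), ChevalleyDatum.commWord,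
      show chevB2.commTerms 5 6 = [(7, 2, 1, 1)] by decide +kernel] at h5
    obtain ⟨c, hc, e⟩ := exists_eq_of_inj (finite_As (H := H) (θ chevB2)) (f := (2 * ·))
      (fun a ha => by simpa [two_mul] using add_mem ha ha) (mul_right_injective₀ h2) (a := 2 * -(a * b))
      (show xG chevB2 K 7 _ ∈ H by simpa [mul_assoc] using h5)
    exact neg_mem_iff.mp (mul_left_cancel₀ h2 e ▸ hc)
  · have S := St.start' hu hu' i
    fin_cases i
    · simpa [map_ofNat] using h _ (S.step C rfl (hx ⟨6, by decide⟩) (W := [(7, [(-2, [0])])]) (W' := [])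
        (by decide +kernel) (by decide +kernel)).mem'
    · simpa [map_ofNat] using h _ ((S.step C rfl (hx ⟨5, by decide⟩) (κ' := ⟨6, by decide⟩) (W := [(6, [(-1, [0])])])
        (W' := [(7, [(1, [0])])]) (by decide +kernel) (by decide +kernel)).step C rfl (hx ⟨5, by decide⟩)
        (W := [(7, [(-2, [0])])]) (W' := []) (by decide +kernel) (by decide +kernel)).mem'

theorem par_B2_even {H : Subgroup (chevB2.group K)} [Finite H] (hx : ∀ r : Fin chevB2.nroots, xG chevB2 K r 1 ∈ H)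
    [CharP K 2] : Par H := by
  let Z : K → K → Prop := fun s s' => xG chevB2 K 6 s * xG chevB2 K 7 s' ∈ H
  have h0 : ∀ (i : Fin chevB2.rank) (r : Fin chevB2.nroots) t, (PG chevB2 K).nw [i] * xG chevB2 K r t * ((PG chevB2 K).nw [i])⁻¹ =
      xG chevB2 K (wordN chevB2 [i.1] r) t := fun i r t => by
    obtain ⟨c, hc, h, -⟩ := (r7_xG chevB2 K).nw_conj (stRel_xG chevB2 K) [i] r
    refine (h t).trans ?_
    rw [wordW_val]
    rcases hc with rfl | rfl <;> simp [CharTwo.neg_eq]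
  have h1 : ∀ (i : Fin chevB2.rank) {s s'}, Z s s' →
      xG chevB2 K (wordN chevB2 [i.1] 6) s * xG chevB2 K (wordN chevB2 [i.1] 7) s' ∈ H := fun i s s' h => by
      have h2 : (PG chevB2 K).nw [i] ∈ H := nw_mem_of fun j _ => n_mem hx ((rs chevB2).simple j)
      rw [← h0 i ⟨6, by decide⟩, ← h0 i ⟨7, by decide⟩, conj_mul]
      exact mul_mem (mul_mem h2 h) (inv_mem h2)
  have h2 : ∀ {s s'}, Z s s' → xG chevB2 K 5 s * xG chevB2 K 7 s' ∈ H := h1 ⟨1, by decide⟩
  have h3 : ∀ {s s' r r'}, Z s s' → Z r r' → Z (s * r') (s * s * r') := fun {s s' r r'} h h' => by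
    have h4 : xG chevB2 K 6 r * xG chevB2 K 4 r' ∈ H := h1 ⟨0, by decide⟩ h'
    have h5 := mul_mem (mul_mem (mul_mem (inv_mem (h2 h)) (inv_mem h4)) (h2 h)) h4
    have := (stRel_xG chevB2 K).comm_of_check (collFor_B2 2 id) (charOK_of K 2) ([s, s', r, r'].getD · 0)
      (a := [(5, [(1, [0])]), (7, [(1, [1])])]) (b := [(6, [(1, [2])]), (4, [(1, [3])])])
      (w := [(6, [(1, [0, 3])]), (7, [(1, [0, 0, 3])])]) (by decide +kernel)
    simp only [evS_cons, evS_nil, evP_cons, evP_nil, Int.cast_one, List.map, List.prod_cons, List.prod_nil, mul_one,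
      one_mul, add_zero, List.getD_cons_zero, List.getD_cons_succ] at this
    rwa [this, ← mul_assoc] at h5
  have h4 : Z 1 0 := by simpa [Z, xG_zero] using hx ⟨6, by decide⟩
  have h5 : Z 0 1 := by simpa [Z, xG_zero] using hx ⟨7, by decide⟩
  have h6 : ∀ {r r'}, Z r r' → Z r' r' := fun h => by simpa using h3 h4 h
  have h7 : {s | ∃ s', Z s s'}.Finite := ((Set.toFinite (H : Set (chevB2.group K))).image (sc ⟨0, by decide⟩)).subset
    fun s ⟨s', h⟩ => ⟨_, h2 h, by
      have a1 := (rs chevB2).isPos_simple ⟨0, by decide⟩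
      exact (sc_mul (xG_mem_U a1 s) (xG_mem_U (top_θ chevB2).pos s')).trans (by
        rw [sc_xG_self, sc_xG_ne (top_θ chevB2).pos (by decide +kernel), add_zero])⟩
  have h8 : ∀ {s s'}, Z s s' → Z s s := fun h => by
    obtain ⟨r, ⟨r', h'⟩, rfl⟩ := exists_eq_of_inj h7 (f := fun a => a * a) (fun a ⟨_, h⟩ => ⟨a * a, by simpa using h6 (h3 h h5)⟩)
      (fun a b e => frobenius_inj K 2 (by simpa [frobenius_def, sq] using e)) ⟨_, h⟩
    simpa using h6 (h3 h' h5)
  have h9 : ∀ {s s'}, Z s s' → s ∈ As H (θ chevB2) := fun {s s'} h => by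
    by_cases e : s = 0
    · simp [e]
    obtain ⟨r, ⟨r', h'⟩, e⟩ := exists_eq_of_inj h7 (fun a ⟨_, h'⟩ => ⟨_, h3 h (h8 h')⟩) (mul_right_injective₀ e) ⟨_, h4⟩
    have := h3 h (h8 h')
    rw [mul_assoc, show s * r = 1 from e, mul_one] at this
    exact (mul_mem_cancel_left (hx ⟨6, by decide⟩)).mp this
  have h10 : ∀ a ∈ As H (θ chevB2), Z a a := fun a ha => h6 (r := 0) (by simpa [Z, xG_zero] using show xG chevB2 K 7 a ∈ H from ha)
  refine ⟨fun a ha b hb => h9 (h3 (h10 a ha) (h10 b hb)), fun ψ h u hu hu' i => h _ ?_⟩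
  have key : ∀ t, St H ⟨6, by decide⟩ (xG chevB2 K 6 t) → t ∈ As H (θ chevB2) := fun t ⟨g, hg, h⟩ => by
    obtain ⟨s, e⟩ := mem_X_iff.mp (USub_le_iff (K := (PG chevB2 K).X (θ chevB2)).mpr (fun r hr => by
      rw [show r = θ chevB2 from by
        revert hr r
        simp only [NS, Set.mem_ofPred_eq, rs_isPos_iff_le, Pi.le_def]
        decide +kernel]) h)
    exact h9 (s' := s) (by rwa [inv_mul_eq_iff_eq_mul.mp e] at hg)
  have C := collFor_B2 0 id
  have S := St.start' hu hu' i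
  fin_cases i
  · exact key _ (by simpa using (S.step C rfl (hx ⟨4, by decide⟩) (κ' := ⟨6, by decide⟩) (W := [(6, [(1, [0])])])
      (W' := [(7, [(-1, [0, 0])])]) (by decide +kernel) (by decide +kernel)))
  · exact neg_mem_iff.mp (key _ (by simpa using (S.step C rfl (hx ⟨5, by decide⟩) (κ' := ⟨6, by decide⟩)
      (W := [(6, [(-1, [0])])]) (W' := [(7, [(1, [0])])]) (by decide +kernel) (by decide +kernel))))

section
variable {D : ChevalleyDatum} [hT : Tab D] {H : Subgroup (D.group K)} [Finite H] (hx : ∀ r : Fin D.nroots, xG D K r 1 ∈ H)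
include hx

theorem par : Par H := by
  rcases hT.isTab.cases with rfl | rfl | rfl | rfl | rfl | rfl | rfl
  · exact par_G2 hx
  · by_cases hp : (2 : K) = 0
    · have : CharP K 2 := CharTwo.of_one_ne_zero_of_two_eq_zero one_ne_zero hp
      exact par_B2_even hx
    · exact par_B2_odd hx hp
  · exact par_sl hx
  · exact par_F4 hx
  all_goals exact par_sl hx

theorem exists_exp (p : ℕ) [Fact p.Prime] [CharP K p] : ∃ m, 0 < m ∧ (∀ t, xG D K (θ D) t ∈ H → t ^ p ^ m = t) ∧
    (∀ (r : Fin D.nroots) t, t ^ p ^ m = t → xG D K r t ∈ H) ∧ ∀ g ∈ H, ∀ i j, mat g i j ^ p ^ m = mat g i j := by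
  obtain ⟨m, h0, h1⟩ := exists_pow_iff p (finite_As (θ D)) (hx _) (par hx).1
  have key : ∀ s < D.nroots, len D s = len D (D.nroots - 1) ∨
      ∃ r < D.nroots, len D r = len D (D.nroots - 1) ∧ D.pairing r s = 1 := by
    rcases hT.isTab.cases with rfl | rfl | rfl | rfl | rfl | rfl | rfl <;> decide +kernel
  have h2 : ∀ (r : Fin D.nroots) t, t ^ p ^ m = t → xG D K r t ∈ H := fun s t ht => by
    have h3 : ∀ r, (rs D).len r = (rs D).len (θ D) → ∀ t : K, t ^ p ^ m = t → xG D K r t ∈ H := fun r hr t ht =>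
      As_W hx hr.symm ((h1 t).mpr ht)
    obtain h | ⟨r, hr, h, e⟩ := key s s.2
    · exact h3 s h t ht
    lift r to Fin D.nroots using hr
    by_cases h4 : t = 0
    · simp [h4, xG_zero]
    have h5 : hElt D (xG D K) r t ∈ H := by
      rw [(stRel_xG D K).h_eq, nElt_eq r t, ← xG_inv]
      exact mul_mem (mul_mem (mul_mem (h3 r h t ht) (inv_mem (h3 _ (((rs D).len_neg r).trans h) _ (by rw [inv_pow, ht])))) (h3 r h t ht))
        (inv_mem (n_mem hx r))
    simpa [(r7_xG D K).h_conj_x (stRel_xG D K) r s h4, rs_pair, e] using mul_mem (mul_mem h5 (hx s)) (inv_mem h5)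
  refine ⟨m, h0, fun t => (h1 t).mp, h2, fun g hg i j => ?_⟩
  have := fix_sub hx (subH hx (ψ := iterateFrobenius K p m) ((par hx).2 _ fun t => (h1 t).mp) h2) p hg
  exact (congrFun₂ (mat_fm _ g) i j).symm.trans (congrFun₂ (congrArg mat this) i j)

end

theorem dvd_of_primitiveRoot {p a m : ℕ} (hp : 1 < p) {ζ : K} (h : IsPrimitiveRoot ζ (p ^ a - 1)) (ha : 1 ≤ a)
    (h1 : ζ ^ p ^ a = ζ → ζ ^ p ^ m = ζ) : a ∣ m := by
  have h0 := h.ne_zero (Nat.sub_ne_zero_of_lt (Nat.one_lt_pow (by omega) hp))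
  have h2 : ∀ n, ζ ^ p ^ n = ζ ↔ ζ ^ (p ^ n - 1) = 1 := fun n => by
    rw [← Nat.sub_add_cancel (Nat.one_le_pow n p (by omega)), pow_succ, mul_eq_right₀ h0, Nat.add_sub_cancel]
  have h3 := Nat.gcd_eq_left (h.dvd_of_pow_eq_one _ ((h2 m).mp (h1 ((h2 a).mpr h.pow_eq_one))))
  rw [Nat.pow_sub_one_gcd_pow_sub_one] at h3
  have h4 := fun n => Nat.one_le_pow n p (by omega)
  exact Nat.pow_right_injective hp (show p ^ a.gcd m = p ^ a by have := h4 a; have := h4 (a.gcd m); omega) ▸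
    Nat.gcd_dvd_right a m

variable (p : ℕ) [hp : Fact p.Prime] [CharP K p] {D : ChevalleyDatum} [hT : Tab D]

theorem closure_le_iff {q : K → Prop} {M : Subgroup (GL D.Idx K)} :
    Subgroup.closure {g : GL D.Idx K | ∃ (s : ℕ) (t : K), q t ∧ (g : Matrix D.Idx D.Idx K) = D.x K s t} ≤ M ↔
      ∀ (r : Fin D.nroots) t, q t → xG D K r t ∈ M.subgroupOf (D.group K) := by
  rw [Subgroup.closure_le]
  refine ⟨fun h r t ht => h ⟨r, t, ht, rfl⟩, fun h g ⟨s, t, ht, e⟩ => ?_⟩
  by_cases hs : s < D.nroots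
  · exact (Units.ext e : g = xU D K s t) ▸ h ⟨s, hs⟩ t ht
  · exact (Units.ext (e.trans (dif_neg hs)) : g = 1) ▸ one_mem M

theorem finite_overgroup [IsAlgClosed K] {a : ℕ} (ha : 1 ≤ a) {M : Subgroup (GL D.Idx K)} [Finite M] (hM : M ≤ D.group K)
    (h : Subgroup.closure {g : GL D.Idx K | ∃ (s : ℕ) (t : K), t ^ p ^ a = t ∧
      (g : Matrix D.Idx D.Idx K) = D.x K s t} ≤ M) :
    ∃ r, 1 ≤ r ∧ Subgroup.closure {g : GL D.Idx K | ∃ (s : ℕ) (t : K), t ^ (p ^ a) ^ r = t ∧
      (g : Matrix D.Idx D.Idx K) = D.x K s t} ≤ M ∧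
      ∀ g ∈ M, ∀ i j, (g : Matrix D.Idx D.Idx K) i j ^ (p ^ a) ^ r = (g : Matrix D.Idx D.Idx K) i j := by
  have : Finite (M.subgroupOf (D.group K)) := Finite.of_equiv _ (Subgroup.subgroupOfEquivOfLe hM).symm.toEquiv
  rw [closure_le_iff] at h
  obtain ⟨m, h0, h1, h2, h3⟩ := exists_exp (fun r => h r 1 (one_pow _)) p
  have : NeZero ((p ^ a - 1 : ℕ) : K) := ⟨by
    rw [Nat.cast_pred (Nat.pow_pos hp.out.pos), Nat.cast_pow, CharP.cast_eq_zero, zero_pow (by omega)]; simp⟩
  obtain ⟨ζ, hζ⟩ := HasEnoughRootsOfUnity.exists_primitiveRoot K (p ^ a - 1)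
  obtain ⟨r, rfl⟩ := dvd_of_primitiveRoot hp.out.one_lt hζ ha fun e => h1 _ (h _ _ e)
  simp only [pow_mul] at h2 h3
  exact ⟨r, Nat.pos_of_mul_pos_left h0, closure_le_iff.mpr h2, fun g hg => h3 ⟨g, hM hg⟩ hg⟩

theorem max_subfield [Fintype K] {a r : ℕ} (ha : 1 ≤ a) (hr : r.Prime) (hK : Fintype.card K = (p ^ a) ^ r)
    {M : Subgroup (GL D.Idx K)} (hM : ∀ g, g ∈ M ↔ g ∈ D.group K ∧
      ∀ i j, (g : Matrix D.Idx D.Idx K) i j ^ p ^ a = (g : Matrix D.Idx D.Idx K) i j) :
    M ≠ D.group K ∧ ∀ H, M ≤ H → H ≤ D.group K → H = M ∨ H = D.group K := by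
  have h1 : ∀ (r : Fin D.nroots) t, (xG D K r t : GL D.Idx K) ∈ M ↔ t ^ p ^ a = t := fun r t => by
    rw [hM, and_iff_right (xG D K r t).2, ← iterateFrobenius_def, ← (xG_injective (F := K) r.2).eq_iff, ← fm_xG,
      ← mat_injective.eq_iff, mat_fm, ← Matrix.ext_iff]
    rfl
  have h2 := Nat.one_lt_pow (by omega : a ≠ 0) hp.out.one_lt
  obtain ⟨t, ht⟩ := exists_pow_ne_self (K := K) h2 (by rw [hK]; exact lt_self_pow₀ h2 hr.one_lt)
  refine ⟨fun e => ht ((h1 (θ D) t).mp (e ▸ (xG D K _ t).2)), fun H h3 h4 => ?_⟩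
  obtain ⟨m, h0, h5, h6, h7⟩ := exists_exp (H := H.subgroupOf (D.group K)) (fun r => h3 ((h1 r 1).mpr (one_pow _))) p
  obtain ⟨g, hg⟩ := IsCyclic.exists_ofOrder_eq_natCard (α := Kˣ)
  rw [Nat.card_units, Nat.card_eq_fintype_card, hK] at hg
  obtain ⟨c, hc⟩ := Nat.sub_dvd_pow_sub_pow (p ^ a) 1 r
  have h9 := Nat.sub_pos_of_lt (Nat.one_lt_pow hr.ne_zero h2)
  rw [one_pow] at hc
  obtain ⟨d, rfl⟩ := dvd_of_primitiveRoot hp.out.one_lt ((IsPrimitiveRoot.coe_units_iff.mpr
    (hg ▸ IsPrimitiveRoot.orderOf g)).pow h9 (hc.trans (mul_comm _ _))) ha fun e => h5 _ (h3 ((h1 _ _).mpr e))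
  have h10 : ∀ t : K, t ^ (p ^ a) ^ r = t := fun t => hK ▸ FiniteField.pow_card t
  refine (hr.eq_one_or_self_of_dvd _ (Nat.gcd_dvd_right d r)).imp (fun e => le_antisymm (fun g hg => (hM g).mpr
    ⟨h4 hg, fun i j => ?_⟩) h3) fun e => le_antisymm h4 fun g hg => ?_
  · have := Function.IsPeriodicPt.gcd (f := (· ^ p ^ a)) (m := d) (n := r) (x := (g : Matrix D.Idx D.Idx K) i j)
      (by simpa [Function.IsPeriodicPt, Function.IsFixedPt, pow_mul] using h7 ⟨g, h4 hg⟩ hg i j)
      (by simpa [Function.IsPeriodicPt, Function.IsFixedPt] using h10 _)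
    rwa [e] at this
  · obtain ⟨k, rfl⟩ : r ∣ d := e ▸ Nat.gcd_dvd_left d r
    have h11 : ∀ t : K, t ^ p ^ (a * (r * k)) = t := fun t => by rw [pow_mul, pow_mul, ← hK, FiniteField.pow_card_pow]
    exact (eq_top_of_simple (fun j t => h6 _ t (h11 t)) fun j t => h6 _ t (h11 t)).ge (Subgroup.mem_top ⟨g, hg⟩)

end Cfsg.Agent.ChevM
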